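import Cfsg.Agent.H99.C1Defs
import Cfsg.Agent.H98.D4Cp

/-! Automorphisms of `E3` and of overgroups of `J` which stabilize a chain. -/

set_option autoImplicit false

namespace Cfsg.Agent.H24.C1A

open Cfsg.Agent.H97 Cfsg.Agent.H96.VB Cfsg.Agent.H96.CP Cfsg.Agent.H99.C1 Cfsg.Agent.H98.D4Cp
open Subgroup
open scoped commutatorElement

theorem cj_of_sa {X : Type*} [Group X] [Finite X] {p : ℕ} [Fact p.Prime] (hG : IsPGroup p X)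
    {N : Subgroup X} {A : Subgroup (MulAut N)} (h : LA p N A) {L : List (Subgroup X)}
    (hc : List.IsChain (· ≥ ·) (N :: L)) (hn : ∀ Y ∈ L, Y.Normal) {α : MulAut N} (hα : α ∈ A)
    (hs : Sa α N L) : ∃ s, Cj α s := by
  have hL := le_of_chain hc
  have nv : ∀ (β : MulAut N) s, Cj β s → Nv β L := fun β s e Y hY y hy => by
    rw [e y (hL Y hY hy)]
    exact (hn Y hY).conj_mem y hy s
  refine h.two hG (M := A ⊓ st N L hL) inf_le_left ((isPGroup_st hG L hL).to_inf_right)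
    (fun s β e => mem_normalizer_fintype fun γ hγ => ?_) α
    ⟨hα, fun Y hY => nv_of_chain hc hs Y (List.mem_cons_of_mem _ hY), hs⟩
  have hβ := h.cj β s e
  have k := sa_conj le_rfl hL (nv β s e) (fun Y hY y hy => by
    rcases List.mem_cons.1 hY with rfl | hY
    · exact ext_mem _ hy
    · exact nv _ _ e.inv Y hY y hy) hγ.2.2
  exact mem_inf.2 ⟨mul_mem (mul_mem hβ (mem_inf.1 hγ).1) (inv_mem hβ),
    fun Y hY => nv_of_chain hc k Y (List.mem_cons_of_mem _ hY), k⟩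

theorem cent_J : centralizer (J : Set G) ≤ J := fun g hg => by
  have h1 := hg (xt 1) ⟨rfl, rfl, rfl⟩
  have h2 := hg (xv 1) ⟨rfl, rfl, rfl⟩
  have e1 := congrArg G.v h1
  have e2 := congrArg G.x h1
  have e3 := congrArg G.x h2
  simp only [G.mul_v, G.mul_x, xt, xv] at e1 e2 e3
  exact ⟨by linear_combination -e3, by linear_combination -e1, by linear_combination -e2⟩

theorem kj : KJStmt := by
  intro N A hN hJ h α hα e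
  obtain ⟨s, hs⟩ := cj_of_sa G.isPGroup h (L := [J]) (by simpa using hJ)
    (by simpa using nJ) hα ⟨fun x hx => cent_J fun y hy => by
      have h1 := nJ.conj_mem y hy x
      have h2 : ext α (x * y * x⁻¹ * x) = ext α (x * y) := by rw [inv_mul_cancel_right]
      rw [ext_map_mul α (hJ h1) hx, ext_map_mul α hx (hJ hy), e _ h1, e _ hy] at h2
      calc y * (x⁻¹ * ext α x) = x⁻¹ * (x * y * x⁻¹ * ext α x) := by group
        _ = x⁻¹ * ext α x * y := by rw [h2, mul_assoc], e⟩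
  refine ⟨s, cent_J fun y hy => ?_, hs⟩
  have := hs y (hJ hy)
  rw [e y hy, eq_mul_inv_iff_mul_eq] at this
  exact this

theorem nN3 : N3.Normal := ⟨fun g ⟨e1, e2, e3, e4⟩ s => by
  refine ⟨?_, ?_, ?_, ?_⟩ <;> simp [*]⟩

theorem nDz : Dz.Normal := ⟨fun g ⟨e1, e2, e3, e4, e5, e6⟩ s => by
  refine ⟨?_, ?_, ?_, ?_, ?_, ?_⟩ <;> simp [*]; ring⟩

theorem nZ2 : Z2.Normal := ⟨fun g ⟨⟨e1, e2, e3, e4, e5, e6⟩, _, _, _, e7, _⟩ s => by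
  refine ⟨⟨?_, ?_, ?_, ?_, ?_, ?_⟩, ?_, ?_, ?_, ?_, ?_, ?_⟩ <;> simp [*] <;> ring⟩

theorem nZ : Z.Normal := ⟨fun g ⟨e1, e2, e3, e4, e5, e6, e7, e8⟩ s => by
  refine ⟨?_, ?_, ?_, ?_, ?_, ?_, ?_, ?_⟩ <;> simp [*] <;> ring⟩

theorem cA {h r d : G} (hh : h ∈ E3) (hr : r ∈ R) (hd : d ∈ Dz) :
    (⁅h, r⁆ * d).c = h.a * r.b ∧ (⁅h, r⁆ * d).x = h.a * r.v := by
  obtain ⟨e1, e2, e3, e4, e5, e6⟩ := hd
  obtain ⟨k1, k2⟩ := mem_R.1 hr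
  rw [mem_E3] at hh
  constructor <;> simp [cm, *] <;> ring

theorem cB {r r' d : G} (hr : r ∈ R) (hr' : r' ∈ R) (hd : d ∈ Z2) :
    (⁅r, r'⁆ * d).w = 2 * (r.b * r'.v - r'.b * r.v) := by
  obtain ⟨⟨e1, e2, e3, e4, e5, e6⟩, -⟩ := mem_Z2.1 hd
  obtain ⟨k1, k2⟩ := mem_R.1 hr
  obtain ⟨l1, l2⟩ := mem_R.1 hr'
  simp [cm, *]; ring

theorem cC {r n d : G} (hr : r ∈ R) (hn : n ∈ N3) (hd : d ∈ Z) :
    (⁅r, n⁆ * d).y = r.b * n.x - n.c * r.v := by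
  obtain ⟨e1, e2, e3, e4, e5, e6, e7, e8⟩ := hd
  obtain ⟨k1, k2⟩ := mem_R.1 hr
  obtain ⟨l1, l2, l3, l4⟩ := hn
  simp [cm, *]; ring

theorem cD {n n' : G} (hn : n ∈ N3) (hn' : n' ∈ N3) :
    ⁅n, n'⁆ = xz (2 * (n.c * n'.x - n'.c * n.x)) := by
  obtain ⟨k1, k2, k3, k4⟩ := hn
  obtain ⟨l1, l2, l3, l4⟩ := hn'
  ext <;> simp [cm, xz, *] <;> ring

theorem a3a (ch : Ch3) : A3aStmt := by
  intro A h α hα ha hb
  have RE : R ≤ E3 := inf_le_right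
  have NR : N3 ≤ R := fun _ ⟨e1, _, _, e4⟩ => ⟨e1, e4⟩
  have DN : Dz ≤ N3 := fun _ ⟨e1, e2, _, _, e5, e6⟩ => ⟨e1, e2, e5, e6⟩
  have ZD : Z2 ≤ Dz := inf_le_right
  have ZZ : Z ≤ Z2 := fun _ ⟨e1, e2, e3, _, e5, e6, e7, e8⟩ =>
    ⟨⟨e1, e2, e3, e6, e7, e8⟩, e1, e2, e3, e5, e7, e8⟩
  have iv : ∀ {X : Subgroup G}, Ch E3 X → ∀ {g}, g ∈ X → ext α g ∈ X := fun c g hg =>
    c.2 α g (c.1 hg) hg
  have dec : ∀ {u v g : G}, u ∈ E3 → v ∈ E3 → g ∈ E3 →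
      ext α g = ⁅ext α u, ext α v⁆ * ext α (⁅u, v⁆⁻¹ * g) := fun {u v g} hu hv hg => by
    have m : ⁅u, v⁆ ∈ E3 := mul_mem (mul_mem (mul_mem hu hv) (inv_mem hu)) (inv_mem hv)
    rw [← ext_map_comm α hu hv, ← ext_map_mul α m (mul_mem (inv_mem m) hg), mul_inv_cancel_left]
  have h1 : ∀ g ∈ N3, (ext α g).c = g.c ∧ (ext α g).x = g.x := fun g hg => by
    have hr : (⟨0, g.c, 0, 0, 0, 0, 0, g.x, 0⟩ : G) ∈ R := ⟨rfl, rfl⟩
    have hx : xa 1 ∈ E3 := rfl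
    have := cA (ext_mem α hx) (iv ch.r hr) (iv ch.d
      (g := ⁅xa 1, (⟨0, g.c, 0, 0, 0, 0, 0, g.x, 0⟩ : G)⁆⁻¹ * g) (by
      obtain ⟨e1, e2, e3, e4⟩ := hg
      refine ⟨?_, ?_, ?_, ?_, ?_, ?_⟩ <;> simp [cm, xa, e1, e2, e3, e4]))
    rw [← dec hx (RE hr) (RE (NR hg)), ha _ hx, (hb _ hr).1, (hb _ hr).2] at this
    simpa [xa] using this
  have h2 : ∀ g ∈ Dz, (ext α g).w = g.w := fun g hg => by
    have hr : xb (-g.w) ∈ R := ⟨rfl, rfl⟩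
    have hx : xv 1 ∈ R := ⟨rfl, rfl⟩
    have := cB (iv ch.r hr) (iv ch.r hx) (iv ch.z2 (g := ⁅xb (-g.w), xv 1⁆⁻¹ * g) (by
      obtain ⟨e1, e2, e3, e4, e5, e6⟩ := hg
      refine ⟨⟨?_, ?_, ?_, ?_, ?_, ?_⟩, ?_, ?_, ?_, ?_, ?_, ?_⟩ <;>
        simp [cm, xb, xv, e1, e2, e3, e4, e5, e6]
      linear_combination g.w * three))
    rw [← dec (RE hr) (RE hx) (RE (NR (DN hg))), (hb _ hr).1, (hb _ hr).2, (hb _ hx).1,
      (hb _ hx).2] at this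
    simp only [xb, xv] at this
    linear_combination this - g.w * three
  have h3 : ∀ g ∈ Z2, (ext α g).y = g.y := fun g hg => by
    have hr : xb g.y ∈ R := ⟨rfl, rfl⟩
    have hx : xx 1 ∈ N3 := ⟨rfl, rfl, rfl, rfl⟩
    have := cC (iv ch.r hr) (iv ch.n hx) (iv ch.z (g := ⁅xb g.y, xx 1⁆⁻¹ * g) (by
      obtain ⟨⟨e1, e2, e3, e4, e5, e6⟩, -, -, -, e7, -⟩ := mem_Z2.1 hg
      refine ⟨?_, ?_, ?_, ?_, ?_, ?_, ?_, ?_⟩ <;> simp [cm, xb, xx, e1, e2, e3, e4, e5, e6, e7]))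
    rw [← dec (RE hr) (RE (NR hx)) (RE (NR (DN (ZD hg)))), (hb _ hr).1, (hb _ hr).2, (h1 _ hx).1,
      (h1 _ hx).2] at this
    simpa [xb, xx] using this
  have h4 : ∀ g ∈ Z, ext α g = g := fun g hg => by
    have hr : xc (-g.z) ∈ N3 := ⟨rfl, rfl, rfl, rfl⟩
    have hx : xx 1 ∈ N3 := ⟨rfl, rfl, rfl, rfl⟩
    have e : g = ⁅xc (-g.z), xx 1⁆ := by
      obtain ⟨e1, e2, e3, e4, e5, e6, e7, e8⟩ := hg
      rw [cD hr hx]
      ext <;> simp [xz, xc, xx, e1, e2, e3, e4, e5, e6, e7, e8]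
      linear_combination g.z * three
    rw [e, ext_map_comm α (RE (NR hr)) (RE (NR hx)), cD (iv ch.n hr) (iv ch.n hx), cD hr hx,
      (h1 _ hr).1, (h1 _ hr).2, (h1 _ hx).1, (h1 _ hx).2]
  obtain ⟨s, hs⟩ := cj_of_sa G.isPGroup h (L := [R, N3, Dz, Z2, Z]) (by simp [RE, NR, DN, ZD, ZZ])
    (by simpa using ⟨(inferInstance : (E1 ⊓ E3).Normal), nN3, nDz, nZ2, nZ⟩) hα
    ⟨fun g hg => mem_R.2 ⟨by simp [ha g hg], mem_E3.1 (mul_mem (inv_mem hg) (ext_mem α hg))⟩,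
      fun g hg => by
        obtain ⟨e1, e2⟩ := mem_R.1 hg
        obtain ⟨k1, k2⟩ := mem_R.1 (iv ch.r hg)
        refine ⟨?_, ?_, ?_, ?_⟩ <;> simp [e1, e2, k1, k2, hb g hg],
      fun g hg => by
        obtain ⟨e1, e2, e3, e4⟩ := id hg
        obtain ⟨k1, k2, k3, k4⟩ := iv ch.n hg
        refine ⟨?_, ?_, ?_, ?_, ?_, ?_⟩ <;> simp [e1, e2, e3, e4, k1, k2, k3, k4, h1 g hg],
      fun g hg => by
        obtain ⟨e1, e2, e3, e4, e5, e6⟩ := id hg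
        obtain ⟨k1, k2, k3, k4, k5, k6⟩ := iv ch.d hg
        refine ⟨⟨?_, ?_, ?_, ?_, ?_, ?_⟩, ?_, ?_, ?_, ?_, ?_, ?_⟩ <;>
          simp [e1, e2, e3, e4, e5, e6, k1, k2, k3, k4, k5, k6, h2 g hg],
      fun g hg => by
        obtain ⟨⟨e1, e2, e3, e4, e5, e6⟩, -, -, -, e7, -⟩ := mem_Z2.1 hg
        obtain ⟨⟨k1, k2, k3, k4, k5, k6⟩, -, -, -, k7, -⟩ := mem_Z2.1 (iv ch.z2 hg)
        refine ⟨?_, ?_, ?_, ?_, ?_, ?_, ?_, ?_⟩ <;>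
          simp [e1, e2, e3, e4, e5, e6, e7, k1, k2, k3, k4, k5, k6, k7, h3 g hg], h4⟩
  refine ⟨s, ?_, hs⟩
  have e := (hb (xb 1) ⟨rfl, rfl⟩).2
  rw [hs (xb 1) rfl] at e
  simp only [G.mul_v, G.mul_b, G.inv_v, G.inv_t, xb] at e
  show s.t = 0
  linear_combination -e

end Cfsg.Agent.H24.C1A
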