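import Cfsg.Agent.H62.C1Kb1

/-! The case `J₄ ≰ P` for an essential subgroup `P` not containing `J`. -/

set_option autoImplicit false

namespace Cfsg.Agent.H24.C1K

open Cfsg.Agent.H99.C1 Cfsg.Agent.H62.C1K Subgroup
open scoped commutatorElement

/-- the abelian subgroups of order `3⁵` over `V₂` -/
def Pk (k : K) : Subgroup G where
  carrier := {g | g.a = 0 ∧ g.t = 0 ∧ g.x = k * g.c ∧ g.v = k * g.b}
  one_mem' := ⟨rfl, rfl, by simp, by simp⟩
  mul_mem' := by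
    rintro g h ⟨e1, e2, e3, e4⟩ ⟨k1, k2, k3, k4⟩
    refine ⟨by simp [*], by simp [*], ?_, ?_⟩ <;> simp [*] <;> ring
  inv_mem' := by
    rintro g ⟨e1, e2, e3, e4⟩
    refine ⟨by simp [*], by simp [*], ?_, ?_⟩ <;> simp [*]

theorem mem_Pk {k : K} {g : G} : g ∈ Pk k ↔ g.a = 0 ∧ g.t = 0 ∧ g.x = k * g.c ∧ g.v = k * g.b :=
  Iff.rfl

theorem card_Pk (k : K) : Nat.card (Pk k) = 243 := by
  rw [Nat.card_congr (β := K × K × K × K × K)
    { toFun := fun g => (g.1.b, g.1.c, g.1.z, g.1.y, g.1.w)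
      invFun := fun p => ⟨⟨0, p.1, p.2.1, p.2.2.1, p.2.2.2.1, k * p.2.1, p.2.2.2.2, k * p.1, 0⟩,
        rfl, rfl, rfl, rfl⟩
      left_inv := fun g => Subtype.ext (G.ext g.2.1.symm rfl rfl rfl rfl g.2.2.2.1.symm rfl
        g.2.2.2.2.symm g.2.2.1.symm)
      right_inv := fun _ => rfl }]
  simp [K]

theorem card_Dz : Nat.card Dz = 27 := by
  rw [Nat.card_congr (β := K × K × K)
    { toFun := fun g => (g.1.z, g.1.y, g.1.w)
      invFun := fun p => ⟨⟨0, 0, 0, p.1, p.2.1, 0, p.2.2, 0, 0⟩, rfl, rfl, rfl, rfl, rfl, rfl⟩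
      left_inv := fun g => Subtype.ext (G.ext g.2.1.symm g.2.2.1.symm g.2.2.2.1.symm rfl rfl
        g.2.2.2.2.1.symm rfl g.2.2.2.2.2.1.symm g.2.2.2.2.2.2.symm)
      right_inv := fun _ => rfl }]
  simp [K]

theorem card_J5 : Nat.card J5 = 243 := by
  rw [Nat.card_congr (β := K × K × K × K × K)
    { toFun := fun g => (g.1.z, g.1.y, g.1.x, g.1.w, g.1.v)
      invFun := fun p => ⟨⟨0, 0, 0, p.1, p.2.1, p.2.2.1, p.2.2.2.1, p.2.2.2.2, 0⟩,
        ⟨rfl, rfl, rfl⟩, rfl⟩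
      left_inv := fun g => Subtype.ext (G.ext g.2.1.1.symm g.2.1.2.1.symm g.2.1.2.2.symm rfl rfl
        rfl rfl rfl (mem_J5.1 g.2).2.symm)
      right_inv := fun _ => rfl }]
  simp [K]

theorem Dz_le_J5 : Dz ≤ J5 := fun _ ⟨e1, e2, e3, _, _, e6⟩ => ⟨⟨e1, e2, e3⟩, e6⟩

theorem cm_J5 {w x : G} (hw : w ∈ J5) (hx : x.a = 0) : ⁅w, x⁆ ∈ Dz := by
  obtain ⟨⟨e1, e2, e3⟩, e4⟩ := mem_J5.1 hw
  refine ⟨?_, ?_, ?_, ?_, ?_, ?_⟩ <;> simp [cm, *]

theorem cm_Dz {w x : G} (hw : w ∈ Dz) (hx : x.a = 0) : ⁅w, x⁆ = 1 := by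
  obtain ⟨e1, e2, e3, e4, e5, e6⟩ := hw
  ext <;> simp [cm, *] <;> ring

theorem conj_Pk {k : K} {s g : G} (hs : s.t = 0) (hb : s.b = 0) (hc : s.c = 0) (hg : g ∈ Pk k) :
    s * g * s⁻¹ ∈ Pk k := by
  obtain ⟨e1, e2, e3, e4⟩ := hg
  refine ⟨?_, ?_, ?_, ?_⟩ <;> simp [*] <;> ring

theorem conj_Dz (s : G) {g : G} (hg : g ∈ Dz) : s * g * s⁻¹ ∈ Dz := by
  obtain ⟨e1, e2, e3, e4, e5, e6⟩ := hg
  refine ⟨?_, ?_, ?_, ?_, ?_, ?_⟩ <;> simp [*] <;> ring

theorem cjs_eq {s : G} {H : Subgroup G} (h : ∀ g ∈ H, s * g * s⁻¹ ∈ H) : cjs s H = H :=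
  eq_of_le_of_card_ge (by rintro _ ⟨g, hg, rfl⟩; exact h g hg)
    (card_map_of_injective (MulAut.conj s).injective).ge

set_option maxHeartbeats 3000000 in
theorem kb2 (le : LEStmt) : KB2Stmt := by
  rintro P Q h ⟨d, dQ, ⟨da, db⟩, dJ⟩ h4
  replace da : d.a = 0 := da
  replace db : d.b = 0 := db
  have dc : d.c ≠ 0 := fun e => dJ ⟨da, db, e⟩
  have hI : ∀ i ∈ Q, i ∈ J → i.x = 0 ∧ i.v = 0 ∧ i.t = 0 := fun i hi ⟨e1, e2, e3⟩ => by
    have e := h.ab i hi d dQ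
    have e4 := congrArg G.x e
    have e5 := congrArg G.y e
    have e6 := congrArg G.z e
    simp only [G.mul_x, G.mul_y, G.mul_z, e1, e2, e3, da, db] at e4 e5 e6
    have ht : i.t = 0 := mul_eq0 dc (by linear_combination -e4)
    rw [ht] at e6
    exact ⟨mul_eq0 dc (by linear_combination e6 + d.c * i.x * three),
      mul_eq0 dc (by linear_combination -e5), ht⟩
  have cJ : ∀ j ∈ J, ∀ g, ⁅j, g⁆ ∈ J := fun j hj g => by
    rw [cm, mul_assoc, mul_assoc, ← mul_assoc g]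
    exact mul_mem hj (nJ.conj_mem _ (inv_mem hj) g)
  have pz : ∀ k, xz k ∈ P := fun k => h.cen _ fun x _ => by ext <;> simp [xz, add_comm]
  have py : ∀ k, xy k ∈ P := mem_all xy rfl (fun k => by ext <;> simp [xy]) one_ne_zero
    (by_contra fun e => h.k3 (xy 1) ⟨rfl, rfl, rfl⟩ e (fun g _ => by
      convert pz (-2 * g.a) using 1
      ext <;> simp [cm, xy, xz] <;> ring) d dQ dJ (by
      rw [cm_Dz (w := xy 1) ⟨rfl, rfl, rfl, rfl, rfl, rfl⟩ da]; exact one_mem _))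
  have pzy : ∀ z y, (⟨0, 0, 0, z, y, 0, 0, 0, 0⟩ : G) ∈ P := fun z y => by
    convert mul_mem (pz z) (py y) using 1
    ext <;> simp [xy, xz]
  have pw : ∀ k, xw k ∈ P := mem_all xw rfl (fun k => by ext <;> simp [xw]) one_ne_zero
    (by_contra fun e => h.k3 (xw 1) ⟨rfl, rfl, rfl⟩ e (fun g _ => by
      convert pzy (-(g.a * g.a)) (-g.a) using 1
      ext <;> simp [cm, xw] <;> ring) d dQ dJ (by
      rw [cm_Dz (w := xw 1) ⟨rfl, rfl, rfl, rfl, rfl, rfl⟩ da]; exact one_mem _))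
  have hD : Dz ≤ P := fun g ⟨e1, e2, e3, e4, e5, e6⟩ => by
    convert mul_mem (pzy g.z g.y) (pw g.w) using 1
    ext <;> simp [xw, e1, e2, e3, e4, e5, e6]
  have px : ∀ k, xx k ∈ P → k = 0 := fun k hk => by_contra fun e => h4 fun g hg => by
    obtain ⟨⟨e1, e2, e3⟩, -, -, e4, e5⟩ := mem_J4.1 hg
    convert mul_mem (hD (x := ⟨0, 0, 0, g.z, g.y, 0, g.w, 0, 0⟩) ⟨rfl, rfl, rfl, rfl, rfl, rfl⟩)
      (mem_all xx rfl (fun k => by ext <;> simp [xx]) e hk g.x) using 1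
    ext <;> simp [xx, e1, e2, e3, e4, e5]
  have k3 := h.k3 (xx 1) ⟨rfl, rfl, rfl⟩ (fun e => one_ne_zero (px 1 e)) (fun g _ => by
    convert pzy (-2 * g.c) (-g.b) using 1
    ext <;> simp [cm, xx] <;> ring)
  have hz : ∀ k, xz k ∈ Q → k = 0 := fun k hk => by_contra fun e => k3 d dQ dJ (by
    convert mem_all xz rfl (fun k => by ext <;> simp [xz]) e hk (-2 * d.c) using 1
    ext <;> simp [cm, xx, xz, da, db] <;> ring)
  have qa : ∀ q ∈ Q, q.a = 0 := fun q hq => by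
    have := hz (-2 * q.a) (by
      convert h.bq (xy 1) ⟨rfl, rfl, rfl⟩ (py 1) q hq using 1
      ext <;> simp [cm, xy, xz] <;> ring)
    linear_combination this + q.a * three
  have bt : ∀ j ∈ J, j ∈ P → j.t = 0 := fun j hj hP => by
    have := (hI _ (h.bq j hj hP d dQ) (cJ j hj d)).1
    obtain ⟨e1, e2, e3⟩ := hj
    simp only [cm, G.mul_x, G.mul_a, G.mul_c, G.inv_x, G.inv_v,
      G.inv_t, G.inv_a, G.inv_b, G.inv_c, e1, e2, e3, da, db] at this
    exact mul_eq0 dc (by linear_combination -this)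
  have dv : ∀ q ∈ Q, ∀ q' ∈ Q, q.b = q'.b → q.c = q'.c → q * q'⁻¹ ∈ J := fun q hq q' hq' e1 e2 =>
    ⟨by simp [qa q hq, qa q' hq'], by simp [e1], by simp [e2, qa q hq, qa q' hq']⟩
  have c27 : 27 ≤ Nat.card Q := by
    rw [h.card, ← card_Dz]
    exact card_le_of_le (le_inf hD (Dz_le_J5.trans inf_le_left))
  have pa : ∀ g ∈ P, g.a = 0 := fun g hg => by_contra fun ga => by
    have h1 : ∀ i ∈ Q, i ∈ J → i.w = 0 → i = 1 := fun i hi hJ hw => by
      obtain ⟨k1, k2, k3⟩ := hI i hi hJ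
      obtain ⟨e1, e2, e3⟩ := hJ
      have h2 := hz (2 * g.a * i.y) (by
        convert mul_mem (h.nm g hg i hi) (inv_mem hi) using 1
        ext <;> simp [xz, e1, e2, e3, k1, k2, k3, hw] <;> ring)
      have h3 : i.y = 0 := mul_eq0 ga (by linear_combination -h2 + g.a * i.y * three)
      have h4 : i = xz i.z := G.ext e1 e2 e3 rfl h3 k1 hw k2 k3
      rw [h4, hz i.z (h4 ▸ hi)]
      rfl
    have h2 : ∀ i ∈ Q, i ∈ J → i = 1 := fun i hi hJ => by
      refine h1 i hi hJ ?_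
      obtain ⟨k1, k2, k3⟩ := hI i hi hJ
      have h3 := h1 _ (mul_mem (h.nm g hg i hi) (inv_mem hi))
        (mul_mem (nJ.conj_mem i hJ g) (inv_mem hJ)) (by
          obtain ⟨e1, e2, e3⟩ := hJ
          simp [e2, k2, k3]; ring)
      have h4 := congrArg G.y h3
      obtain ⟨e1, e2, e3⟩ := hJ
      simp only [G.mul_y, G.mul_a, G.mul_c, G.mul_b, G.inv_x,
        G.inv_v, G.inv_y, G.inv_w, G.inv_t, G.inv_a, G.inv_b, G.inv_c, e1, e2, e3, k1, k2, k3,
        G.one_y] at h4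
      exact mul_eq0 ga (by linear_combination h4)
    have c9 : Nat.card Q ≤ Nat.card (K × K) :=
      Nat.card_le_card_of_injective (fun q => (q.1.b, q.1.c)) fun q q' e => by
        simp only [Prod.mk.injEq] at e
        exact Subtype.ext (mul_inv_eq_one.1
          (h2 _ (mul_mem q.2 (inv_mem q'.2)) (dv _ q.2 _ q'.2 e.1 e.2)))
    have := c27.trans c9
    simp [K] at this
  have hB : P ⊓ J = Dz := le_antisymm (fun j hj0 => by_contra fun hn => by
    obtain ⟨hP, hj⟩ := mem_inf.1 hj0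
    have jt := bt j hj hP
    obtain ⟨e1, e2, e3⟩ := hj
    have j1 : (⟨0, 0, 0, 0, 0, j.x, 0, j.v, 0⟩ : G) ∈ P := by
      convert mul_mem hP (hD (x := ⟨0, 0, 0, -j.z, -j.y, 0, -j.w, 0, 0⟩)
        ⟨rfl, rfl, rfl, rfl, rfl, rfl⟩) using 1
      ext <;> simp [e1, e2, e3, jt]
    have jv : j.v ≠ 0 := fun e => hn ⟨e1, e2, e3, px _ (by rw [e] at j1; exact j1), e, jt⟩
    have j2 : ∀ l, (⟨0, 0, 0, 0, 0, l * (j.x * j.v), 0, l, 0⟩ : G) ∈ P :=
      mem_all (fun l => ⟨0, 0, 0, 0, 0, l * (j.x * j.v), 0, l, 0⟩) (by ext <;> simp)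
        (fun k => by ext <;> simp; ring) jv (by
          have : ∀ x v : K, v ≠ 0 → v * (x * v) = x := by decide
          simpa only [this _ _ jv] using j1)
    have c4 : Nat.card (K × K × K × K) ≤ Nat.card Q := h.card ▸
      Nat.card_le_card_of_injective (fun p => (⟨⟨0, 0, 0, p.1, p.2.1, p.2.2.2 * (j.x * j.v),
        p.2.2.1, p.2.2.2, 0⟩, mem_inf.2 ⟨by
          convert mul_mem (hD (x := ⟨0, 0, 0, p.1, p.2.1, 0, p.2.2.1, 0, 0⟩)
            ⟨rfl, rfl, rfl, rfl, rfl, rfl⟩) (j2 p.2.2.2) using 1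
          ext <;> simp, rfl, rfl, rfl⟩⟩ : (P ⊓ J : Subgroup G))) fun p p' e => by
          have e := G.mk.inj (Subtype.mk.inj e)
          ext <;> tauto
    have inj : Function.Injective fun q : Q => (q.1.b, q.1.c, q.1.y, q.1.w) := fun q q' e => by
      simp only [Prod.mk.injEq] at e
      obtain ⟨e1, e2, e3, e4⟩ := e
      have m := mul_mem q.2 (inv_mem q'.2)
      have mJ := dv _ q.2 _ q'.2 e1 e2
      obtain ⟨k1, k2, k3⟩ := hI _ m mJ
      have e0 : q.1 = q.1 * q'.1⁻¹ * q'.1 := by group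
      generalize q.1 * q'.1⁻¹ = i at *
      obtain ⟨j1, j2, j3⟩ := mJ
      rw [e0] at e3 e4
      simp only [G.mul_y, G.mul_w, j1, j2, j3] at e3 e4
      have e5 : i = xz i.z := G.ext j1 j2 j3 rfl (show _ = 0 by linear_combination e3) k1
        (show _ = 0 by linear_combination e4) k2 k3
      refine Subtype.ext ?_
      rw [e0, e5, hz i.z (e5 ▸ m)]
      exact one_mul _
    obtain ⟨q, hq⟩ := (inj.bijective_of_nat_card_le c4).2 (1, j.x * j.v, 0, 0)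
    obtain ⟨r, hr⟩ := (inj.bijective_of_nat_card_le c4).2 (0, 1, 0, 0)
    simp only [Prod.mk.injEq] at hq hr
    refine k3 q q.2 (fun e => one_ne_zero (hq.1.symm.trans e.2.1)) ?_
    convert h.bq _ ⟨rfl, rfl, rfl⟩ (j2 1) r r.2 using 1
    ext <;> simp [cm, xx, qa _ q.2, qa _ r.2, hq.1, hq.2.1, hr.1, hr.2.1] <;> ring)
    (le_inf hD (Dz_le_J5.trans inf_le_left))
  have cQ : Nat.card Q = 27 := by rw [h.card, hB, card_Dz]
  have h5 : J5 ⊓ P = Dz := le_antisymm (fun g hg => hB.le ⟨hg.2, hg.1.1⟩) (le_inf Dz_le_J5 hD)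
  have wl := h.wl J5 inf_le_left fun j hj g hg => hD (cm_J5 hj (pa g hg))
  have ix := h.ix
  rw [h5, hB, card_J5, card_Dz] at wl
  rw [hB, card_Dz] at ix
  have inj : Function.Injective fun m : Q.map ug => (m.1.1 1 2, m.1.1 2 5) := by
    rintro ⟨_, q, hq, rfl⟩ ⟨_, r, hr, rfl⟩ e
    have e1 : q.b = r.b := congrArg Prod.fst e
    have e2 : q.c = r.c := congrArg Prod.snd e
    exact Subtype.ext (by simp only [ug_apply, qa q hq, qa r hr, e1, e2])
  have sj : ∀ b c, ∃ q ∈ Q, q.b = b ∧ q.c = c := fun b c => by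
    obtain ⟨⟨_, q, hq, rfl⟩, e⟩ := (inj.bijective_of_nat_card_le (by
      have : Nat.card (K × K) = 9 := by simp [K]
      rw [this]
      by_contra hc
      have h1 : Nat.card (Q ⊓ J : Subgroup G) ≤ 3 := by omega
      have h2 := Nat.mul_le_mul (show Nat.card (Q.map ug) ≤ 8 by omega) h1
      omega)).2 (b, c)
    exact ⟨q, hq, congrArg Prod.fst e, congrArg Prod.snd e⟩
  obtain ⟨d1, m1, b1, c1⟩ := sj 1 0
  obtain ⟨d2, m2, b2, c2⟩ := sj 0 1
  have a1 := qa _ m1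
  have a2 := qa _ m2
  have t1 : d1.t = 0 := by
    have := congrArg G.w (h.ex _ m1)
    simp only [pow_succ, pow_zero, one_mul, G.mul_w, G.mul_b, b1, G.one_w] at this
    linear_combination -this + (d1.w + 2 * d1.v + 2 * d1.t) * three
  have t2 : d2.t = 0 := by
    have := congrArg G.z (h.ex _ m2)
    simp only [pow_succ, pow_zero, one_mul, G.mul_z, G.mul_a, G.mul_c, a2, b2, c2, G.one_z] at this
    linear_combination -this + (d2.z + 2 * d2.x + 2 * d2.t) * three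
  have v2 : d2.v = 0 := by
    have := congrArg G.w (h.ab _ m1 _ m2)
    simp only [G.mul_w, b1, b2, t2] at this
    linear_combination -this + d2.v * three
  have qs : Q ≤ Pk d2.x := fun q hq => by
    have e := h.ab _ hq _ m2
    have e4 := congrArg G.x e
    have e5 := congrArg G.y e
    have e6 := congrArg G.z e
    simp only [G.mul_x, G.mul_y, G.mul_z, qa q hq, a2, b2, c2, t2, v2] at e4 e5 e6
    have ht : q.t = 0 := by linear_combination -e4
    rw [ht] at e6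
    exact ⟨qa q hq, ht, by linear_combination e6 + (q.x - q.c * d2.x) * three,
      by linear_combination -e5⟩
  have dk : Dz ≤ Pk d2.x := fun g ⟨e1, e2, e3, e4, e5, e6⟩ => ⟨e1, e6, by simp [e3, e4], by simp [e2, e5]⟩
  have hP : P = Pk d2.x := by
    refine le_antisymm (fun g hg => ?_) fun g hg => ?_ <;> obtain ⟨q, hq, e1, e2⟩ := sj g.b g.c
    · exact (mul_mem_cancel_right (inv_mem (qs hq))).1 (dk (hB.le (mem_inf.2 ⟨mul_mem hg
        (inv_mem (h.le hq)), by simp [pa g hg, qa q hq], by simp [e1],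
          by simp [e2, pa g hg, qa q hq]⟩)))
    · refine (mul_mem_cancel_right (inv_mem (h.le hq))).1 (hD ?_)
      obtain ⟨k1, k2, k3, k4⟩ := hg
      obtain ⟨l1, l2, l3, l4⟩ := qs hq
      refine ⟨?_, ?_, ?_, ?_, ?_, ?_⟩ <;> simp [k1, k2, k3, k4, l1, l2, l3, l4, e1, e2]
  have hQ : Q ⊓ J = Q ⊓ Dz := le_antisymm (fun g hg => ⟨hg.1, hB.le ⟨h.le hg.1, hg.2⟩⟩)
    (inf_le_inf_left _ (Dz_le_J5.trans inf_le_left))
  have nor : ∀ s : G, (∀ g ∈ P, s * g * s⁻¹ ∈ P) → s ∈ normalizer (P : Set G) := fun s hs =>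
    mem_normalizer_fintype hs
  have n5 : ∀ w ∈ J5, w ∈ normalizer (P : Set G) := fun w hw => nor w fun g hg =>
    (mul_mem_cancel_right (inv_mem hg)).1 (hD (cm_J5 hw (pa g hg)))
  have na : xa 1 ∈ normalizer (P : Set G) := nor _ fun g hg => by
    rw [hP] at hg ⊢
    exact conj_Pk rfl rfl rfl hg
  refine le P Dz Q J5 Dz (xa 1) (fun x hx y hy => ?_) (by rw [hP, card_Pk]) hD card_Dz h.le cQ
    (fun e => dJ (Dz_le_J5 (e.le dQ)).1) Dz_le_J5 (by rw [card_J5, card_Dz])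
    (fun w hw x hx => cm_J5 hw (pa x hx))
    (fun w hw x hx => commutatorElement_eq_one_iff_mul_comm.2 (J_comm hw.1 (Dz_le_J5 hx).1))
    (fun w hw x hx => cm_Dz hw (pa x hx))
    (cjs_eq fun g hg => (mem_normalizer_iff.1 na g).1 hg) (cjs_eq fun g hg => conj_Dz _ hg)
    (fun w hw hn => ?_) fun w hw => ?_
  · rw [hP] at hx hy
    obtain ⟨k1, k2, k3, k4⟩ := hx
    obtain ⟨l1, l2, l3, l4⟩ := hy
    ext <;> simp [k1, k2, k3, k4, l1, l2, l3, l4] <;> ring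
  · rw [← hQ]
    exact h.k4 w (n5 w hw) fun e => hn (h5.le ⟨hw, e⟩)
  · rw [← hQ]
    refine h.k4 _ (mul_mem (inv_mem na) (n5 w hw)) fun e => ?_
    have := pa _ e
    rw [G.mul_a, hw.1.1] at this
    exact absurd this (by decide)

theorem eqns_C1Kb2 : True := by
  have _ := @Pk.eq_1
  trivial

end Cfsg.Agent.H24.C1K
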