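import Cfsg.Agent.H24.C1Kb2

/-! The case that `Q` contains an element over `V₁` or `V₂` outside the centre of `U`. -/

set_option autoImplicit false

namespace Cfsg.Agent.H24.C1K

open Cfsg.Agent.H99.C1 Cfsg.Agent.H62.C1K Subgroup
open scoped commutatorElement

theorem card_J : Nat.card J = 729 := by
  rw [Nat.card_congr (β := K × K × K × K × K × K)
    { toFun := fun g => (g.1.z, g.1.y, g.1.x, g.1.w, g.1.v, g.1.t)
      invFun := fun p => ⟨⟨0, 0, 0, p.1, p.2.1, p.2.2.1, p.2.2.2.1, p.2.2.2.2.1, p.2.2.2.2.2⟩,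
        rfl, rfl, rfl⟩
      left_inv := fun g => Subtype.ext (G.ext g.2.1.symm g.2.2.1.symm g.2.2.2.symm rfl rfl
        rfl rfl rfl rfl)
      right_inv := fun _ => rfl }]
  simp [K]

theorem card_Q0 : Nat.card Q0 = 27 := by
  rw [Nat.card_congr (β := K × K × K)
    { toFun := fun g => (g.1.z, g.1.y, g.1.x)
      invFun := fun p => ⟨⟨0, 0, 0, p.1, p.2.1, p.2.2, 0, 0, 0⟩, rfl, rfl, rfl, rfl, rfl, rfl⟩
      left_inv := fun g => Subtype.ext (G.ext g.2.1.symm g.2.2.1.symm g.2.2.2.1.symm rfl rfl rfl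
        g.2.2.2.2.1.symm g.2.2.2.2.2.1.symm g.2.2.2.2.2.2.symm)
      right_inv := fun _ => rfl }]
  simp [K]

/-- the kernel of the square of `u - 1` for `u = (1, 0, k)` -/
def Wk (k : K) : Subgroup G where
  carrier := {g | g.a = 0 ∧ g.b = 0 ∧ g.c = 0 ∧ g.w = -(2 * k * g.v + k * k * g.t)}
  one_mem' := ⟨rfl, rfl, rfl, by simp⟩
  mul_mem' := by
    rintro g h ⟨e1, e2, e3, e4⟩ ⟨k1, k2, k3, k4⟩
    refine ⟨by simp [*], by simp [*], by simp [*], ?_⟩
    simp [*]; ring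
  inv_mem' := by
    rintro g ⟨e1, e2, e3, e4⟩
    refine ⟨by simp [*], by simp [*], by simp [*], ?_⟩
    simp [*]; ring

theorem card_Wk (k : K) : Nat.card (Wk k) = 243 := by
  rw [Nat.card_congr (β := K × K × K × K × K)
    { toFun := fun g => (g.1.z, g.1.y, g.1.x, g.1.v, g.1.t)
      invFun := fun p => ⟨⟨0, 0, 0, p.1, p.2.1, p.2.2.1,
        -(2 * k * p.2.2.2.1 + k * k * p.2.2.2.2), p.2.2.2.1, p.2.2.2.2⟩, rfl, rfl, rfl, rfl⟩
      left_inv := fun g => Subtype.ext (G.ext g.2.1.symm g.2.2.1.symm g.2.2.2.1.symm rfl rfl rfl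
        g.2.2.2.2.symm rfl rfl)
      right_inv := fun _ => rfl }]
  simp [K]

theorem cm_J {j g : G} (hj : j ∈ J) (hg : g.b = 0) : ⁅j, g⁆ ∈ Q0 := by
  obtain ⟨e1, e2, e3⟩ := hj
  refine ⟨?_, ?_, ?_, ?_, ?_, ?_⟩ <;> simp [cm, *]

theorem cm_Q0 {j g : G} (hj : j ∈ Q0) (hg : g.b = 0) :
    ⁅j, g⁆ = xz (-(2 * g.a * j.y + 2 * g.c * j.x)) := by
  obtain ⟨e1, e2, e3, e4, e5, e6⟩ := hj
  ext <;> simp [cm, xz, *] <;> ring

theorem Q0_le_J : Q0 ≤ J := fun _ ⟨e1, e2, e3, _⟩ => ⟨e1, e2, e3⟩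

theorem sq1 {a : K} (h : a ≠ 0) : a * a = 1 := by revert a; decide

set_option maxHeartbeats 3000000 in
theorem kb3 : KB3Stmt := by
  rintro P Q h nc ⟨d, dQ, dJ, hd⟩
  have qc : ∀ q ∈ Q, q.a = 0 → q.b = 0 → q.c = 0 := fun q hq e1 e2 =>
    by_contra fun e => nc ⟨q, hq, ⟨e1, e2⟩, fun k => e k.2.2⟩
  have pd : ∀ g ∈ P, g.a * d.b = d.a * g.b := fun g hg => by
    have := qc _ (mul_mem (h.nm g hg d dQ) (inv_mem dQ)) (by simp) (by simp)
    simp only [G.mul_c, G.mul_a, G.inv_a, G.inv_b, G.inv_c] at this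
    linear_combination this
  have pz : ∀ k, xz k ∈ P := fun k => h.cen _ fun x _ => by ext <;> simp [xz, add_comm]
  have ix := h.ix
  have pos : 0 < Nat.card (Q ⊓ J : Subgroup G) := Nat.card_pos
  have c3 : Nat.card K = 3 := by simp [K]
  rcases hd with da | db
  · have db : d.b ≠ 0 := fun e => dJ ⟨da, e, qc d dQ da e⟩
    have pa : ∀ g ∈ P, g.a = 0 := fun g hg => mul_eq0 db (by rw [mul_comm, pd g hg, da, zero_mul])
    have hD : Dz ≤ P := fun j hj => h.cen j fun x hx =>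
      commutatorElement_eq_one_iff_mul_comm.1 (cm_Dz hj (pa x hx))
    have hI : Q ⊓ J ≤ Dz := fun i hi => by
      obtain ⟨hi, e1, e2, e3⟩ := mem_inf.1 hi
      have e := h.ab i hi d dQ
      have e4 := congrArg G.v e
      have e5 := congrArg G.w e
      have e6 := congrArg G.y e
      simp only [G.mul_v, G.mul_y, G.mul_w, e1, e2, e3, da] at e4 e5 e6
      have ht : i.t = 0 := mul_eq0 db (by linear_combination -e4)
      rw [ht] at e5 e6
      have hv : i.v = 0 := mul_eq0 db (by linear_combination e5 + d.b * i.v * three)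
      rw [hv] at e6
      exact ⟨e1, e2, e3, mul_eq0 db (by linear_combination -e6), hv, ht⟩
    have d3 : Nat.card (Q.map ug) ≤ 3 := le_of_le_of_eq (Nat.card_le_card_of_injective
      (fun m : Q.map ug => m.1.1 1 2) (by
        rintro ⟨_, q, hq, rfl⟩ ⟨_, r, hr, rfl⟩ (e : q.b = r.b)
        have a1 := pa q (h.le hq)
        have a2 := pa r (h.le hr)
        have := qc _ (mul_mem hq (inv_mem hr)) (by simp [a1, a2]) (by simp [e])
        simp only [G.mul_c, G.inv_c, a1, a2] at this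
        have e2 : q.c = r.c := by linear_combination this
        exact Subtype.ext (by simp only [ug_apply, a1, a2, e, e2]))) c3
    have wl := h.wl J5 inf_le_left fun j hj g hg => hD (cm_J5 hj (pa g hg))
    have h1 : Nat.card (J5 ⊓ P : Subgroup G) ≤ Nat.card (P ⊓ J : Subgroup G) :=
      card_le_of_le (le_inf inf_le_right (inf_le_left.trans inf_le_left))
    have h2 := card_le_of_le hI
    rw [card_Dz] at h2
    rw [card_J5] at wl
    have h3 : Nat.card (P ⊓ J : Subgroup G) ≤ 3 * Nat.card (Q ⊓ J : Subgroup G) :=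
      ix ▸ Nat.mul_le_mul_right _ d3
    have h4 : 81 ≤ Nat.card (J5 ⊓ P : Subgroup G) := by nlinarith
    have h5 : Q ⊓ J = Dz := eq_of_le_of_card_ge hI (by rw [card_Dz]; omega)
    obtain ⟨j, hj, hn⟩ : ∃ j ∈ J5, j ∉ P := by
      by_contra hc
      push Not at hc
      rw [inf_eq_left.2 hc, card_J5] at h1
      omega
    exact h.k3 j hj.1 hn (fun g hg => hD (cm_J5 hj (pa g hg))) d dQ dJ (h5.ge (cm_J5 hj da)).1
  have da : d.a ≠ 0 := fun e => dJ ⟨e, db, qc d dQ e db⟩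
  have pb : ∀ g ∈ P, g.b = 0 := fun g hg => mul_eq0 da (by rw [← pd g hg, db, mul_zero])
  have d3 : Nat.card (Q.map ug) ≤ 3 := le_of_le_of_eq (Nat.card_le_card_of_injective
    (fun m : Q.map ug => m.1.1 1 3) (by
      rintro ⟨_, q, hq, rfl⟩ ⟨_, r, hr, rfl⟩ (e : q.a = r.a)
      have a1 := pb q (h.le hq)
      have a2 := pb r (h.le hr)
      have := qc _ (mul_mem hq (inv_mem hr)) (by simp [e]) (by simp [a1, a2])
      simp only [G.mul_c, G.inv_c, G.inv_b, a2] at this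
      have e2 : q.c = r.c := by linear_combination this
      exact Subtype.ext (by simp only [ug_apply, a1, a2, e, e2]))) c3
  have h3 : Nat.card (P ⊓ J : Subgroup G) ≤ 3 * Nat.card (Q ⊓ J : Subgroup G) :=
    ix ▸ Nat.mul_le_mul_right _ d3
  obtain ⟨k, dc⟩ : ∃ k, d.c = k * d.a := ⟨d.c * d.a, by rw [mul_assoc, sq1 da, mul_one]⟩
  have hI : ∀ i ∈ Q, i ∈ J → i.v = -k * i.t ∧ i.w = k * k * i.t ∧ i.y = -k * i.x :=
    fun i hi ⟨e1, e2, e3⟩ => by
      have e := h.ab i hi d dQ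
      have e4 := congrArg G.x e
      have e5 := congrArg G.y e
      have e6 := congrArg G.z e
      simp only [G.mul_x, G.mul_y, G.mul_z, e1, e2, e3, db, dc] at e4 e5 e6
      have hv : i.v = -k * i.t := sub_eq_zero.1 (mul_eq0 da (by linear_combination -e4))
      rw [hv] at e5 e6
      have hw : i.w = k * k * i.t := sub_eq_zero.1 (mul_eq0 da (by linear_combination -e5))
      rw [hw] at e6
      exact ⟨hv, hw, sub_eq_zero.1 (mul_eq0 da (by
        linear_combination e6 + d.a * (i.y + k * i.x) * three))⟩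
  have eqI : ∀ i j : (Q ⊓ J : Subgroup G), i.1.z = j.1.z → i.1.x = j.1.x → i.1.t = j.1.t → i = j :=
    fun i j e1 e2 e3 => by
      obtain ⟨k1, k2, k3⟩ := hI _ i.2.1 i.2.2
      obtain ⟨l1, l2, l3⟩ := hI _ j.2.1 j.2.2
      exact Subtype.ext (G.ext (i.2.2.1.trans j.2.2.1.symm) (i.2.2.2.1.trans j.2.2.2.1.symm)
        (i.2.2.2.2.trans j.2.2.2.2.symm) e1 (by rw [k3, l3, e2]) e2 (by rw [k2, l2, e3])
        (by rw [k1, l1, e3]) e3)
  by_cases h0 : Q0 ≤ P
  · have h2 : Nat.card (Q ⊓ J : Subgroup G) ≤ Nat.card (K × K × K) :=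
      Nat.card_le_card_of_injective (fun i => (i.1.z, i.1.x, i.1.t)) fun i j e => by
        simp only [Prod.mk.injEq] at e
        exact eqI i j e.1 e.2.1 e.2.2
    rw [Nat.card_prod, Nat.card_prod, c3] at h2
    have wl := h.wl J le_rfl fun j hj g hg => h0 (cm_J hj (pb g hg))
    rw [card_J, inf_comm J P] at wl
    nlinarith
  obtain ⟨j, hj, hn⟩ := SetLike.not_le_iff_exists.1 h0
  have k3 := h.k3 j (Q0_le_J hj) hn (fun g hg => by rw [cm_Q0 hj (pb g hg)]; exact pz _) d dQ dJ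
  rw [cm_Q0 hj db] at k3
  have hz : ∀ l, xz l ∈ Q → l = 0 := fun l hl => by_contra fun e =>
    k3 (mem_all xz rfl (fun k => by ext <;> simp [xz]) e hl _)
  by_cases hc : ∀ g ∈ P, g.c = k * g.a
  · have hC : ∀ z x t, (⟨0, 0, 0, z, -k * x, x, k * k * t, -k * t, t⟩ : G) ∈ P := fun z x t =>
      h.cen _ fun g hg => by ext <;> simp [pb g hg, hc g hg] <;> ring
    have h1 : Nat.card (K × K × K) ≤ Nat.card (P ⊓ J : Subgroup G) :=
      Nat.card_le_card_of_injective (fun p => ⟨_, mem_inf.2 ⟨hC p.1 p.2.1 p.2.2, rfl, rfl, rfl⟩⟩)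
        fun p p' e => by
          have e := G.mk.inj (Subtype.mk.inj e)
          ext <;> tauto
    have h2 : Nat.card (Q ⊓ J : Subgroup G) ≤ Nat.card (K × K) :=
      Nat.card_le_card_of_injective (fun i => (i.1.x, i.1.t)) fun i j e => by
        simp only [Prod.mk.injEq] at e
        refine eqI i j ?_ e.1 e.2
        obtain ⟨k1, k2, k3⟩ := hI _ i.2.1 i.2.2
        obtain ⟨l1, l2, l3⟩ := hI _ j.2.1 j.2.2
        obtain ⟨hi, e1, e2, e3⟩ := mem_inf.1 i.2
        obtain ⟨hj, f1, f2, f3⟩ := mem_inf.1 j.2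
        refine sub_eq_zero.1 (hz _ ?_)
        convert mul_mem hi (inv_mem hj) using 1
        ext <;> simp [xz, e1, e2, e3, f1, f2, f3, k1, k2, k3, l1, l2, l3, e.1, e.2, sub_eq_add_neg]
    have wl := h.wl (Wk k) (fun _ ⟨e1, e2, e3, _⟩ => ⟨e1, e2, e3⟩) fun j ⟨e1, e2, e3, e4⟩ g hg => by
      convert hC (⁅j, g⁆).z (⁅j, g⁆).x 0 using 1
      ext <;> first | rfl | simp [cm, e1, e2, e3, e4, pb g hg, hc g hg] <;> ring
    have h4 : Nat.card (Wk k ⊓ P : Subgroup G) ≤ Nat.card (P ⊓ J : Subgroup G) :=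
      card_le_of_le (le_inf inf_le_right fun _ ⟨⟨e1, e2, e3, _⟩, _⟩ => ⟨e1, e2, e3⟩)
    rw [Nat.card_prod, Nat.card_prod, c3] at h1
    rw [Nat.card_prod, c3] at h2
    rw [card_Wk] at wl
    nlinarith
  push Not at hc
  obtain ⟨g, hg, gc⟩ := hc
  have gb := pb g hg
  have ge : g.c - k * g.a ≠ 0 := sub_ne_zero.2 gc
  have h1 : ∀ i ∈ Q, i ∈ J → i.t = 0 → i.x = 0 := fun i hi hJ ht => by
    obtain ⟨k1, k2, k3⟩ := hI i hi hJ
    obtain ⟨e1, e2, e3⟩ := hJ
    have h2 := hz (2 * (g.c - k * g.a) * i.x) (by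
      convert mul_mem (h.nm g hg i hi) (inv_mem hi) using 1
      ext <;> simp [xz, e1, e2, e3, k1, k2, k3, ht, gb] <;> ring)
    exact mul_eq0 ge (by linear_combination -h2 + (g.c - k * g.a) * i.x * three)
  have h2 : Q ⊓ J = ⊥ := eq_bot_iff.2 fun i hi => by
    obtain ⟨hi, hJ⟩ := mem_inf.1 hi
    obtain ⟨k1, k2, k3⟩ := hI i hi hJ
    have h4 := h1 _ (mul_mem (h.nm g hg i hi) (inv_mem hi))
      (mul_mem (nJ.conj_mem i hJ g) (inv_mem hJ)) (by simp)
    obtain ⟨e1, e2, e3⟩ := id hJ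
    simp only [G.mul_x, G.mul_a, G.mul_c, G.inv_x, G.inv_v, G.inv_t, G.inv_a, G.inv_b,
      G.inv_c, e1, e2, e3, k1, gb] at h4
    have ht : i.t = 0 := mul_eq0 ge (by linear_combination h4)
    have hx := h1 i hi hJ ht
    have h5 : i = xz i.z := G.ext e1 e2 e3 rfl (by rw [k3, hx, mul_zero]; rfl) hx
      (by rw [k2, ht, mul_zero]; rfl) (by rw [k1, ht, mul_zero]; rfl) ht
    rw [h5, hz i.z (h5 ▸ hi)]
    rfl
  have wl := h.wl Q0 Q0_le_J fun j hj g hg => by rw [cm_Q0 hj (pb g hg)]; exact pz _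
  have h4 : Nat.card (Q0 ⊓ P : Subgroup G) ≤ Nat.card (P ⊓ J : Subgroup G) :=
    card_le_of_le (le_inf inf_le_right (inf_le_left.trans Q0_le_J))
  rw [h2, card_bot] at h3
  rw [h2, card_bot, card_Q0] at wl
  nlinarith

theorem eqns_C1Kb3 : True := by
  have _ := @Wk.eq_1
  trivial

end Cfsg.Agent.H24.C1K
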