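import Cfsg.Agent.H99.C1Defs

/-! The counting lemma for the conjugates of a subgroup of order `27` in a group of order `3⁵`. -/

set_option autoImplicit false

namespace Cfsg.Agent.H24.C1L

open Cfsg.Agent.H99.C1 Subgroup
open scoped commutatorElement

theorem card_quot {X : Type*} [Group X] [Finite X] (H N : Subgroup X) :
    Nat.card (N ⧸ H.subgroupOf N) * Nat.card (N ⊓ H : Subgroup X) = Nat.card N := by
  rw [card_eq_card_quotient_mul_card_subgroup (H.subgroupOf N), ← inf_subgroupOf_left H N,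
    Nat.card_congr (subgroupOfEquivOfLe (inf_le_left : N ⊓ H ≤ N)).toEquiv]

theorem le : LEStmt := by
  classical
  intro M L Q W W0 s ab cM LM cL QM cQ QL W0W cW hWM hWL hW0 sM sL h1 h2
  have cj : ∀ w ∈ W, ∀ l ∈ L, w * l * w⁻¹ = l := fun w hw l hl => by
    rw [commutatorElement_eq_one_iff_mul_comm.1 (hWL w hw l hl), mul_inv_cancel_right]
  have key : ∀ d ∈ Q, d ∉ L → ∀ w ∈ W, ⁅w, d⁆ ∈ Q → w ∈ W0 := fun d hd dL w hw e => by
    by_contra hn
    have h3 : w * d * w⁻¹ ∈ Q := (mul_mem_cancel_right (inv_mem hd)).1 e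
    have h4 : Q ⊓ L ≤ Q ⊓ cjs w Q := fun i hi => ⟨hi.1, i, hi.1, cj w hw i hi.2⟩
    have h5 : w * d * w⁻¹ ∈ Q ⊓ L :=
      (eq_of_le_of_card_ge h4 (h1 w hw hn)).ge (mem_inf.2 ⟨h3, d, hd, rfl⟩)
    refine dL ?_
    have h6 := hWM w hw d (QM hd)
    rw [cm] at h6
    exact inv_mem_iff.1 ((mul_mem_cancel_left (mem_inf.1 h5).2).1 h6)
  have c9 : Nat.card (W ⧸ W0.subgroupOf W) = 9 := by
    have := card_quot W0 W
    rw [inf_eq_right.2 W0W, cW] at this
    exact Nat.eq_of_mul_eq_mul_right Nat.card_pos this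
  have cm9 : Nat.card (M ⧸ L.subgroupOf M) = 9 := by
    have := card_quot L M
    rw [inf_eq_right.2 LM, cM, cL] at this
    omega
  have inj : ∀ d (hd : d ∈ Q), d ∉ L → Function.Injective fun c : W ⧸ W0.subgroupOf W =>
      ((⟨⁅(c.out : G), d⁆, hWM _ c.out.2 d (QM hd)⟩ : L) : L ⧸ Q.subgroupOf L) :=
    fun d hd dL c c' e => by
      have e1 : ⁅(c.out : G), d⁆⁻¹ * ⁅(c'.out : G), d⁆ ∈ Q := mem_subgroupOf.1 (QuotientGroup.eq.1 e)
      rw [← c.out_eq', ← c'.out_eq']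
      refine QuotientGroup.eq.2 (mem_subgroupOf.2 (key d hd dL _ (c.out⁻¹ * c'.out).2 ?_))
      have a1 := hWM _ c.out.2 d (QM hd)
      have a2 := hWM _ c'.out.2 d (QM hd)
      have e2 := cj _ (inv_mem c.out.2) _ (mul_mem a2 (inv_mem a1))
      rw [ab _ (LM (inv_mem a1)) _ (LM a2), ← e2] at e1
      convert e1 using 1
      simp only [cm, coe_mul, coe_inv]
      group
  obtain ⟨d0, hd0, dL0⟩ : ∃ d ∈ Q, d ∉ L := by
    by_contra hc
    push Not at hc
    exact QL (eq_of_le_of_card_ge hc (by rw [cL, cQ]))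
  have q1 := card_quot Q L
  have q2 := card_quot L Q
  have q3 := Nat.card_le_card_of_injective _ (inj d0 hd0 dL0)
  have q4 := Nat.card_le_card_of_injective _ (quotientSubgroupOfEmbeddingOfLE L QM).injective
  rw [inf_comm L Q, cL] at q1
  rw [cQ] at q2
  rw [c9] at q3
  rw [cm9] at q4
  have cI : Nat.card (Q ⊓ L : Subgroup G) = 3 := by nlinarith
  rw [cI] at q1 q2 h2
  have cov : ∀ m ∈ M, m ∉ L → ∃ c : W ⧸ W0.subgroupOf W, m ∈ cjs c.out Q := fun m hm mL => by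
    obtain ⟨x, hx⟩ := ((quotientSubgroupOfEmbeddingOfLE L QM).injective.bijective_of_nat_card_le
      (by omega)).2 (⟨m, hm⟩ : M)
    obtain ⟨d, rfl⟩ := QuotientGroup.mk_surjective x
    rw [quotientSubgroupOfEmbeddingOfLE_apply_mk] at hx
    have hl : (d : G)⁻¹ * m ∈ L := mem_subgroupOf.1 (QuotientGroup.eq.1 hx)
    have dL : (d : G) ∉ L := fun e => mL ((mul_mem_cancel_left (inv_mem e)).1 hl)
    obtain ⟨c, hc⟩ := ((inj d d.2 dL).bijective_of_nat_card_le (by omega)).2 (⟨_, hl⟩ : L)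
    have e1 : ⁅(c.out : G), (d : G)⁆⁻¹ * ((d : G)⁻¹ * m) ∈ Q :=
      mem_subgroupOf.1 (QuotientGroup.eq.1 hc)
    have a1 := hWM _ c.out.2 d (QM d.2)
    refine ⟨c, _, mul_mem d.2 e1, ?_⟩
    change (c.out : G) * ((d : G) * _) * (c.out : G)⁻¹ = m
    rw [show ∀ x : G, (c.out : G) * ((d : G) * x) * (c.out : G)⁻¹ =
      ⁅(c.out : G), (d : G)⁆ * d * (c.out * x * (c.out : G)⁻¹) from fun x => by rw [cm]; group,
      cj _ c.out.2 _ (mul_mem (inv_mem a1) hl), ab _ (LM a1) _ (QM d.2)]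
    group
  let fs : Subgroup G → Finset G := fun H => (H : Set G).toFinite.toFinset
  have cfs : ∀ H : Subgroup G, (fs H).card = Nat.card H := fun H =>
    (Nat.card_eq_card_finite_toFinset _).symm
  have mfs : ∀ (H : Subgroup G) g, g ∈ fs H ↔ g ∈ H := fun H g => Set.Finite.mem_toFinset _
  have := Fintype.ofFinite (W ⧸ W0.subgroupOf W)
  have sub : fs Q ⊆ fs (Q ⊓ L) ∪ Finset.univ.biUnion fun c : W ⧸ W0.subgroupOf W =>
      (fs (Q ⊓ cjs (s⁻¹ * c.out) Q)).erase 1 := fun q hq => by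
    rw [mfs] at hq
    rw [Finset.mem_union, mfs]
    by_cases qL : q ∈ L
    · exact Or.inl ⟨hq, qL⟩
    obtain ⟨c, hc⟩ := cov (s * q * s⁻¹) (sM.le ⟨q, QM hq, rfl⟩) fun e => qL (by
      have := mem_cjs.1 (sL.ge e)
      simpa [mul_assoc] using this)
    refine Or.inr (Finset.mem_biUnion.2 ⟨c, Finset.mem_univ _, Finset.mem_erase.2
      ⟨fun e => qL (e ▸ one_mem L), (mfs _ _).2 ⟨hq, mem_cjs.2 ?_⟩⟩⟩)
    simpa [mul_assoc] using mem_cjs.1 hc
  have h3 := (Finset.card_le_card sub).trans ((Finset.card_union_le _ _).trans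
    (Nat.add_le_add_left (Finset.card_biUnion_le_card_mul _ _ 2 fun c _ => by
      rw [Finset.card_erase_of_mem ((mfs _ _).2 (one_mem _)), cfs]
      have := h2 _ c.out.2
      omega) _))
  rw [cfs, cfs, cQ, cI, Finset.card_univ, ← Nat.card_eq_fintype_card, c9] at h3
  omega

end Cfsg.Agent.H24.C1L
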