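import Cfsg.Agent.H99.C1Defs

/-! Every vector of `J` is conjugate to a vector with a nontrivial stabilizer in `U`. -/

set_option autoImplicit false

namespace Cfsg.Agent.H24.C1O

open Cfsg.Agent.H97 Cfsg.Agent.H96.VB Cfsg.Agent.H96.CP Cfsg.Agent.H99.C1 Subgroup
open Matrix hiding J

/-- the tables of the distances -/
def tab (d : K) : ℕ := if d = 0 then
  18851840975949820368222748555020380080730047629014645761323411544344085373350261650450858162374601397460603691337413367103558059253735840872547477522048523230786318696369282433449185252613608006293139490942127175659758927547637816208868713418501500421618488048567408247589334394392641756224569653395067103844459770252124202475745264532254519652737334373358117983382082724962133824951299793255986957555388239276790860487339348576273158060568752379623164400824094032047895941289444870594594193292852936128878470044361779910214636531319184887531022570143038247438734395827196318582770468093293190382410101766344077362106007034723136415721976289071364355129344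
  else
  18851840975949666234121190419436886514580139607228925565647196870304156997028413151201084504833699133740915952114301847697233742568386500367430682307920222087783748281347541910829560828142791690393516792110576751217900531175624487043275866298201700950933369267229688798028323859852463211430118471201425636019482545143212115527826989754597016992305179345420801765588486913802960830385997067350960497263675394797637515869142492239069965449718868781584964019090772874317798168247484693058595848159089857049001310679612725491071404747295465169698535247573173059906922156223450406943116280617990198247494394875616262065586580709146701496749328020392828819472384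

/-- the distance from the vectors with a nontrivial stabilizer -/
def dp (k d z y x w v t : K) : ℕ :=
  (tab d >>> (3 * ((z - k * t).val + 3 * y.val + 9 * x.val + 27 * w.val + 81 * v.val +
    243 * t.val))) % 8

set_option synthInstance.maxSize 4000 in
theorem chk : ∀ k d : K, d ≠ 2 → ∀ z y x w v t : K,
    dp k d (z + 2 * y + w) (y + w) (x + v) w v t < dp k d z y x w v t ∨
    dp k d z (y + x) x (w + 2 * v + t) (v + t) t < dp k d z y x w v t ∨
    dp k d (w + (k + d) * t) (-y) v (z - (k + d) * t) (-x) t < dp k d z y x w v t ∨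
    dp k d (z + k * w - k * t) x (-y) t (-v) w < dp k d z y x w v t ∨
    ∃ a b c : K, ¬ (a = 0 ∧ b = 0 ∧ c = 0) ∧
      2 * a * y + 2 * c * x + a * a * w + 2 * a * c * v + c * c * t = 0 ∧
      b * x + a * w + (a * b + c) * v + b * c * t = 0 ∧ a * v + c * t = 0 ∧
      2 * b * v + b * b * t = 0 ∧ b * t = 0 := by
  decide +kernel

theorem um_vec (a b c z y x w v t : K) : (um a b c).1 *ᵥ ![z, y, x, w, v, t] =
    ![z + (2 * a * y + 2 * c * x + a * a * w + 2 * a * c * v + c * c * t),
      y + (b * x + a * w + (a * b + c) * v + b * c * t), x + (a * v + c * t),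
      w + (2 * b * v + b * b * t), v + b * t, t] := by
  ext i
  fin_cases i <;> simp [um, uM, Matrix.mulVec, dotProduct, Fin.sum_univ_six] <;> ring

theorem w1_vec (k z y x w v t : K) : (w1m k).1 *ᵥ ![z, y, x, w, v, t] =
    ![w + k * t, -y, v, z - k * t, -x, t] := by
  ext i
  fin_cases i <;> simp [w1m, Matrix.mulVec, dotProduct, Fin.sum_univ_six, sub_eq_add_neg]

theorem w2_vec (k z y x w v t : K) : (w2m k).1 *ᵥ ![z, y, x, w, v, t] =
    ![z + k * w - k * t, x, -y, t, -v, w] := by
  ext i
  fin_cases i <;> simp [w2m, Matrix.mulVec, dotProduct, Fin.sum_univ_six, sub_eq_add_neg]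

theorem orb : OrbStmt := by
  intro k d hd Y hu h1 h2
  have step : ∀ n ∈ Y, ∀ v : V, (∃ m ∈ Y, ∃ g, g ∉ J ∧ (ug g).1 *ᵥ (m.1 *ᵥ (n.1 *ᵥ v)) =
      m.1 *ᵥ (n.1 *ᵥ v)) → ∃ m ∈ Y, ∃ g, g ∉ J ∧ (ug g).1 *ᵥ (m.1 *ᵥ v) = m.1 *ᵥ v :=
    fun n hn v ⟨m, hm, g, hg, e⟩ => ⟨m * n, mul_mem hm hn, g, hg, by
      rwa [Units.val_mul, ← mulVec_mulVec]⟩
  have key : ∀ (n : ℕ) (z y x w v t : K), dp k d z y x w v t = n → ∃ m ∈ Y, ∃ g, g ∉ J ∧
      (ug g).1 *ᵥ (m.1 *ᵥ ![z, y, x, w, v, t]) = m.1 *ᵥ ![z, y, x, w, v, t] := fun n => by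
    induction n using Nat.strong_induction_on with
    | _ n ih =>
    intro z y x w v t e
    subst e
    rcases chk k d hd z y x w v t with c | c | c | c | ⟨a, b, c, h0, e1, e2, e3, e4, e5⟩
    · refine step _ (hu (xa 1)) _ ?_
      rw [show (ug (xa 1)).1 *ᵥ ![z, y, x, w, v, t] = ![z + 2 * y + w, y + w, x + v, w, v, t] by
        rw [ug_apply, um_vec]; simp [xa, add_assoc]]
      exact ih _ c _ _ _ _ _ _ rfl
    · refine step _ (hu (xb 1)) _ ?_
      rw [show (ug (xb 1)).1 *ᵥ ![z, y, x, w, v, t] = ![z, y + x, x, w + 2 * v + t, v + t, t] by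
        rw [ug_apply, um_vec]; simp [xb, add_assoc]]
      exact ih _ c _ _ _ _ _ _ rfl
    · refine step _ h1 _ ?_
      rw [w1_vec]
      exact ih _ c _ _ _ _ _ _ rfl
    · refine step _ h2 _ ?_
      rw [w2_vec]
      exact ih _ c _ _ _ _ _ _ rfl
    · refine ⟨1, one_mem _, ⟨a, b, c, 0, 0, 0, 0, 0, 0⟩, h0, ?_⟩
      rw [Units.val_one, one_mulVec, ug_apply, um_vec, e1, e2, e3, e4, e5]
      simp
  intro v
  have e : v = ![v 0, v 1, v 2, v 3, v 4, v 5] := by
    ext i
    fin_cases i <;> rfl
  rw [e]
  exact key _ _ _ _ _ _ _ rfl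

theorem jo (rz : RZStmt) : JOStmt := by
  intro A B h k d hd h1 h2
  have nor : ∀ s : G, s ∈ normalizer (J : Set G) := fun s => (normalizer_eq_top J).ge trivial
  have hz : xz 1 ∈ J := ⟨rfl, rfl, rfl⟩
  refine h.lt fun γ hγ => ?_
  obtain ⟨m, ⟨b, hb, eb⟩, g, hg, e⟩ := orb k d hd (XX B) (fun g => by
    obtain ⟨α, hα⟩ := exists_cj (nor g)
    exact ⟨α, h.cj α g hα, fun v => by rw [hα _ (jv_mem v), jv_ug]⟩) h1 h2 (vj (ext γ (xz 1)))
  have e1 : jv (m.1 *ᵥ vj (ext γ (xz 1))) = ext (b * γ) (xz 1) := by
    rw [← eb, jv_vj (ext_mem γ hz), ext_mul]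
  have e2 := congrArg jv e
  rw [jv_ug, e1, mul_inv_eq_iff_eq_mul] at e2
  have hA : b * γ ∈ A := mul_mem (h.le hb) hγ
  obtain ⟨α, hα, e3, e4⟩ := h.sylT _ (inv_mem hA) (ext (b * γ) (xz 1)) (ext_mem _ hz) fun s _ => by
    rw [ext_inv_ext]
    ext <;> simp [xz, add_comm]
  obtain ⟨β, hβ⟩ := exists_cj (nor g)
  obtain ⟨s', hs'⟩ := e4 β g hβ e2
  have hB : α ∈ B := h.se α hα β g hβ hg (h.cj _ s' hs')
  rw [ext_inv_ext, ← ext_mul] at e3
  have e5 := rz A B h _ (mul_mem hα hA) fun q hq => by
    obtain ⟨k1, k2, k3, k4, k5, k6, k7, k8⟩ := id hq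
    have e6 : q = xz q.z := G.ext k1 k2 k3 rfl k4 k5 k6 k7 k8
    have e7 : ∀ l : K, xz l = 1 ∨ xz l = xz 1 ∨ xz l = (xz 1)⁻¹ := by decide
    rcases e7 q.z with e8 | e8 | e8 <;> rw [← e6] at e8
    · rw [e8, ext_map_one]; exact one_mem _
    · rw [e8, e3, ← e8]; exact hq
    · rw [e8, ext_map_inv _ hz, e3, ← e8]; exact hq
  exact (mul_mem_cancel_left hb).1 ((mul_mem_cancel_left hB).1 e5)

theorem eqns_C1Orb : True := by
  have _ := @tab.eq_1
  have _ := @dp.eq_1
  trivial

end Cfsg.Agent.H24.C1O
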