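import Cfsg.Agent.H72.CSDefs
import Cfsg.Agent.S0007

/-!
# CS47, piece FIN: a good normal subgroup is complemented by the centre
-/

set_option autoImplicit false

namespace Cfsg.Agent.H24.CS

open Cfsg.Agent.H92 Cfsg.Agent.H72.CS Subgroup
open scoped Pointwise

universe u

section Good

variable {H : Type u} [Group H] [Finite H]

omit [Finite H] in
/-- The numerical data of a good group. -/
theorem data (h : Good H) : ∃ p q a b : ℕ, p.Prime ∧ q.Prime ∧ p ≠ 2 ∧ q ≠ 2 ∧ p ≠ q ∧
    3 ≤ q ∧ 2 ^ a = q + 1 ∧ 0 < a ∧ 0 < b ∧ Nat.card H = 2 ^ a * (p ^ b * q) := by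
  rcases h.card with e | e
  · exact ⟨5, 3, 2, 1, by norm_num, by norm_num, by norm_num, by norm_num, by norm_num,
      by norm_num, by norm_num, by norm_num, by norm_num, by rw [e]; norm_num⟩
  · exact ⟨3, 7, 3, 2, by norm_num, by norm_num, by norm_num, by norm_num, by norm_num,
      by norm_num, by norm_num, by norm_num, by norm_num, by rw [e]; norm_num⟩

theorem not_pgroup (h : Good H) {r : ℕ} (hr : r.Prime) : ¬ IsPGroup r H := by
  intro hp
  have := Fact.mk hr
  obtain ⟨k, hk⟩ := IsPGroup.iff_card.1 hp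
  have h2 : 2 ∣ r ^ k := by rw [← hk]; rcases h.card with e | e <;> rw [e] <;> norm_num
  have h3 : 3 ∣ r ^ k := by rw [← hk]; rcases h.card with e | e <;> rw [e] <;> norm_num
  have e2 := (Nat.prime_dvd_prime_iff_eq Nat.prime_two hr).1 (Nat.prime_two.dvd_of_dvd_pow h2)
  have e3 := (Nat.prime_dvd_prime_iff_eq Nat.prime_three hr).1
    (Nat.prime_three.dvd_of_dvd_pow h3)
  omega

theorem sylow_ne_bot {r : ℕ} [Fact r.Prime] (hr : r ∣ Nat.card H) (M : Sylow r H) :
    (M : Subgroup H) ≠ ⊥ := by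
  intro e
  apply M.not_dvd_index
  rw [e, index_bot]; exact hr

/-- Sylow subgroups are self-centralizing. -/
theorem cent_sylow (h : Good H) {r : ℕ} [hr : Fact r.Prime] (hd : r ∣ Nat.card H)
    (M : Sylow r H) : centralizer ((M : Subgroup H) : Set H) = M := by
  obtain ⟨⟨x, hx⟩, hx1⟩ := (ne_bot_iff_exists_ne_one).1 (sylow_ne_bot hd M)
  have hx1' : x ≠ 1 := fun e => hx1 (Subtype.ext e)
  have hord : ∃ k, orderOf x = r ^ k := by
    obtain ⟨k, hk⟩ := IsPGroup.iff_orderOf.1 M.isPGroup' ⟨x, hx⟩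
    exact ⟨k, by rw [← hk, orderOf_mk]⟩
  have hP := h.cen r hr.out x hx1' hord
  have hle : centralizer ((M : Subgroup H) : Set H) ≤ Ce[x] := le_C_iff.2 (by
    intro y hy
    exact (hy x hx).symm)
  have hle2 : (M : Subgroup H) ≤ centralizer ((M : Subgroup H) : Set H) := by
    intro y hy z hz
    exact h.ab r hr.out M M.isPGroup' z hz y hy
  exact M.is_maximal' (hP.to_le hle) hle2

/-- Burnside: no Sylow subgroup is self-normalizing. -/
theorem lt_norm (h : Good H) {r : ℕ} [hr : Fact r.Prime] (hd : r ∣ Nat.card H)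
    (M : Sylow r H) : (M : Subgroup H) < normalizer ((M : Subgroup H) : Set H) := by
  refine lt_of_le_of_ne le_normalizer fun e => ?_
  have hP : normalizer ((M : Subgroup H) : Set H) ≤ centralizer ((M : Subgroup H) : Set H) := by
    rw [cent_sylow h hd M]; exact e.ge
  have hc := MonoidHom.ker_transferSylow_isComplement' M hP
  have := h.simple
  rcases (MonoidHom.normal_ker (MonoidHom.transferSylow M hP)).eq_bot_or_eq_top with k | k
  · rw [k] at hc
    have := isComplement'_bot_left.1 hc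
    apply not_pgroup h hr.out
    have h1 := M.isPGroup'
    rw [this] at h1
    exact h1.of_equiv topEquiv
  · rw [k] at hc
    exact sylow_ne_bot hd M (isComplement'_top_left.1 hc)

theorem dvd_card_sub_one (h : Good H) (T : Sylow 2 H) {l : ℕ} (hl : l.Prime) (hl2 : l ≠ 2)
    {y : H} (hy : y ∈ normalizer ((T : Subgroup H) : Set H)) (ho : orderOf y = l) :
    Nat.card (T : Subgroup H) ≡ 1 [MOD l] := by
  have := Fact.mk hl
  let f : MulAut (T : Subgroup H) := normalizerMonoidHom (T : Subgroup H) ⟨y, hy⟩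
  have hf : f ^ l = 1 := by
    have : (⟨y, hy⟩ : normalizer ((T : Subgroup H) : Set H)) ^ l = 1 :=
      Subtype.ext (by simp [← ho])
    simp only [f, ← map_pow, this, map_one]
  have hP : IsPGroup l (zpowers f) := by
    rw [IsPGroup.iff_card]
    rw [Nat.card_zpowers]
    rcases (Nat.dvd_prime hl).1 (orderOf_dvd_of_pow_eq_one hf) with e | e
    · exact ⟨0, by simpa using e⟩
    · exact ⟨1, by simpa using e⟩
  have hm := hP.card_modEq_card_fixedPoints (T : Subgroup H)
  have hfix : MulAction.fixedPoints (zpowers f) (T : Subgroup H) = {1} := by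
    ext x
    simp only [MulAction.mem_fixedPoints, Set.mem_singleton_iff]
    constructor
    · intro hx
      by_contra hx1
      have e : f x = x := hx ⟨f, mem_zpowers f⟩
      have e' : y * (x : H) * y⁻¹ = x := congrArg Subtype.val e
      have hx1' : (x : H) ≠ 1 := fun e => hx1 (Subtype.ext e)
      have hord : ∃ k, orderOf (x : H) = 2 ^ k := by
        obtain ⟨k, hk⟩ := IsPGroup.iff_orderOf.1 T.isPGroup' x
        exact ⟨k, by rw [← hk, orderOf_coe]⟩
      have hP2 := h.cen 2 Nat.prime_two x hx1' hord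
      have hyC : y ∈ Ce[(x : H)] := mem_C.2 (mul_inv_eq_iff_eq_mul.1 e')
      obtain ⟨k, hk⟩ := IsPGroup.iff_orderOf.1 hP2 ⟨y, hyC⟩
      rw [orderOf_mk, ho] at hk
      have : l ∣ 2 ^ k := by rw [← hk]
      exact hl2 ((Nat.prime_dvd_prime_iff_eq hl Nat.prime_two).1 (hl.dvd_of_dvd_pow this))
    · rintro rfl g
      exact map_one (g : MulAut (T : Subgroup H))
  rw [hfix] at hm
  simpa using hm

omit [Finite H] in
theorem card_mul_rel {K L : Subgroup H} (hKL : K ≤ L) :
    K.relIndex L * Nat.card K = Nat.card L := by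
  have := (K.subgroupOf L).index_mul_card
  rwa [Nat.card_congr (subgroupOfEquivOfLe hKL).toEquiv] at this

theorem card_two {p q a b : ℕ} (hp : p.Prime) (hq : q.Prime) (hp2 : p ≠ 2) (hq2 : q ≠ 2)
    (hc : Nat.card H = 2 ^ a * (p ^ b * q)) (T : Sylow 2 H) :
    Nat.card (T : Subgroup H) = 2 ^ a := by
  obtain ⟨k, hk⟩ := IsPGroup.iff_card.1 T.isPGroup'
  have hodd : Nat.Coprime 2 (p ^ b * q) :=
    Nat.Coprime.mul_right (((Nat.coprime_primes Nat.prime_two hp).2 hp2.symm).pow_right _)
      ((Nat.coprime_primes Nat.prime_two hq).2 hq2.symm)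
  have hi := (T : Subgroup H).index_mul_card
  rw [hc, hk] at hi
  have hcop : Nat.Coprime 2 (T : Subgroup H).index :=
    (Nat.Prime.coprime_iff_not_dvd Nat.prime_two).2 T.not_dvd_index
  have h1 : 2 ^ k ∣ 2 ^ a :=
    (hodd.pow_left k).dvd_of_dvd_mul_right (by rw [← hi]; exact dvd_mul_left _ _)
  have h2 : 2 ^ a ∣ 2 ^ k :=
    (hcop.pow_left a).dvd_of_dvd_mul_left (by rw [hi]; exact dvd_mul_right _ _)
  rw [hk]; exact Nat.dvd_antisymm h1 h2

/-- `q` divides `|N(T) : T|`. -/
theorem q_dvd (h : Good H) {p q a b : ℕ} (hp : p.Prime) (hq : q.Prime) (hp2 : p ≠ 2)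
    (hq2 : q ≠ 2) (ha : 2 ^ a = q + 1) (ha0 : 0 < a)
    (hc : Nat.card H = 2 ^ a * (p ^ b * q)) (T : Sylow 2 H) :
    q ∣ (T : Subgroup H).relIndex (normalizer ((T : Subgroup H) : Set H)) := by
  have hd : 2 ∣ Nat.card H := by
    rw [hc]; exact Dvd.dvd.mul_right (dvd_pow_self 2 ha0.ne') _
  have hlt := lt_norm h hd T
  set N := normalizer ((T : Subgroup H) : Set H) with hN
  have h1 : (T : Subgroup H).relIndex N ≠ 1 := by
    rw [Ne, relIndex_eq_one]; exact hlt.not_ge
  obtain ⟨l, hl, hld⟩ := Nat.exists_prime_and_dvd h1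
  have hl2 : l ≠ 2 := by
    rintro rfl
    exact T.not_dvd_index (hld.trans (relIndex_dvd_index_of_le hlt.le))
  have := Fact.mk hl
  have hlN : l ∣ Nat.card N := by
    rw [← card_mul_rel hlt.le]; exact hld.mul_right _
  obtain ⟨y, hy⟩ := exists_prime_orderOf_dvd_card' l hlN
  have hm := dvd_card_sub_one h T hl hl2 y.2 (by rw [orderOf_coe, hy])
  rw [card_two hp hq hp2 hq2 hc T, ha] at hm
  have : l ∣ q := by
    have := (Nat.modEq_iff_dvd' (by omega : 1 ≤ q + 1)).1 hm.symm
    simpa using this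
  rwa [← (Nat.prime_dvd_prime_iff_eq hl hq).1 this]

/-- The fixed subgroup of an automorphism. -/
abbrev Fix (β : MulAut H) : Subgroup H := MonoidHom.eqLocus β.toMonoidHom (MonoidHom.id H)

omit [Finite H] in
theorem mem_Fix {β : MulAut H} {x : H} : x ∈ Fix β ↔ β x = x := Iff.rfl

/-- The number of `s` with `α ∘ conj s` centralizing some Sylow `r`-subgroup. -/
theorem count (h : Good H) (α : MulAut H) {r : ℕ} [Fact r.Prime] (hd : r ∣ Nat.card H)
    (M₀ : Sylow r H) (A : Finset H) (hA : ∀ s ∈ A, ∃ M : Sylow r H,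
      (M : Subgroup H) ≤ Fix (α * MulAut.conj s)) :
    A.card *
      (M₀ : Subgroup H).relIndex (normalizer ((M₀ : Subgroup H) : Set H)) ≤ Nat.card H := by
  classical
  have : Fintype H := Fintype.ofFinite _
  have : Fintype (Sylow r H) := Fintype.ofFinite _
  have hsub : A ⊆ Finset.univ.biUnion fun M : Sylow r H =>
        Finset.univ.filter fun s : H => (M : Subgroup H) ≤ Fix (α * MulAut.conj s) := by
    intro s hs
    simpa using hA s hs
  have hM : ∀ M : Sylow r H, (Finset.univ.filter fun s : H =>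
      (M : Subgroup H) ≤ Fix (α * MulAut.conj s)).card ≤ Nat.card (M₀ : Subgroup H) := by
    intro M
    rw [M₀.card_eq_multiplicity, ← M.card_eq_multiplicity]
    rcases (Finset.univ.filter fun s : H =>
      (M : Subgroup H) ≤ Fix (α * MulAut.conj s)).eq_empty_or_nonempty with e | ⟨s₀, hs₀⟩
    · rw [e]; simp
    · have hs₀' := (Finset.mem_filter.1 hs₀).2
      have hcard : Nat.card (M : Subgroup H) =
          (Finset.univ.filter fun x : H => x ∈ (M : Subgroup H)).card := by
        rw [Nat.card_eq_fintype_card, Fintype.card_subtype]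
      rw [hcard]
      refine Finset.card_le_card_of_injOn (fun s => s₀⁻¹ * s) ?_ ?_
      · intro s hs
        have hs' := (Finset.mem_filter.1 (Finset.mem_coe.1 hs)).2
        simp only [Finset.coe_filter, Finset.mem_univ, true_and, Set.mem_ofPred_eq]
        rw [← cent_sylow h hd M]
        intro x hx
        have e1 : α (s * x * s⁻¹) = x := hs' hx
        have e2 : α (s₀ * x * s₀⁻¹) = x := hs₀' hx
        have e3 : s * x * s⁻¹ = s₀ * x * s₀⁻¹ := α.injective (e1.trans e2.symm)
        calc x * (s₀⁻¹ * s) = s₀⁻¹ * (s₀ * x * s₀⁻¹) * s := by group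
          _ = s₀⁻¹ * (s * x * s⁻¹) * s := by rw [e3]
          _ = s₀⁻¹ * s * x := by group
      · intro s _ t _ e
        exact mul_left_cancel e
  have h1 := Finset.card_biUnion_le_card_mul (Finset.univ : Finset (Sylow r H))
    (fun M : Sylow r H =>
        Finset.univ.filter fun s : H => (M : Subgroup H) ≤ Fix (α * MulAut.conj s))
    (Nat.card (M₀ : Subgroup H)) (fun M _ => hM M)
  rw [Finset.card_univ, ← Nat.card_eq_fintype_card, M₀.card_eq_index_normalizer] at h1
  refine (Nat.mul_le_mul_right _ ((Finset.card_le_card hsub).trans h1)).trans (le_of_eq ?_)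
  have h2 := card_mul_rel (le_normalizer (H := (M₀ : Subgroup H)))
  have h3 := (normalizer ((M₀ : Subgroup H) : Set H)).index_mul_card
  rw [← h3, ← h2]
  change (normalizer ((M₀ : Subgroup H) : Set H)).index * _ * _ = _
  ring

theorem three_le_card {n a b c : ℕ} (hn : n ≠ 0) (ha : a.Prime) (hb : b.Prime) (hc : c.Prime)
    (hab : a ≠ b) (hac : a ≠ c) (hbc : b ≠ c) (da : a ∣ n) (db : b ∣ n) (dc : c ∣ n) :
    ¬ n.primeFactors.card ≤ 2 := by
  have hsub : ({a, b, c} : Finset ℕ) ⊆ n.primeFactors := by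
    intro x hx
    simp only [Finset.mem_insert, Finset.mem_singleton] at hx
    rcases hx with rfl | rfl | rfl <;> simp [Nat.mem_primeFactors, *]
  have := Finset.card_le_card hsub
  rw [Finset.card_eq_three.2 ⟨a, b, c, hab, hac, hbc, rfl⟩] at this
  omega

/-- An automorphism all of whose inner translates have fixed subgroups with index divisible by
at most two primes is inner. -/
theorem inner (h : Good H) (α : MulAut H)
    (hα : ∀ s : H, (Fix (α * MulAut.conj s)).index.primeFactors.card ≤ 2) :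
    ∃ s : H, α = MulAut.conj s := by
  classical
  obtain ⟨p, q, a, b, hp, hq, hp2, hq2, hpq, hq3, ha, ha0, hb0, hc⟩ := data h
  have := Fact.mk hp
  have := Fact.mk hq
  have : Fintype H := Fintype.ofFinite H
  have d2 : 2 ∣ Nat.card H := by
    rw [hc]; exact Dvd.dvd.mul_right (dvd_pow_self 2 ha0.ne') _
  have dq : q ∣ Nat.card H := by
    rw [hc]; exact Dvd.dvd.mul_left (dvd_mul_left _ _) _
  obtain ⟨T⟩ : Nonempty (Sylow 2 H) := inferInstance
  obtain ⟨Q⟩ : Nonempty (Sylow q H) := inferInstance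
  have hqT := q_dvd h hp hq hp2 hq2 ha ha0 hc T
  -- some translate centralizes a Sylow `p`-subgroup
  obtain ⟨s, P, hP⟩ : ∃ s : H, ∃ P : Sylow p H, (P : Subgroup H) ≤ Fix (α * MulAut.conj s) := by
    by_contra hne
    push Not at hne
    set A := Finset.univ.filter fun s : H => ∃ M : Sylow 2 H,
      (M : Subgroup H) ≤ Fix (α * MulAut.conj s) with hA
    set B := Finset.univ.filter fun s : H => ∃ M : Sylow q H,
      (M : Subgroup H) ≤ Fix (α * MulAut.conj s) with hB
    have c2 := count h α d2 T A fun s hs => (Finset.mem_filter.1 hs).2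
    have cq := count h α dq Q B fun s hs => (Finset.mem_filter.1 hs).2
    have hcov : (Finset.univ : Finset H) ⊆ A ∪ B := by
      intro s _
      by_contra hs
      rw [Finset.mem_union, not_or, hA, hB, Finset.mem_filter, Finset.mem_filter] at hs
      refine three_le_card (index_ne_zero_of_finite (H := Fix (α * MulAut.conj s)))
        Nat.prime_two hp hq hp2.symm hq2.symm hpq ?_ ?_ ?_ (hα s)
      · by_contra hn
        exact hs.1 ⟨Finset.mem_univ _, exists_sylow_le_of_not_dvd_index hn⟩
      · by_contra hn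
        obtain ⟨P, hP⟩ := exists_sylow_le_of_not_dvd_index hn
        exact hne s P hP
      · by_contra hn
        exact hs.2 ⟨Finset.mem_univ _, exists_sylow_le_of_not_dvd_index hn⟩
    have h1 := (Finset.card_le_card hcov).trans (Finset.card_union_le A B)
    rw [Finset.card_univ, ← Nat.card_eq_fintype_card] at h1
    have r2 : 3 ≤ (T : Subgroup H).relIndex (normalizer ((T : Subgroup H) : Set H)) :=
      hq3.trans (Nat.le_of_dvd (Nat.pos_of_ne_zero index_ne_zero_of_finite) hqT)
    have rq : 2 ≤ (Q : Subgroup H).relIndex (normalizer ((Q : Subgroup H) : Set H)) := by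
      have h0 : (Q : Subgroup H).relIndex (normalizer ((Q : Subgroup H) : Set H)) ≠ 0 :=
        index_ne_zero_of_finite
      have h1 : (Q : Subgroup H).relIndex (normalizer ((Q : Subgroup H) : Set H)) ≠ 1 := by
        rw [Ne, relIndex_eq_one]; exact (lt_norm h dq Q).not_ge
      omega
    have e2 := (Nat.mul_le_mul_left A.card r2).trans c2
    have eq := (Nat.mul_le_mul_left B.card rq).trans cq
    have hpos : 0 < Nat.card H := Nat.card_pos
    omega
  -- `H = P N(T)`
  set N := normalizer ((T : Subgroup H) : Set H) with hN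
  have hcop : (P : Subgroup H).index.Coprime N.index := by
    have e1 := card_mul_rel (le_normalizer (H := (T : Subgroup H)))
    have e2 := N.index_mul_card
    rw [card_two hp hq hp2 hq2 hc T] at e1
    obtain ⟨m, hm⟩ := hqT
    rw [← hN] at e1
    rw [hm] at e1
    rw [← e1, hc] at e2
    have e3 : N.index * m = p ^ b := by
      have : (2 ^ a * q) * (N.index * m) = (2 ^ a * q) * p ^ b := by
        calc (2 ^ a * q) * (N.index * m) = N.index * (q * m * 2 ^ a) := by ring
          _ = _ := by rw [e2]; ring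
      exact Nat.eq_of_mul_eq_mul_left (Nat.mul_pos (by positivity) hq.pos) this
    have e4 : N.index ∣ p ^ b := ⟨m, e3.symm⟩
    exact Nat.Coprime.coprime_dvd_right e4
      (((Nat.Prime.coprime_iff_not_dvd hp).2 P.not_dvd_index).symm.pow_right b)
  have hfac := (Cfsg.Agent.S0007.result _ _ hcop).2
  have htr : ∀ T' : Sylow 2 H, ∃ x ∈ (P : Subgroup H), x • T = T' := by
    intro T'
    obtain ⟨g, hg⟩ := MulAction.exists_smul_eq H T T'
    obtain ⟨x, hx, n, hn, rfl⟩ := hfac g
    refine ⟨x, hx, ?_⟩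
    rw [← hg, mul_smul, Sylow.smul_eq_iff_mem_normalizer.2 hn]
  set β : MulAut H := α * MulAut.conj s with hβ
  obtain ⟨x, hx, hxT⟩ := htr (β • T)
  set γ : MulAut H := (MulAut.conj x)⁻¹ * β with hγ
  have hγT : γ • T = T := by
    rw [hγ, mul_smul, ← hxT, Sylow.smul_def, inv_smul_smul]
  have hxP : x ∈ centralizer ((P : Subgroup H) : Set H) := by
    intro y hy
    exact h.ab p hp P P.isPGroup' y hy x hx
  have hγP : ∀ y ∈ (P : Subgroup H), γ y = y := by
    intro y hy
    have e1 : β y = y := hP hy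
    have e2 : y * x = x * y := hxP y hy
    rw [hγ, MulAut.mul_apply, e1]
    simp only [MulAut.inv_apply, MulAut.conj_symm_apply]
    rw [mul_assoc, e2]; group
  have hcomm : ∀ y : H, γ * MulAut.conj y = MulAut.conj (γ y) * γ := by
    intro y; ext z; simp
  have hall : ∀ T' : Sylow 2 H, γ • T' = T' := by
    intro T'
    obtain ⟨y, hy, rfl⟩ := htr T'
    rw [Sylow.smul_def, ← mul_smul, hcomm, hγP y hy, mul_smul, hγT]
  -- the kernel of the action on the Sylow 2-subgroups is trivial
  have := h.simple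
  have hker : (MulAction.toPermHom H (Sylow 2 H)).ker = ⊥ := by
    rcases (MonoidHom.normal_ker (MulAction.toPermHom H (Sylow 2 H))).eq_bot_or_eq_top
      with k | k
    · exact k
    · exfalso
      have hnorm : (T : Subgroup H).Normal := by
        rw [← normalizer_eq_top_iff, eq_top_iff]
        intro g _
        have : g ∈ (MulAction.toPermHom H (Sylow 2 H)).ker := k ▸ mem_top g
        have e : g • T = T := congrArg (fun σ : Equiv.Perm (Sylow 2 H) => σ T) this
        exact Sylow.smul_eq_iff_mem_normalizer.1 e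
      rcases hnorm.eq_bot_or_eq_top with e | e
      · exact sylow_ne_bot d2 T e
      · apply not_pgroup h Nat.prime_two
        have h1 := T.isPGroup'
        rw [e] at h1
        exact h1.of_equiv topEquiv
  have hγ1 : ∀ y : H, γ y = y := by
    intro y
    have : y⁻¹ * γ y ∈ (MulAction.toPermHom H (Sylow 2 H)).ker := by
      rw [MonoidHom.mem_ker]
      ext T' : 1
      change (y⁻¹ * γ y) • T' = T'
      rw [mul_smul, inv_smul_eq_iff, Sylow.smul_def, Sylow.smul_def]
      conv_lhs => rw [← hall T', ← mul_smul, ← hcomm, mul_smul, hall]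
    rw [hker, mem_bot] at this
    exact (inv_mul_eq_one.1 this).symm
  refine ⟨x * s⁻¹, ?_⟩
  have e : γ = 1 := by ext y; exact hγ1 y
  rw [hγ, inv_mul_eq_one, hβ] at e
  rw [map_mul, e, map_inv, mul_inv_cancel_right]

theorem center_eq_bot (h : Good H) : center H = ⊥ := by
  have := h.simple
  rcases (inferInstance : (center H).Normal).eq_bot_or_eq_top with e | e
  · exact e
  · exfalso
    have d2 : 2 ∣ Nat.card H := by rcases h.card with e | e <;> rw [e] <;> norm_num
    obtain ⟨x, hx⟩ := exists_prime_orderOf_dvd_card' 2 d2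
    have hx1 : x ≠ 1 := by rintro rfl; simp at hx
    have hP := h.cen 2 Nat.prime_two x hx1 ⟨1, by simpa using hx⟩
    rw [C_eq_top_iff.2 (e ▸ mem_top x)] at hP
    exact not_pgroup h Nat.prime_two (hP.of_equiv topEquiv)

/-- For a prime `l` there is a nontrivial element whose class size is divisible by two primes
other than `l`. -/
theorem two_primes (h : Good H) (l : ℕ) : ∃ (x : H) (r₁ r₂ : ℕ), r₁.Prime ∧
    r₂.Prime ∧ r₁ ≠ r₂ ∧ l ≠ r₁ ∧ l ≠ r₂ ∧ r₁ ∣ cs[x] ∧ r₂ ∣ cs[x] := by
  obtain ⟨p, q, a, b, hp, hq, hp2, hq2, hpq, -, -, ha0, hb0, hc⟩ := data h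
  have d2 : 2 ∣ Nat.card H := by
    rw [hc]; exact Dvd.dvd.mul_right (dvd_pow_self 2 ha0.ne') _
  have dq : q ∣ Nat.card H := by
    rw [hc]; exact Dvd.dvd.mul_left (dvd_mul_left _ _) _
  have dp : p ∣ Nat.card H := by
    rw [hc]; exact Dvd.dvd.mul_left (Dvd.dvd.mul_right (dvd_pow_self p hb0.ne') _) _
  have key : ∀ r : ℕ, r.Prime → r ∣ Nat.card H → ∃ x : H, ∀ t : ℕ, t.Prime → t ≠ r →
      t ∣ Nat.card H → t ∣ cs[x] := by
    intro r hr hd
    have := Fact.mk hr
    obtain ⟨x, hx⟩ := exists_prime_orderOf_dvd_card' r hd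
    have hx1 : x ≠ 1 := by rintro rfl; simp at hx; exact hr.one_lt.ne hx
    obtain ⟨k, hk⟩ := IsPGroup.iff_card.1 (h.cen r hr x hx1 ⟨1, by simpa using hx⟩)
    refine ⟨x, fun t ht htr htd => ?_⟩
    rw [← cs_mul_card x, hk] at htd
    exact (((Nat.coprime_primes ht hr).2 htr).pow_right k).dvd_of_dvd_mul_right htd
  by_cases e2 : l = 2
  · obtain ⟨x, hx⟩ := key 2 Nat.prime_two d2
    exact ⟨x, p, q, hp, hq, hpq, e2 ▸ hp2.symm, e2 ▸ hq2.symm, hx p hp hp2 dp, hx q hq hq2 dq⟩
  by_cases ep : l = p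
  · obtain ⟨x, hx⟩ := key p hp dp
    exact ⟨x, 2, q, Nat.prime_two, hq, hq2.symm, e2, ep ▸ hpq, hx 2 Nat.prime_two hp2.symm d2,
      hx q hq hpq.symm dq⟩
  · obtain ⟨x, hx⟩ := key q hq dq
    exact ⟨x, 2, p, Nat.prime_two, hp, hp2.symm, e2, ep, hx 2 Nat.prime_two hq2.symm d2,
      hx p hp hpq dp⟩

end Good

/-- **FIN** -/
theorem fin : FinStmt.{u} := by
  intro G _ _ hG S hS h
  set C := centralizer (S : Set G) with hC
  have hSC : ∀ z ∈ S, z ∈ C → z = 1 := by
    intro z hz hzC
    have : (⟨z, hz⟩ : S) ∈ center S := by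
      rw [mem_center_iff]
      intro y
      exact Subtype.ext (hzC y y.2)
    rw [center_eq_bot h, mem_bot] at this
    exact congrArg Subtype.val this
  have hdec : ∀ g : G, ∃ s ∈ S, ∃ c ∈ C, g = s * c := by
    intro g
    obtain ⟨s, hs⟩ := inner h (MulAut.conjNormal g) (fun s => by
      have e : Fix (MulAut.conjNormal (H := S) g * MulAut.conj s) =
          (Ce[g * (s : G)]).subgroupOf S := by
        ext x
        rw [mem_Fix, mem_subgroupOf, mem_C', Subtype.ext_iff]
        change g * ((s : G) * x * (s : G)⁻¹) * g⁻¹ = x ↔ g * s * x = x * (g * s)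
        constructor
        · intro e
          conv_rhs => rw [← e]
          group
        · intro e
          calc g * ((s : G) * x * (s : G)⁻¹) * g⁻¹ = g * s * x * (g * s)⁻¹ := by group
            _ = x := by rw [e]; group
      rw [e]
      refine le_trans (Finset.card_le_card (Nat.primeFactors_mono
        (relIndex_normal_dvd_index (Ce[g * (s : G)]) S) (cs_ne_zero _))) (hG _))
    refine ⟨s, s.2, (s : G)⁻¹ * g, ?_, by group⟩
    intro y hy
    have e : g * y * g⁻¹ = s * y * (s : G)⁻¹ :=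
      congrArg (fun φ : MulAut S => (φ ⟨y, hy⟩ : G)) hs
    calc y * ((s : G)⁻¹ * g) = (s : G)⁻¹ * (s * y * (s : G)⁻¹) * g := by group
      _ = (s : G)⁻¹ * (g * y * g⁻¹) * g := by rw [e]
      _ = (s : G)⁻¹ * g * y := by group
  have hCZ : C ≤ center G := by
    intro y hy
    by_contra hyZ
    obtain ⟨l, hl, hld⟩ := Nat.exists_prime_and_dvd (one_lt_cs_iff.2 hyZ).ne'
    obtain ⟨x, r₁, r₂, h1, h2, h12, hl1, hl2, d1, d2⟩ := two_primes h l
    have hle : ∀ g ∈ Ce[(x : G) * y], g ∈ Ce[(x : G)] ∧ g ∈ Ce[y] := by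
      intro g hg
      obtain ⟨s, hs, c, hc, rfl⟩ := hdec g
      have e : s * c * (x * y) = x * y * (s * c) := mem_C.1 hg
      have a1 : (x : G) * c = c * x := hc x x.2
      have a2 : s * y = y * s := hy s hs
      have e' : (s * x) * (c * y) = (x * s) * (y * c) := by
        calc (s * x) * (c * y) = s * (x * c) * y := by group
          _ = s * c * (x * y) := by rw [a1]; group
          _ = x * (y * s) * c := by rw [e]; group
          _ = (x * s) * (y * c) := by rw [← a2]; group
      have e'' : ((x : G) * s)⁻¹ * (s * x) = (y * c) * (c * y)⁻¹ := by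
        calc ((x : G) * s)⁻¹ * (s * x) = ((x : G) * s)⁻¹ * ((s * x) * (c * y)) * (c * y)⁻¹ := by
              group
          _ = _ := by rw [e']; group
      have z1 := hSC _ (S.mul_mem (S.inv_mem (S.mul_mem x.2 hs)) (S.mul_mem hs x.2))
        (e'' ▸ C.mul_mem (C.mul_mem hy hc) (C.inv_mem (C.mul_mem hc hy)))
      have b1 : (x : G) * s = s * x := inv_mul_eq_one.1 z1
      have b2 : y * c = c * y := mul_inv_eq_one.1 (e'' ▸ z1)
      constructor
      · refine mem_C.2 ?_
        change s * c * x = x * (s * c)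
        rw [mul_assoc, ← a1, ← mul_assoc, ← b1, mul_assoc]
      · refine mem_C.2 ?_
        change s * c * y = y * (s * c)
        rw [mul_assoc, ← b2, ← mul_assoc, a2, mul_assoc]
    have dx : cs[(x : G)] ∣ cs[(x : G) * y] := cs_dvd_of_le fun g hg => (hle g hg).1
    have dy : cs[y] ∣ cs[(x : G) * y] := cs_dvd_of_le fun g hg => (hle g hg).2
    have dS := cs_subgroup_dvd S x
    exact three_le_card (cs_ne_zero _) hl h1 h2 hl1 hl2 h12 (hld.trans dy)
      (d1.trans (dS.trans dx)) (d2.trans (dS.trans dx)) (hG _)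
  constructor
  · rw [eq_bot_iff]
    intro z hz
    rw [mem_bot]
    exact hSC z (mem_inf.1 hz).2 (center_le_centralizer _ (mem_inf.1 hz).1)
  · rw [eq_top_iff]
    intro g _
    obtain ⟨s, hs, c, hc, rfl⟩ := hdec g
    exact mul_mem (mem_sup_right hs) (mem_sup_left (hCZ hc))

end Cfsg.Agent.H24.CS
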