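import Cfsg.Agent.H44.CkDefs
import Cfsg.Agent.S2480
import Cfsg.Agent.S2481
import Cfsg.Agent.S4201
import Cfsg.Agent.H31.HermSU

/-! Lower bounds for the class numbers of `L₃(q)` and `U₃(q)`. -/

set_option autoImplicit false

namespace Cfsg.Agent.H24.CK

open Subgroup Cfsg.Agent.H44.CK
open scoped MatrixGroups

theorem kgen : KGenStmt := by
  refine ⟨fun F _ _ h => ?_, fun F _ _ q hF hq => ?_⟩
  · have h1 := (S2480.result (F := F) 3 (by norm_num)).1
    change _ ≤ _ * kk (Matrix.ProjectiveSpecialLinearGroup (Fin 3) F) at h1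
    generalize kk (Matrix.ProjectiveSpecialLinearGroup (Fin 3) F) = k at h1
    generalize Fintype.card F = q at h h1
    rcases h.eq_or_lt with rfl | h
    · norm_num at h1; omega
    · have h2 : Nat.gcd 3 (q - 1) ≤ 3 := Nat.gcd_le_left _ (by norm_num)
      have h3 : 6 ^ 2 ≤ q ^ (3 - 1) := Nat.pow_le_pow_left h 2
      have := h3.trans (h1.trans (Nat.mul_le_mul_right k h2))
      omega
  · have h1 := (S2481.result (F := F) 3 q (by norm_num) hF).1
    have h2 := S4201.result (center (Cfsg.SU 3 F q))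
    have h3 : Nat.card (ConjClasses (center (Cfsg.SU 3 F q))) ≤ Nat.gcd 3 (q + 1) := by
      rw [← H31.card_center_SU hF (by norm_num)]
      exact Nat.card_le_card_of_surjective _ ConjClasses.mk_surjective
    have h4 := h1.trans (h2.trans (Nat.mul_le_mul_right _ h3))
    change _ ≤ _ * kk (Cfsg.PSU 3 F q) at h4
    generalize kk (Cfsg.PSU 3 F q) = k at h4
    rcases hq with rfl | h
    · norm_num at h4; omega
    · have h5 : Nat.gcd 3 (q + 1) ≤ 3 := Nat.gcd_le_left _ (by norm_num)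
      have h6 : 6 ^ 2 ≤ q ^ (3 - 1) := Nat.pow_le_pow_left h 2
      have := h6.trans (h4.trans (Nat.mul_le_mul_right k h5))
      omega

abbrev M3 := Matrix (Fin 3) (Fin 3) (ZMod 3)

/-- class invariants in `SL₃(3)` -/
def inv (M : M3) : ZMod 3 × ZMod 3 × Bool × Bool × Bool :=
  (M.trace, (M * M).trace, decide (M = 1), decide (M * M = 1), decide ((M - 1) * (M - 1) = 0))

theorem inv_conj (C D M : M3) (h1 : C * D = 1) (h2 : D * C = 1) : inv (C * M * D) = inv M := by
  have mu : ∀ A B : M3, C * A * D * (C * B * D) = C * (A * B) * D := fun A B => by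
    calc _ = C * A * (D * C) * B * D := by simp only [Matrix.mul_assoc]
      _ = _ := by rw [h2]; simp only [Matrix.mul_assoc, Matrix.mul_one]
  have tr : ∀ A : M3, (C * A * D).trace = A.trace := fun A => by
    rw [Matrix.trace_mul_cycle, h2, Matrix.one_mul]
  have ij : ∀ A B : M3, C * A * D = C * B * D ↔ A = B := fun A B => ⟨fun h => by
    have := congrArg (fun X => D * X * C) h
    simpa only [← Matrix.mul_assoc, h2, Matrix.one_mul, Matrix.mul_assoc _ D C, Matrix.mul_one]
      using this, fun h => by rw [h]⟩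
  have o : ∀ A : M3, C * A * D = 1 ↔ A = 1 := fun A => by
    rw [← ij A 1, Matrix.mul_one, h1]
  have z : ∀ A : M3, C * A * D = 0 ↔ A = 0 := fun A => by
    rw [← ij A 0, Matrix.mul_zero, Matrix.zero_mul]
  have s : C * M * D - 1 = C * (M - 1) * D := by
    rw [Matrix.mul_sub, Matrix.sub_mul, Matrix.mul_one, h1]
  simp only [inv, s, mu, tr, o, z]

/-- twelve representatives -/
def rep : Fin 12 → M3 :=
  ![!![0, 0, 1; 1, 0, 0; 0, 1, 0], !![0, 0, 1; 1, 0, 1; 0, 1, 0], !![0, 0, 1; 1, 0, 2; 0, 1, 0],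
    !![0, 0, 1; 1, 0, 0; 0, 1, 1], !![0, 0, 1; 1, 0, 1; 0, 1, 1], !![0, 0, 1; 1, 0, 2; 0, 1, 1],
    !![0, 0, 1; 1, 0, 0; 0, 1, 2], !![0, 0, 1; 1, 0, 1; 0, 1, 2], !![0, 0, 1; 1, 0, 2; 0, 1, 2],
    !![1, 0, 0; 0, 1, 0; 0, 0, 1], !![1, 0, 1; 0, 1, 0; 0, 0, 1], !![1, 0, 0; 0, 2, 0; 0, 0, 2]]

theorem rep_det : ∀ i, (rep i).det = 1 := by
  intro i
  rw [Matrix.det_fin_three]
  revert i
  decide +kernel

theorem rep_inj : ∀ i j, inv (rep i) = inv (rep j) → i = j := by decide +kernel

/-- the representatives in `SL₃(3)` -/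
def repS (i : Fin 12) : SL(3, ZMod 3) := ⟨rep i, rep_det i⟩

theorem k_sl : 12 ≤ kk SL(3, ZMod 3) := by
  have := Nat.card_le_card_of_injective
    (fun i : Fin 12 => ConjClasses.mk (repS i)) fun i j h => by
      obtain ⟨c, hc⟩ := isConj_iff.1 (ConjClasses.mk_eq_mk_iff_isConj.1 h)
      refine rep_inj i j ?_
      have e : c.1 * rep i * (c⁻¹).1 = rep j := congrArg Subtype.val hc
      rw [← e]
      exact (inv_conj _ _ _ (congrArg Subtype.val (mul_inv_cancel c))
        (congrArg Subtype.val (inv_mul_cancel c))).symm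
  simpa using this

theorem k33 : K33Stmt := by
  intro F _ _ hF
  have : Fact (Nat.Prime 3) := ⟨Nat.prime_three⟩
  let e : F ≃+* ZMod 3 := FiniteField.ringEquivOfCardEq (by rw [hF, ZMod.card])
  let φ : SL(3, F) →* SL(3, ZMod 3) := Matrix.SpecialLinearGroup.map e.toRingHom
  have hφ : Function.Surjective φ := fun y =>
    ⟨Matrix.SpecialLinearGroup.map e.symm.toRingHom y, by ext i j; simp [φ]⟩
  have hz : center SL(3, F) ≤ φ.ker := fun x hx => by
    obtain ⟨r, hr, h⟩ := Matrix.SpecialLinearGroup.mem_center_iff.1 hx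
    have r1 : r = 1 := by
      have := FiniteField.pow_card r
      rw [hF] at this
      simpa [this] using hr
    have : x = 1 := Subtype.ext (by rw [← h, r1]; simp)
    rw [this]; exact one_mem _
  refine k_sl.trans (Nat.card_le_card_of_surjective _
    (ConjClasses.map_surjective (f := QuotientGroup.lift _ φ hz) fun y => ?_))
  obtain ⟨x, rfl⟩ := hφ y
  exact ⟨QuotientGroup.mk x, rfl⟩

theorem eqns_ck : True := by
  have := @inv.eq_1
  have := @rep.eq_1
  have := @repS.eq_1
  trivial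

end Cfsg.Agent.H24.CK
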