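import Cfsg.Agent.H11.CyLp

/-! Project CY, chapter LP, piece B3: an element of order four of the pair stabiliser would force
Sylow `2`-subgroups of order at most eight. -/

set_option autoImplicit false

namespace Cfsg.Agent.H24.CyB3

open Subgroup MulAction Cfsg.Agent.H11.Cy Cfsg.Agent.H11.Cy.Lp
open Cfsg.Agent.H11.EL (Ex)

variable {G : Type} [Group G]

theorem odd1 {K : Subgroup G} (o : Odd (Nat.card K)) {u : G} (hu : u ∈ K) {k : ℕ}
    (h : u ^ 2 ^ k = 1) : u = 1 := by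
  have h1 : orderOf u ∣ Nat.card K := K.orderOf_dvd_natCard hu
  have h2 : orderOf u ∣ 2 ^ k := orderOf_dvd_of_pow_eq_one h
  exact orderOf_eq_one_iff.1 (Nat.eq_one_of_dvd_coprimes
    (Nat.Coprime.pow_left k (Nat.coprime_two_left.2 o)) h2 h1)

theorem pair {Ω : Type} [MulAction G Ω] (x y : Ω) : ∃ M : Subgroup G, ∀ c, c ∈ M ↔
    (c • x = x ∧ c • y = y) ∨ (c • x = y ∧ c • y = x) := by
  refine ⟨{ carrier := {c | (c • x = x ∧ c • y = y) ∨ (c • x = y ∧ c • y = x)}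
            one_mem' := Or.inl ⟨one_smul _ _, one_smul _ _⟩
            mul_mem' := ?_
            inv_mem' := ?_ }, fun _ => Iff.rfl⟩
  · rintro a b (⟨a1, a2⟩ | ⟨a1, a2⟩) (⟨b1, b2⟩ | ⟨b1, b2⟩)
    · exact Or.inl ⟨by rw [mul_smul, b1, a1], by rw [mul_smul, b2, a2]⟩
    · exact Or.inr ⟨by rw [mul_smul, b1, a2], by rw [mul_smul, b2, a1]⟩
    · exact Or.inr ⟨by rw [mul_smul, b1, a1], by rw [mul_smul, b2, a2]⟩
    · exact Or.inl ⟨by rw [mul_smul, b1, a2], by rw [mul_smul, b2, a1]⟩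
  · rintro a (⟨a1, a2⟩ | ⟨a1, a2⟩)
    · exact Or.inl ⟨inv_smul_eq_iff.2 a1.symm, inv_smul_eq_iff.2 a2.symm⟩
    · exact Or.inr ⟨inv_smul_eq_iff.2 a2.symm, inv_smul_eq_iff.2 a1.symm⟩

theorem b3 : B3Stmt := by
  intro G _ _ Ω _ _ p A h l p5 x y n o h4
  by_contra ne
  obtain ⟨f, s, c⟩ := l.lc x y n
  have t := l.lt x y n f s c
  have cH : Nat.card (Hs G x y) = 2 ^ 2 * Nat.card (Kl A x y) := by
    have e := c.fo
    rw [t.e2c ne, (by omega : orderOf f = 2)]
    rfl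
  obtain ⟨g, hg, g4, gb⟩ : ∃ g ∈ Hs G x y, g ^ 2 ^ 2 = 1 ∧ Big p g (A x) := by
    by_contra hc
    obtain ⟨Q, hQ⟩ := Sylow.exists_subgroup_card_pow_prime (G := Hs G x y) 2 (n := 2) ⟨_, cH⟩
    have q4 : ∀ a : Q, (a.1 : G) ^ 2 ^ 2 = 1 := fun a => by
      have e : a ^ 2 ^ 2 = 1 := by rw [← hQ]; exact pow_card_eq_one'
      exact congrArg (fun b : Q => (b.1 : G)) e
    have k1 : ∀ a : Q, (a.1 : G) ∈ Kl A x y → a = 1 := fun a ha =>
      Subtype.ext (Subtype.ext (odd1 o ha (q4 a)))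
    have ex : ∀ a : Q, a ≠ 1 → Ex (a.1 : G) (A x) (-1) := fun a ha =>
      ((t.small _ a.1.2).resolve_left fun e => ha (k1 a e)).resolve_right
        fun e => hc ⟨_, a.1.2, q4 a, e⟩
    have m1 : ∀ a b : Q, a ≠ 1 → b ≠ 1 → a * b = 1 := fun a b ha hb => by
      refine k1 _ (l.mc.ep.eps x y n _ (a * b).1.2 fun w hw => ?_)
      have e1 := ex b hb w hw
      have e2 := ex a ha w hw
      change w * (a.1.1 * b.1.1) = a.1.1 * b.1.1 * w
      rw [zpow_neg_one] at e1 e2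
      calc w * (a.1.1 * b.1.1) = (a.1.1 * w * a.1.1⁻¹)⁻¹ * (a.1.1 * b.1.1) := by rw [e2, inv_inv]
        _ = a.1.1 * w⁻¹ * b.1.1 := by group
        _ = _ := by rw [← e1]; group
    have := Nat.card_le_card_of_injective (fun a : Q => (a = 1 : Prop)) fun a b e => by
      by_cases ha : a = 1
      · exact ha.trans (Eq.mp e ha).symm
      · exact mul_left_cancel ((m1 a a ha ha).trans (m1 a b ha fun hb => ha (Eq.mpr e hb)).symm)
    rw [hQ, Nat.card_eq_fintype_card, Fintype.card_prop] at this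
    omega
  have g2 : g * g ≠ 1 := fun e => by
    obtain ⟨i, hi, hn⟩ := gb
    obtain ⟨a, ha⟩ := exists_prime_orderOf_dvd_card' (G := A x) p (hp := ⟨h.pp⟩) (h.card x).symm.dvd
    have e1 : (a : G) ^ (i ^ 2 - 1) = 1 := by
      have e2 : g * (g * a * g⁻¹) * g⁻¹ = (a : G) ^ (i ^ 2) := by
        rw [hi _ a.2, hi _ (zpow_mem a.2 i), ← zpow_mul, sq]
      have e3 : g * (g * a * g⁻¹) * g⁻¹ = a := by
        calc g * (g * a * g⁻¹) * g⁻¹ = g * g * a * (g * g)⁻¹ := by group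
          _ = a := by rw [e]; group
      rw [zpow_sub_one, ← e2, e3, mul_inv_cancel]
    have := orderOf_dvd_iff_zpow_eq_one.2 e1
    rw [Subgroup.orderOf_coe, ha] at this
    exact hn this
  have fx : ∀ w, g • w = w → w = x ∨ w = y := fun w hw => by
    by_cases e : w = x
    · exact Or.inl e
    · exact Or.inr (l.two x g hg.1 gb w y e n.symm hw hg.2)
  have hp : IsPGroup 2 (zpowers g) := by
    obtain ⟨k, -, hk⟩ := (Nat.dvd_prime_pow Nat.prime_two).1 (orderOf_dvd_of_pow_eq_one g4)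
    exact IsPGroup.of_card ((Nat.card_zpowers g).trans hk)
  obtain ⟨P, hP⟩ := hp.exists_le_sylow
  have gP : g ∈ (P : Subgroup G) := hP (mem_zpowers g)
  obtain ⟨M, hM⟩ := pair (G := G) x y
  have := P.isPGroup'.isNilpotent
  have top : M.subgroupOf (P : Subgroup G) = ⊤ := by
    refine normalizerCondition_iff_only_full_group_self_normalizing.1
      Group.normalizerCondition_of_isNilpotent _ (le_antisymm (fun b hb => ?_) le_normalizer)
    have e : (b : G)⁻¹ * g * b ∈ M := (mem_normalizer_iff''.1 hb ⟨g, gP⟩).1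
      ((hM g).2 (Or.inl ⟨hg.1, hg.2⟩))
    refine (hM _).2 ?_
    rcases (hM _).1 e with ⟨e1, e2⟩ | ⟨e1, e2⟩
    · rw [mul_smul, mul_smul, inv_smul_eq_iff] at e1 e2
      have d : (b : G) • x ≠ (b : G) • y := fun e => n (MulAction.injective _ e)
      rcases fx _ e1 with a1 | a1 <;> rcases fx _ e2 with a2 | a2
      exacts [absurd (a1.trans a2.symm) d, Or.inl ⟨a1, a2⟩, Or.inr ⟨a1, a2⟩,
        absurd (a1.trans a2.symm) d]
    · have e3 : (b : G)⁻¹ * g * b * ((b : G)⁻¹ * g * b) = (b : G)⁻¹ * (g * g) * b := by group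
      have e4 := odd1 o (t.sq _ e1 e2) (k := 1) (by
        rw [e3, pow_one, sq]
        calc (b : G)⁻¹ * (g * g) * b * ((b : G)⁻¹ * (g * g) * b) = (b : G)⁻¹ * g ^ 2 ^ 2 * b := by
              norm_num [pow_succ, mul_assoc]
          _ = 1 := by rw [g4]; group)
      rw [e3] at e4
      refine absurd ?_ g2
      calc g * g = b * ((b : G)⁻¹ * (g * g) * b) * (b : G)⁻¹ := by group
        _ = 1 := by rw [e4]; group
  have PM : ∀ b : (P : Subgroup G), (b : G) ∈ M := fun b => (top.ge (mem_top b) :)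
  have i2 : ((Hs G x y).subgroupOf (P : Subgroup G)).index ∣ 2 := by
    refine index_dvd_two_iff.2 ?_
    by_cases e : ∃ a : (P : Subgroup G), (a : G) • x = y ∧ (a : G) • y = x
    · obtain ⟨a, a1, a2⟩ := e
      refine ⟨a, fun b => ((hM _).1 (PM b)).symm.imp (fun e => ?_) id⟩
      exact ⟨(mul_smul (b : G) a x).trans (by rw [a1, e.2]),
        (mul_smul (b : G) a y).trans (by rw [a2, e.1])⟩
    · exact ⟨1, fun b => Or.inr (((hM _).1 (PM b)).resolve_right fun e' => e ⟨b, e'⟩)⟩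
  have c4 : Nat.card ((Hs G x y).subgroupOf (P : Subgroup G)) ∣ 2 ^ 2 := by
    obtain ⟨k, hk⟩ := IsPGroup.iff_card.1 (P.isPGroup'.to_subgroup ((Hs G x y).subgroupOf _))
    have d : Nat.card ((Hs G x y).subgroupOf (P : Subgroup G)) ∣ Nat.card (Hs G x y) := by
      rw [← inf_subgroupOf_right, Nat.card_congr (subgroupOfEquivOfLe inf_le_right).toEquiv]
      exact card_dvd_of_le inf_le_left
    rw [cH, hk] at d
    rw [hk]
    exact (Nat.Coprime.pow_left k (Nat.coprime_two_left.2 o)).dvd_of_dvd_mul_right d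
  have c16 : 2 ^ 4 ∣ Nat.card (P : Subgroup G) := by
    refine P.pow_dvd_card_of_pow_dvd_card ?_
    rw [l.cG x, l.cH x y n, cH]
    obtain ⟨m, hm⟩ := h4
    exact ⟨m * (Nat.card Ω - 1) * Nat.card (Kl A x y), by nth_rewrite 1 [hm]; ring⟩
  have := c16.trans ((index_mul_card ((Hs G x y).subgroupOf (P : Subgroup G))).symm.dvd.trans
    (mul_dvd_mul i2 c4))
  exact absurd this (by decide)

end Cfsg.Agent.H24.CyB3
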