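import Cfsg.Agent.H11.CyDefs

/-! Project CY: basic facts on lines. -/

set_option autoImplicit false

namespace Cfsg.Agent.H24.CyEps

open Cfsg.Agent.H11.Cy Subgroup MulAction

variable {G : Type} [Group G] {Ω : Type} [MulAction G Ω] {p : ℕ} {A : Ω → Subgroup G}

theorem mem_iff (h : St p A) (g : G) (x : Ω) (a : G) : g * a * g⁻¹ ∈ A (g • x) ↔ a ∈ A x :=
  ⟨fun ha => by simpa [mul_assoc] using h.eqv g⁻¹ _ _ ha, h.eqv g x a⟩

theorem mapA (h : St p A) (g : G) (x : Ω) :
    (A x).map (MulAut.conj g).toMonoidHom = A (g • x) := by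
  refine le_antisymm (by rintro _ ⟨a, ha, rfl⟩; exact h.eqv g x a ha) fun b hb => ?_
  exact ⟨g⁻¹ * b * g, (mem_iff h g x _).1 (by simpa [mul_assoc] using hb), by simp [mul_assoc]⟩

theorem mapF (h : St p A) (g : G) (x y : Ω) :
    (Fl A x y).map (MulAut.conj g).toMonoidHom = Fl A (g • x) (g • y) := by
  rw [Subgroup.map_sup, mapA h, mapA h]

theorem ex_ne (h : St p A) (x : Ω) : ∃ a ∈ A x, a ≠ 1 := by
  by_contra hc
  have e : A x = ⊥ := (eq_bot_iff_forall _).2 fun a ha => by_contra fun n => hc ⟨a, ha, n⟩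
  have := h.card x
  rw [e, card_bot] at this
  exact h.pp.ne_one this.symm

theorem nA (h : St p A) (x : Ω) (g : G) : g ∈ normalizer (A x : Set G) ↔ g • x = x := by
  refine ⟨fun hg => ?_, fun hg => mem_normalizer_iff.2 fun a => ?_⟩
  · obtain ⟨a, ha, n⟩ := ex_ne h x
    refine (h.semi x _ _ ((mem_normalizer_iff.1 hg a).1 ha)
      (h.fix _ _ (h.eqv g x a ha))).resolve_left fun e => n ?_
    simpa using e
  · have := mem_iff h g x a
    rw [hg] at this
    exact this.symm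

theorem nrm_iff {H : Subgroup G} {g : G} :
    g ∈ normalizer (H : Set G) ↔ H.map (MulAut.conj g).toMonoidHom = H := by
  rw [mem_normalizer_iff]
  refine ⟨fun h => le_antisymm (by rintro _ ⟨a, ha, rfl⟩; exact (h a).1 ha) fun b hb =>
    ⟨g⁻¹ * b * g, (h _).2 (by simpa [mul_assoc] using hb), by simp [mul_assoc]⟩, fun h a =>
    ⟨fun ha => h.le ⟨a, ha, rfl⟩, fun ha => ?_⟩⟩
  obtain ⟨b, hb, e⟩ := h.ge ha
  rwa [← (MulAut.conj g).injective e]

theorem memL (x y : Ω) : x ∈ Ln A x y := (le_sup_left : A x ≤ A x ⊔ A y)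
theorem memR (x y : Ω) : y ∈ Ln A x y := (le_sup_right : A y ≤ A x ⊔ A y)

variable [Finite G]

theorem span (h : St p A) {x y : Ω} (n : x ≠ y) {z : Ω} (hz : z ∈ Ln A x y) {w : Ω}
    (hw : w ∈ Ln A x y) (n' : z ≠ w) : Fl A z w = Fl A x y := by
  obtain ⟨g, -, rfl, rfl⟩ := h.two x trivial y trivial z trivial w trivial n n'
  refine eq_of_le_of_card_ge (sup_le hz hw) ?_
  rw [← mapF h, card_map_of_injective (MulAut.conj g).injective]

theorem nrm (h : St p A) {x y : Ω} (n : x ≠ y) (g : G) :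
    g ∈ normalizer (Fl A x y : Set G) ↔ ∀ z ∈ Ln A x y, g • z ∈ Ln A x y := by
  rw [nrm_iff]
  refine ⟨fun e z hz => ?_, fun e => ?_⟩
  · exact ((mapA h g z).ge.trans (map_mono hz)).trans e.le
  · rw [mapF h]
    exact span h n (e _ (memL x y)) (e _ (memR x y)) fun e' => n (MulAction.injective g e')

theorem tr (h : St p A) {x y : Ω} (n : x ≠ y) :
    Tr2 (normalizer (Fl A x y : Set G)) (Ln A x y) := by
  intro z hz w hw z' hz' w' hw' n1 n2
  obtain ⟨g, -, rfl, rfl⟩ := h.two z trivial w trivial z' trivial w' trivial n1 n2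
  refine ⟨g, nrm_iff.2 ?_, rfl, rfl⟩
  rw [← span h n hz hw n1, mapF h, span h n hz' hw' n2, span h n hz hw n1]

theorem kfix (h : St p A) {x y : Ω} (n : x ≠ y) (c : G) :
    c ∈ Kl A x y ↔ ∀ z ∈ Ln A x y, c • z = z := by
  refine ⟨fun hc z hz => (nA h z c).1 (centralizer_le_normalizer _ (centralizer_le hz hc)),
    fun hc => ?_⟩
  have key : ∀ z ∈ Ln A x y, ∀ w ∈ Ln A x y, w ≠ z → A z ≤ centralizer {c} := by
    intro z hz w hw n' a ha
    have h1 : c * a * c⁻¹ ∈ A z := by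
      have := h.eqv c z a ha
      rwa [hc z hz] at this
    have h2 := hc _ ((nrm h n a).1 (le_normalizer (hz ha)) w hw)
    have h3 : (a⁻¹ * (c * a * c⁻¹)) • w = w := by
      rw [mul_smul, mul_smul, mul_smul, inv_smul_eq_iff.2 (hc w hw).symm, h2, inv_smul_smul]
    have h4 := (h.semi z w _ (mul_mem (inv_mem ha) h1) h3).resolve_right n'
    rw [mem_centralizer_singleton_iff]
    exact mul_inv_eq_iff_eq_mul.1 (inv_mul_eq_one.1 h4).symm |>.symm
  have := sup_le (key x (memL x y) y (memR x y) n.symm) (key y (memR x y) x (memL x y) n)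
  exact fun a ha => mem_centralizer_singleton_iff.1 (this ha)

theorem eps (res : ResStmt) (ole : OleStmt) : EpsStmt := fun G _ _ Ω _ _ p A h => by
  refine ⟨fun x y n c hc hc' => ?_, fun x y n => kfix h n, fun x y n z hz w hw => span h n hz hw,
    fun x y n => nrm h n, fun x y n => tr h n, nA h⟩
  have hle : ∀ z ∈ Ln A x y, A z ≤ normalizer (Fl A x y : Set G) := fun z hz =>
    le_trans hz le_normalizer
  obtain ⟨Y, _, _, _, π, B, -, h2, h3, h4⟩ := res G Ω p A h (normalizer (Fl A x y : Set G))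
    (Ln A x y) (fun g hg => (nrm h n g).1 hg) hle (tr h n) ⟨x, memL x y, y, memR x y, n⟩
  have hX : c ∈ normalizer (Fl A x y : Set G) := by
    rw [nrm_iff, mapF h, mem_stabilizer_iff.1 hc.1, mem_stabilizer_iff.1 hc.2]
  have one : One B := fun z w n' => Set.eq_univ_of_forall fun t => by
    change B t ≤ B z ⊔ B w
    rw [h3, h3, h3, ← Subgroup.map_sup, ← subgroupOf_sup (hle _ z.2) (hle _ w.2)]
    refine map_mono (comap_mono ?_)
    exact le_trans t.2 (span h n z.2 w.2 fun e => n' (Subtype.ext e)).ge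
  have e := ole Y _ p B h4 one ⟨x, memL x y⟩ ⟨y, memR x y⟩ (fun e => n (congrArg Subtype.val e))
    (π ⟨c, hX⟩) ⟨Subtype.ext ((h2 _ _).trans hc.1), Subtype.ext ((h2 _ _).trans hc.2)⟩ (by
      rw [h3]
      rintro _ ⟨a, ha, rfl⟩
      rw [← map_mul, ← map_mul]
      exact congrArg π (Subtype.ext (hc' _ ha)))
  refine (kfix h n c).2 fun z hz => ?_
  have := h2 ⟨c, hX⟩ ⟨z, hz⟩
  rw [e, one_smul] at this
  exact this.symm

end Cfsg.Agent.H24.CyEps
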