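import Cfsg.Agent.H56.SpDefs

/-! Project CY, chapter SP, piece P1: `F K` has index at most two in the normaliser of `F`. -/

set_option autoImplicit false

namespace Cfsg.Agent.H24.CyP1

open Subgroup Cfsg.Agent.H11.Cy Cfsg.Agent.H56.Sp Matrix

theorem fk_of {G : Type} [Group G] {L : Subgroup G} {F : Type} [Field F]
    (e : L ≃* SpecialLinearGroup (Fin 2) F) {g : G} (hg : g ∈ normalizer (L : Set G))
    {M : Matrix (Fin 2) (Fin 2) F} (h0 : M.det ≠ 0)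
    (hM : ∀ f f' : L, (f' : G) = g * f * g⁻¹ → M * (e f).1 = (e f').1 * M) (hs : IsSquare M.det) :
    ∃ f ∈ L, ∃ k ∈ centralizer (L : Set G), g = f * k := by
  obtain ⟨s, hs⟩ := hs
  have s0 : s ≠ 0 := fun e => h0 (by rw [hs, e, mul_zero])
  obtain ⟨f, hf⟩ := e.surjective ⟨s⁻¹ • M, by
    rw [det_smul, hs, Fintype.card_fin]; field_simp⟩
  refine ⟨f, f.2, (f : G)⁻¹ * g, fun a ha => ?_, by group⟩
  have ha' := (mem_normalizer_iff.1 hg a).1 ha
  have e1 : f * ⟨a, ha⟩ = ⟨_, ha'⟩ * f := e.injective (Subtype.ext (by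
    rw [map_mul, map_mul, hf]
    change s⁻¹ • M * (e ⟨a, ha⟩).1 = (e ⟨_, ha'⟩).1 * s⁻¹ • M
    rw [smul_mul_assoc, mul_smul_comm, hM ⟨a, ha⟩ ⟨_, ha'⟩ rfl]))
  have e2 : (f : G) * a = g * a * g⁻¹ * f := congrArg Subtype.val e1
  calc a * ((f : G)⁻¹ * g) = (f : G)⁻¹ * (f * a) * ((f : G)⁻¹ * g) := by group
    _ = (f : G)⁻¹ * g * a := by rw [e2]; group

theorem p1_of {G : Type} [Group G] {Ω : Type} [MulAction G Ω] {p : ℕ} {A : Ω → Subgroup G}
    {x y : Ω} (co : Co p A x y) : P1 A x y := by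
  classical
  obtain ⟨F, _, _, e, -, hc⟩ := co
  intro g hg h hh ng nh
  obtain ⟨M, m0, hM⟩ := hc g hg
  obtain ⟨N, n0, hN⟩ := hc h hh
  refine fk_of e (mul_mem hg hh) (M := M * N) (by rw [det_mul]; exact mul_ne_zero m0 n0)
    (fun f f' hf => ?_) ?_
  · have h1 := (mem_normalizer_iff.1 hh f).1 f.2
    rw [mul_assoc, hN f ⟨_, h1⟩ rfl, ← mul_assoc, hM ⟨_, h1⟩ f' (by rw [hf]; group), mul_assoc]
  · have a := quadraticChar_neg_one_iff_not_isSquare.2 fun s => ng (fk_of e hg m0 hM s)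
    have b := quadraticChar_neg_one_iff_not_isSquare.2 fun s => nh (fk_of e hh n0 hN s)
    rw [det_mul, ← quadraticChar_one_iff_isSquare (mul_ne_zero m0 n0), map_mul, a, b]
    rfl

theorem p1 : P1Stmt := fun _ _ _ _ _ _ _ _ _ _ _ _ _ _ _ co => p1_of co

end Cfsg.Agent.H24.CyP1
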