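import Mathlib
import Cfsg.Agent.H99.E72Defs

/-! E72-CFU: the configuration `5² : S₃` in `U₃(4)` and `L₃(16)`. -/

set_option autoImplicit false

namespace Cfsg.Agent.H24.E72C

open Cfsg Cfsg.Agent.H99.E72 Subgroup Matrix

universe u

theorem cfg_quot {K : Type*} [Group K] (a b u t : K) (a5 : a ^ 5 = 1) (b5 : b ^ 5 = 1)
    (ab : a * b = b * a) (h1 : u * a = b * u) (h2 : a * b * (u * b) = u) (h3 : b * (t * a) = t)
    (h4 : a * (t * b) = t)
    (ind : ∀ i < 5, ∀ j < 5, a ^ i * b ^ j * u = u * (a ^ i * b ^ j) → i = 0 ∧ j = 0) :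
    Cfg5 (K ⧸ center K) := by
  refine ⟨(a : K ⧸ center K), (b : K ⧸ center K), (u : K ⧸ center K), (t : K ⧸ center K),
    ⟨?_, ?_, ?_, ?_⟩, ?_, ?_, ?_, ?_⟩
  · rw [← QuotientGroup.mk_pow, a5, QuotientGroup.mk_one]
  · rw [← QuotientGroup.mk_pow, b5, QuotientGroup.mk_one]
  · rw [← QuotientGroup.mk_mul, ← QuotientGroup.mk_mul, ab]
  · intro i hi j hj h
    rw [← QuotientGroup.mk_pow, ← QuotientGroup.mk_pow, ← QuotientGroup.mk_mul,
      QuotientGroup.eq_one_iff, mem_center_iff] at h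
    exact ind i hi j hj (h u).symm
  · rw [mul_inv_eq_iff_eq_mul, ← QuotientGroup.mk_mul, ← QuotientGroup.mk_mul, h1]
  · rw [mul_inv_eq_iff_eq_mul, eq_inv_mul_iff_mul_eq, ← QuotientGroup.mk_mul,
      ← QuotientGroup.mk_mul, ← QuotientGroup.mk_mul, h2]
  · rw [mul_inv_eq_iff_eq_mul, eq_inv_mul_iff_mul_eq, ← QuotientGroup.mk_mul,
      ← QuotientGroup.mk_mul, h3]
  · rw [mul_inv_eq_iff_eq_mul, eq_inv_mul_iff_mul_eq, ← QuotientGroup.mk_mul,
      ← QuotientGroup.mk_mul, h4]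

theorem cfg_sub {K : Type*} [Group K] (S : Subgroup K) (a b u t : K) (ha : a ∈ S) (hb : b ∈ S)
    (hu : u ∈ S) (ht : t ∈ S) (a5 : a ^ 5 = 1) (b5 : b ^ 5 = 1)
    (ab : a * b = b * a) (h1 : u * a = b * u) (h2 : a * b * (u * b) = u) (h3 : b * (t * a) = t)
    (h4 : a * (t * b) = t)
    (ind : ∀ i < 5, ∀ j < 5, a ^ i * b ^ j * u = u * (a ^ i * b ^ j) → i = 0 ∧ j = 0) :
    Cfg5 (S ⧸ center S) := by
  refine cfg_quot (⟨a, ha⟩ : S) ⟨b, hb⟩ ⟨u, hu⟩ ⟨t, ht⟩ (Subtype.ext a5) (Subtype.ext b5)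
    (Subtype.ext ab) (Subtype.ext h1) (Subtype.ext h2) (Subtype.ext h3) (Subtype.ext h4) ?_
  intro i hi j hj h
  exact ind i hi j hj (congrArg Subtype.val h)

theorem data (F : Type u) [Field F] (z : F) (hz : orderOf z = 5) (two : (2 : F) = 0) :
    ∃ a b u t : SpecialLinearGroup (Fin 3) F, a ∈ SU 3 F 4 ∧ b ∈ SU 3 F 4 ∧ u ∈ SU 3 F 4 ∧
      t ∈ SU 3 F 4 ∧ a ^ 5 = 1 ∧ b ^ 5 = 1 ∧ a * b = b * a ∧ u * a = b * u ∧
      a * b * (u * b) = u ∧ b * (t * a) = t ∧ a * (t * b) = t ∧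
      ∀ i < 5, ∀ j < 5, a ^ i * b ^ j * u = u * (a ^ i * b ^ j) → i = 0 ∧ j = 0 := by
  have z5 : z ^ 5 = 1 := by rw [← hz]; exact pow_orderOf_eq_one z
  have z20 : z ^ 20 = 1 := by rw [show 20 = 5 * 4 from rfl, pow_mul, z5, one_pow]
  have m1 : (-1 : F) = 1 := by linear_combination (-1 : F) * two
  let a : SpecialLinearGroup (Fin 3) F := ⟨diagonal ![z, z ^ 4, 1], by
    rw [det_diagonal, Fin.prod_univ_three]; simp; linear_combination z5⟩
  let b : SpecialLinearGroup (Fin 3) F := ⟨diagonal ![1, z, z ^ 4], by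
    rw [det_diagonal, Fin.prod_univ_three]; simp; linear_combination z5⟩
  let u : SpecialLinearGroup (Fin 3) F := ⟨!![0, 0, 1; 1, 0, 0; 0, 1, 0], by
    simp [det_fin_three]⟩
  let t : SpecialLinearGroup (Fin 3) F := ⟨!![0, 0, 1; 0, 1, 0; 1, 0, 0], by
    simp [det_fin_three, m1]⟩
  have ea : slToMat 3 F a = diagonal ![z, z ^ 4, 1] := rfl
  have eb : slToMat 3 F b = diagonal ![1, z, z ^ 4] := rfl
  have eu : slToMat 3 F u = !![0, 0, 1; 1, 0, 0; 0, 1, 0] := rfl
  have et : slToMat 3 F t = !![0, 0, 1; 0, 1, 0; 1, 0, 0] := rfl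
  have ea' : slToMat 3 F a = !![z, 0, 0; 0, z ^ 4, 0; 0, 0, 1] := by
    rw [ea]; ext i j; fin_cases i <;> fin_cases j <;> simp
  have eb' : slToMat 3 F b = !![1, 0, 0; 0, z, 0; 0, 0, z ^ 4] := by
    rw [eb]; ext i j; fin_cases i <;> fin_cases j <;> simp
  have mem : ∀ g : SpecialLinearGroup (Fin 3) F,
      (∀ x y : Fin 3 → F, hermForm 3 F 4 (slToMat 3 F g *ᵥ x)
        (slToMat 3 F g *ᵥ y) = hermForm 3 F 4 x y) → g ∈ SU 3 F 4 :=
    fun g h => h
  have inj : ∀ g h : SpecialLinearGroup (Fin 3) F,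
      slToMat 3 F g = slToMat 3 F h → g = h :=
    fun g h e => Subtype.ext e
  refine ⟨a, b, u, t, mem a ?_, mem b ?_, mem u ?_, mem t ?_, ?_, ?_, ?_, ?_, ?_, ?_, ?_, ?_⟩
  · intro x y
    simp only [ea, hermForm, Fin.sum_univ_three, mulVec_diagonal]
    simp
    linear_combination (x 0 * y 0 ^ 4) * z5 + (x 1 * y 1 ^ 4) * z20
  · intro x y
    simp only [eb, hermForm, Fin.sum_univ_three, mulVec_diagonal]
    simp
    linear_combination (x 1 * y 1 ^ 4) * z5 + (x 2 * y 2 ^ 4) * z20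
  · intro x y
    simp [eu, hermForm, Fin.sum_univ_three, mulVec, dotProduct]
    ring
  · intro x y
    simp [et, hermForm, Fin.sum_univ_three, mulVec, dotProduct]
    ring
  · apply inj
    rw [map_pow, map_one, ea, diagonal_pow]
    ext i j; fin_cases i <;> fin_cases j <;> simp [z5, ← pow_mul, z20]
  · apply inj
    rw [map_pow, map_one, eb, diagonal_pow]
    ext i j; fin_cases i <;> fin_cases j <;> simp [z5, ← pow_mul, z20]
  · apply inj
    simp only [map_mul, ea', eb']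
    ext i j; fin_cases i <;> fin_cases j <;> simp [mul_comm]
  · apply inj
    simp only [map_mul, ea', eb', eu]
    ext i j; fin_cases i <;> fin_cases j <;> simp
  · apply inj
    simp only [map_mul, ea', eb', eu]
    ext i j; fin_cases i <;> fin_cases j <;> simp
    all_goals linear_combination z5
  · apply inj
    simp only [map_mul, ea', eb', et]
    ext i j; fin_cases i <;> fin_cases j <;> simp
    all_goals linear_combination z5
  · apply inj
    simp only [map_mul, ea', eb', et]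
    ext i j; fin_cases i <;> fin_cases j <;> simp
    all_goals linear_combination z5
  · intro i hi j hj h
    have h' : slToMat 3 F (a ^ i * b ^ j * u) =
        slToMat 3 F (u * (a ^ i * b ^ j)) := by
      rw [h]
    simp only [map_mul, map_pow, ea, eb, eu, diagonal_pow,
      diagonal_mul_diagonal] at h'
    have e1 := congrFun (congrFun h' 1) 0
    have e2 := congrFun (congrFun h' 2) 1
    simp [diagonal_mul, mul_diagonal] at e1 e2
    have f1 : z ^ (4 * i + j) = z ^ i := by rw [pow_add, pow_mul]; exact e1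
    have f2 : z ^ (4 * j) = z ^ (4 * i + j) := by rw [pow_add, pow_mul, pow_mul]; exact e2
    have hfin : IsOfFinOrder z := by rw [← orderOf_pos_iff, hz]; norm_num
    rw [hfin.pow_eq_pow_iff_modEq, hz] at f1 f2
    unfold Nat.ModEq at f1 f2
    omega

theorem cfu : CfuStmt.{u} := by
  intro F _ _ hF
  have two : (2 : F) = 0 := by
    have h := FiniteField.cast_card_eq_zero F
    rw [hF] at h
    have h2 : (2 : F) ^ 4 = 0 := by rw [← h]; norm_num
    exact pow_eq_zero_iff (by norm_num) |>.1 h2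
  classical
  obtain ⟨w, hw⟩ := exists_prime_orderOf_dvd_card (G := Fˣ) 5 (hp := ⟨by norm_num⟩)
    (by rw [Fintype.card_units, hF]; norm_num)
  obtain ⟨a, b, u, t, ha, hb, hu, ht, a5, b5, ab, h1, h2, h3, h4, ind⟩ :=
    data F (w : F) (by rw [orderOf_units, hw]) two
  exact ⟨cfg_sub _ a b u t ha hb hu ht a5 b5 ab h1 h2 h3 h4 ind,
    cfg_quot a b u t a5 b5 ab h1 h2 h3 h4 ind⟩

end Cfsg.Agent.H24.E72C
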