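import Cfsg.Agent.H6.E82Defs
import Cfsg.Agent.H34.FrA

/-! The action of the standard lifts of the Weyl group on the adjoint module of `E₈`. -/

set_option autoImplicit false
set_option maxRecDepth 100000

namespace Cfsg.Agent.H24.E82N

open Equiv Cfsg.Lie H37 H40 H34 H29 Module Cfsg.Agent.H6.E82
open scoped Matrix

theorem nW_act (l : List (Fin chevE8.rank)) : (∀ r : Rt,
    (Cert.nW K chevE8 l).1 *ᵥ eV chevE8 K r = eV chevE8 K (C8.S.word l r)) ∧
    ∀ r : Rt, (Cert.nW K chevE8 l).1 *ᵥ hR chevE8 K r = hR chevE8 K (C8.S.word l r) := by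
  induction l with
  | nil => exact ⟨fun r => by simp [Cert.nW_nil], fun r => by simp [Cert.nW_nil]⟩
  | cons i l ih =>
    obtain ⟨h1, h2⟩ := ih
    have N := C8.V.nForm_simple (F := K) i.2
    have e : ∀ r, ((C8.S.word (i :: l) r : Rt) : ℕ) = chevE8.reflectRoot i (C8.S.word l r) := fun r => by
      rw [SignedSys.word_cons, Perm.mul_apply, sgn_s, RS.σ_apply, C8.refl_val]
    refine ⟨fun r => ?_, fun r => ?_⟩
    · have h3 : ((C8.V.η i (C8.S.word l r) : ℤ) : K) = 1 := by
        have h4 : ((C8.V.η i (C8.S.word l r) : ℤ) : K) * ((C8.V.η i (C8.S.word l r) : ℤ) : K) = 1 :=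
          (C8.V.aut i i.2).sqF (C8.S.word l r).2
        rcases mul_self_eq_one_iff.1 h4 with h | h
        · exact h
        · rw [h, CharTwo.neg_eq]
      rw [Cert.nW_cons, Units.val_mul, ← Matrix.mulVec_mulVec, h1, C8.V.coe_nG,
        N.eV 1 one_ne_zero _ (C8.S.word l r).2, e, one_zpow, mul_one, h3, one_smul]
    · rw [Cert.nW_cons, Units.val_mul, ← Matrix.mulVec_mulVec, h2, C8.V.coe_nG,
        N.hR 1 one_ne_zero _ (C8.S.word l r).2, e]

theorem ext_basis {f g : V →ₗ[K] K} (h1 : ∀ r, f (hr r) = g (hr r)) (h2 : ∀ r, f (ee r) = g (ee r)) :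
    f = g := by
  refine (Pi.basisFun K chevE8.Idx).ext fun j => ?_
  rw [Pi.basisFun_apply]
  rcases j with i | r
  · have : (Pi.single (Sum.inl i) 1 : V) = hr (C8.R.simple i) := by
      rw [hr, C8.simple_val, hR_simple C8.V.basic i.2]
      funext j
      rcases j with j | j
      · simp [hV, Pi.single_apply, Fin.ext_iff]
      · simp [hV]
    rw [this, h1]
  · have : (Pi.single (Sum.inr r) 1 : V) = ee r := by
      funext j
      rcases j with j | j
      · simp [eV]
      · simp [eV, Pi.single_apply, Fin.ext_iff]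
    rw [this, h2]

theorem ev_hr (r s : Rt) : ev r (hr s) = (pr s r : K) := by
  rw [H6.E82.ev, pr, RS.pair_def, Int.cast_sum]
  exact Finset.sum_congr rfl fun i _ => by rw [Int.cast_mul, C8.co_eq]; rfl

theorem ev_ee (r s : Rt) : ev r (ee s) = 0 := by
  simp [H6.E82.ev, eV]

theorem nact : NactStmt := by
  intro l
  have hw := C8.S.word_mem_W l
  obtain ⟨h1, h2⟩ := nW_act l
  have a1 : ∀ r, act (nn l) (ee r) = ee (C8.S.word l r) := fun r => (act_apply _ _).trans (h1 r)
  have a2 : ∀ r, act (nn l) (hr r) = hr (C8.S.word l r) := fun r => (act_apply _ _).trans (h2 r)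
  refine ⟨C8.nWg_mem l, C8.ν_nWg l, fun r t => Cert.can_nWg l r t, fun r v => ?_, fun r v => ?_,
    fun r => C8.R.W_neg hw r⟩
  · refine LinearMap.congr_fun (ext_basis
      (f := (LinearMap.proj (Sum.inr (C8.S.word l r))).comp (act (nn l)))
      (g := LinearMap.proj (Sum.inr r)) (fun s => ?_) fun s => ?_) v
    · rw [LinearMap.comp_apply, a2]; rfl
    · rw [LinearMap.comp_apply, a1]
      simp only [LinearMap.proj_apply, eV, Sum.elim_inr, Fin.val_inj, EmbeddingLike.apply_eq_iff_eq]
  · let E : Rt → V →ₗ[K] K := fun r =>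
      { toFun := ev r, map_add' := ev_add r, map_smul' := ev_smul r }
    refine LinearMap.congr_fun (ext_basis (f := (E (C8.S.word l r)).comp (act (nn l)))
      (g := E r) (fun s => ?_) fun s => ?_) v
    · rw [LinearMap.comp_apply, a2]
      exact (ev_hr _ _).trans ((congrArg _ (C8.R.pair_W hw s r)).trans (ev_hr _ _).symm)
    · rw [LinearMap.comp_apply, a1]
      exact (ev_ee _ _).trans (ev_ee _ _).symm

end Cfsg.Agent.H24.E82N
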