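import Cfsg.Agent.H50.E83Defs

/-!
# `Q₈ × Q₈ × Q₈` in `PSp₆(3)`
-/

set_option autoImplicit false
set_option maxRecDepth 100000

namespace Cfsg.Agent.H24.E83s

open Matrix Cfsg.Agent.H50.E83 QuaternionGroup

/-- the field with three elements -/
abbrev R : Type := ZMod 3
/-- two by two matrices -/
abbrev M2 : Type := Matrix (Fin 2) (Fin 2) R
/-- the symplectic group -/
abbrev Sp : Type := symplecticGroup (Fin 3) R

/-- three blocks -/
def bl (s : Fin 3 → M2) : Matrix (Fin 3 ⊕ Fin 3) (Fin 3 ⊕ Fin 3) R :=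
  fromBlocks (diagonal fun k => s k 0 0) (diagonal fun k => s k 0 1)
    (diagonal fun k => s k 1 0) (diagonal fun k => s k 1 1)

theorem bl_mul (s t : Fin 3 → M2) : bl s * bl t = bl (s * t) := by
  simp only [bl, fromBlocks_multiply, diagonal_mul_diagonal, diagonal_add, Pi.mul_apply,
    mul_apply, Fin.sum_univ_two]

theorem bl_one : bl 1 = 1 := by
  simp [bl, ← fromBlocks_one]

theorem bl_neg : bl (fun _ => -1) = -1 := by
  rw [← fromBlocks_one, fromBlocks_neg]
  simp [bl, ← diagonal_one, diagonal_neg]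

theorem bl_inj {s t : Fin 3 → M2} (h : bl s = bl t) : s = t := by
  obtain ⟨h1, h2, h3, h4⟩ := fromBlocks_inj.1 h
  funext k
  ext i j
  fin_cases i <;> fin_cases j
  · exact congrFun (diagonal_injective h1) k
  · exact congrFun (diagonal_injective h2) k
  · exact congrFun (diagonal_injective h3) k
  · exact congrFun (diagonal_injective h4) k

theorem bl_mem {s : Fin 3 → M2} (h : ∀ k, s k * !![0, -1; 1, 0] * (s k)ᵀ = !![0, -1; 1, 0]) :
    bl s ∈ symplecticGroup (Fin 3) R := by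
  have hJ : J (Fin 3) R = bl fun _ => !![0, -1; 1, 0] := by
    simp [bl, J, ← diagonal_one, diagonal_neg]
  have hT : (bl s)ᵀ = bl fun k => (s k)ᵀ := by
    simp only [bl, fromBlocks_transpose, diagonal_transpose, transpose_apply]
  rw [SymplecticGroup.mem_iff, hJ, hT, bl_mul, bl_mul]
  congr 1
  funext k
  exact h k

/-- permutation of the blocks -/
def pb (σ : Equiv.Perm (Fin 3)) : Matrix (Fin 3 ⊕ Fin 3) (Fin 3 ⊕ Fin 3) R :=
  fromBlocks (σ.permMatrix R) 0 0 (σ.permMatrix R)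

theorem pb_mem (σ : Equiv.Perm (Fin 3)) : pb σ ∈ symplecticGroup (Fin 3) R := by
  have : σ.permMatrix R * σ⁻¹.permMatrix R = 1 := by
    rw [← permMatrix_mul, inv_mul_cancel, permMatrix_one]
  rw [SymplecticGroup.mem_iff]
  simp [pb, J, fromBlocks_multiply, fromBlocks_transpose, this]

theorem pb_bl (σ : Equiv.Perm (Fin 3)) (s : Fin 3 → M2) :
    pb σ * bl s = bl (fun k => s (σ k)) * pb σ := by
  have : ∀ d : Fin 3 → R, σ.permMatrix R * diagonal d =
      diagonal (fun k => d (σ k)) * σ.permMatrix R := fun d => by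
    ext i j
    rw [mul_diagonal, diagonal_mul]
    simp only [Equiv.Perm.permMatrix, PEquiv.toMatrix_apply, Equiv.toPEquiv_apply,
      Option.mem_def, Option.some.injEq]
    split_ifs with h
    · rw [h, one_mul, mul_one]
    · rw [zero_mul, mul_zero]
  simp only [pb, bl, fromBlocks_multiply, this, Matrix.zero_mul, Matrix.mul_zero, add_zero,
    zero_add]

/-- the quaternion group in `SL₂(3)` -/
def q0 : Q8 → M2
  | a i => if i = 0 then !![1, 0; 0, 1] else if i = 1 then !![0, -1; 1, 0]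
      else if i = 2 then !![-1, 0; 0, -1] else !![0, 1; -1, 0]
  | xa i => if i = 0 then !![1, 1; 1, -1] else if i = 1 then !![1, -1; -1, -1]
      else if i = 2 then !![-1, -1; -1, 1] else !![-1, 1; 1, 1]

theorem q0_mul : ∀ x y : Q8, q0 (x * y) = q0 x * q0 y := by decide +kernel

theorem q0_one : q0 1 = 1 := by decide +kernel

theorem q0_inj : ∀ x y : Q8, q0 x = q0 y → x = y := by decide +kernel

theorem q0_sp : ∀ x : Q8, q0 x * !![0, -1; 1, 0] * (q0 x)ᵀ = !![0, -1; 1, 0] := by decide +kernel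

theorem q0_z : q0 (a 2) = -1 := by decide +kernel

/-- normal form in one block -/
def nf (x : Q8) : Q8 := if ty x = 3 then a 1 else x

theorem q0_nf : ∀ x : Q8, ∃ c : M2, c * !![0, -1; 1, 0] * cᵀ = !![0, -1; 1, 0] ∧
    c * q0 x = q0 (nf x) * c := by decide +kernel

/-- the three blocks of an element -/
def tri (g : Q3) : Fin 3 → M2 := ![q0 g.1, q0 g.2.1, q0 g.2.2]

/-- the embedding in the symplectic group -/
def φ0 : Q3 →* Sp := MonoidHom.mk' (fun g => ⟨bl (tri g), bl_mem fun k => by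
    fin_cases k <;> exact q0_sp _⟩) fun g h => Subtype.ext (by
  change bl _ = bl _ * bl _
  rw [bl_mul]
  congr 1
  funext k
  fin_cases k <;> exact q0_mul _ _)

theorem φ0_inj {g h : Q3} (e : φ0 g = φ0 h) : g = h := by
  have := bl_inj (congrArg Subtype.val e)
  exact Prod.ext (q0_inj _ _ (congrFun this 0))
    (Prod.ext (q0_inj _ _ (congrFun this 1)) (q0_inj _ _ (congrFun this 2)))

/-- the central involution -/
def z : Q3 := (a 2, a 2, a 2)

theorem φ0_z : φ0 z ∈ Subgroup.center Sp := by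
  have : (φ0 z).1 = -1 := by
    rw [← bl_neg]
    change bl _ = _
    congr 1
    funext k
    fin_cases k <;> exact q0_z
  refine Subgroup.mem_center_iff.2 fun g => Subtype.ext ?_
  rw [Submonoid.coe_mul, Submonoid.coe_mul, this, mul_neg, neg_mul, mul_one, one_mul]

/-- the first transposition -/
def s1 (g : Q3) : Q3 := (g.2.1, g.1, g.2.2)
/-- the second transposition -/
def s2 (g : Q3) : Q3 := (g.1, g.2.2, g.2.1)
/-- normal form -/
def n3 (g : Q3) : Q3 := (nf g.1, nf g.2.1, nf g.2.2)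

theorem cj_of {g h : Q3} (c : Sp) (e : c.1 * bl (tri g) = bl (tri h) * c.1) :
    c * φ0 g * c⁻¹ = φ0 h := mul_inv_eq_iff_eq_mul.2 (Subtype.ext e)

theorem cj_s1 (g : Q3) : ∃ c : Sp, c * φ0 g * c⁻¹ = φ0 (s1 g) :=
  ⟨⟨_, pb_mem (Equiv.swap 0 1)⟩, cj_of _ (by
    rw [pb_bl]
    congr 2
    funext k
    fin_cases k <;> rfl)⟩

theorem cj_s2 (g : Q3) : ∃ c : Sp, c * φ0 g * c⁻¹ = φ0 (s2 g) :=
  ⟨⟨_, pb_mem (Equiv.swap 1 2)⟩, cj_of _ (by
    rw [pb_bl]
    congr 2
    funext k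
    fin_cases k <;> rfl)⟩

theorem cj_n3 (g : Q3) : ∃ c : Sp, c * φ0 g * c⁻¹ = φ0 (n3 g) := by
  obtain ⟨c1, h1, e1⟩ := q0_nf g.1
  obtain ⟨c2, h2, e2⟩ := q0_nf g.2.1
  obtain ⟨c3, h3, e3⟩ := q0_nf g.2.2
  refine ⟨⟨bl ![c1, c2, c3], bl_mem fun k => ?_⟩, cj_of _ ?_⟩
  · fin_cases k
    exacts [h1, h2, h3]
  · rw [bl_mul, bl_mul]
    congr 1
    funext k
    fin_cases k
    exacts [e1, e2, e3]

/-- the map to the projective group -/
def φ : Q3 →* Cfsg.PSp 3 R := (QuotientGroup.mk' _).comp φ0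

theorem cj {g h : Q3} (e : ∃ c : Sp, c * φ0 g * c⁻¹ = φ0 h) : IsConj (φ g) (φ h) :=
  (QuotientGroup.mk' _).map_isConj (isConj_iff.2 e)

theorem φ_z : φ z = 1 := (QuotientGroup.eq_one_iff _).2 φ0_z

/-- class representatives -/
def rep (k : ℕ) : Q3 :=
  [(1, 1, 1), (a 2, 1, 1), (a 1, 1, 1), (a 1, a 2, 1), (a 1, a 1, 1), (a 1, a 1, a 1)].getD k 1

theorem rep_spec : ∀ g : Q3, ∃ h ∈ [g, s1 g, s2 g, s1 (s2 g), s2 (s1 g), s1 (s2 (s1 g))],
    n3 h = rep (cls g) ∨ n3 (h * z) = rep (cls g) := by decide +kernel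

theorem conj_rep (g : Q3) : IsConj (φ g) (φ (rep (cls g))) := by
  obtain ⟨h, hh, e⟩ := rep_spec g
  have a1 := fun g => cj (cj_s1 g)
  have a2 := fun g => cj (cj_s2 g)
  have h1 : IsConj (φ g) (φ h) := by
    simp only [List.mem_cons, List.not_mem_nil, or_false] at hh
    rcases hh with rfl | rfl | rfl | rfl | rfl | rfl
    · exact IsConj.refl _
    · exact a1 _
    · exact a2 _
    · exact (a2 _).trans (a1 _)
    · exact (a1 _).trans (a2 _)
    · exact ((a1 _).trans (a2 _)).trans (a1 _)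
  rcases e with e | e
  · rw [← e]
    exact h1.trans (cj (cj_n3 h))
  · rw [← e]
    refine h1.trans ?_
    have := cj (cj_n3 (h * z))
    rwa [map_mul, φ_z, mul_one] at this

theorem cls_zero : ∀ g : Q3, cls g = 0 → g = 1 ∨ g = z := by decide +kernel

theorem cls_of : ∀ g : Q3, g * (a 1, a 1, a 1) = (a 1, a 1, a 1) * g →
    g * (xa 0, xa 0, xa 0) = (xa 0, xa 0, xa 0) * g → g = s1 g → g = s2 g → cls g = 0 := by
  decide +kernel

theorem embS : EmbSStmt := by
  refine ⟨φ, fun g => ⟨fun h => ?_, fun h => ?_⟩, fun g g' h => ?_⟩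
  · have hc := Subgroup.mem_center_iff.1 ((QuotientGroup.eq_one_iff _).1 h)
    have hs : ∀ g', (∃ c : Sp, c * φ0 g * c⁻¹ = φ0 g') → g = g' := fun g' ⟨c, e⟩ =>
      φ0_inj (by rw [← e, hc, mul_inv_cancel_right])
    exact cls_of g (φ0_inj (by rw [map_mul, map_mul, hc])) (φ0_inj (by rw [map_mul, map_mul, hc]))
      (hs _ (cj_s1 g)) (hs _ (cj_s2 g))
  · rcases cls_zero g h with rfl | rfl
    · exact map_one _
    · exact φ_z
  · exact (conj_rep g).trans (h ▸ (conj_rep g').symm)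

theorem eqns_E83s : True := by
  have := @bl.eq_1
  have := @pb.eq_1
  have := @q0.eq_1
  have := @q0.eq_2
  have := @q0.eq_def
  have := @nf.eq_1
  have := @tri.eq_1
  have := @φ0.eq_1
  have := @z.eq_1
  have := @s1.eq_1
  have := @s2.eq_1
  have := @n3.eq_1
  have := @φ.eq_1
  have := @rep.eq_1
  trivial

end Cfsg.Agent.H24.E83s
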