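import Cfsg.Agent.H98.GbL
import Cfsg.Agent.H84.DgAdams

/-! Project GB, piece LAM: elementary symmetric functions of the lifted eigenvalues. -/

set_option autoImplicit false

namespace Cfsg.Agent.H24.GbLam

open Cfsg Finset Polynomial Cfsg.Agent.H98.GB

universe u

theorem ms_eq (S T : Multiset ℂ) (h : ∀ r : ℕ, (S.map (· ^ r)).sum = (T.map (· ^ r)).sum) :
    S = T := by
  classical
  have h1 : ∀ f : ℂ[X], (S.map fun x => f.eval x).sum = (T.map fun x => f.eval x).sum := by
    intro f
    induction f using Polynomial.induction_on' with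
    | add p q hp hq => simp only [eval_add, Multiset.sum_map_add, hp, hq]
    | monomial n a => simp only [eval_monomial, Multiset.sum_map_mul_left, h n]
  ext x
  let f : ℂ[X] := ∏ y ∈ (S + T).toFinset.erase x, (X - C y)
  have h0 : ∀ y, y ≠ x → y ∈ S + T → f.eval y = 0 := by
    intro y hy hm
    simp only [f, eval_prod, eval_sub, eval_X, eval_C]
    exact Finset.prod_eq_zero (i := y) (by simp [hy, Multiset.mem_add.1 hm]) (sub_self y)
  have hx : f.eval x ≠ 0 := by
    simp only [f, eval_prod, eval_sub, eval_X, eval_C]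
    exact Finset.prod_ne_zero_iff.2 fun y hy => sub_ne_zero.2 (Finset.ne_of_mem_erase hy).symm
  have h2 := h1 f
  rw [Multiset.sum_map_eq_nsmul_single x (fun y hy hm => h0 y hy (Multiset.mem_add.2 (Or.inl hm))),
    Multiset.sum_map_eq_nsmul_single x (fun y hy hm => h0 y hy (Multiset.mem_add.2 (Or.inr hm))),
    nsmul_eq_mul, nsmul_eq_mul] at h2
  exact_mod_cast mul_right_cancel₀ hx h2

theorem esymm_zero (S : Multiset ℂ) : S.esymm 0 = 1 := by simp [Multiset.esymm]

theorem esymm_cons (x : ℂ) (S : Multiset ℂ) (k : ℕ) :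
    (x ::ₘ S).esymm (k + 1) = S.esymm (k + 1) + x * S.esymm k := by
  simp only [Multiset.esymm, Multiset.powersetCard_cons, Multiset.map_add, Multiset.sum_add,
    Multiset.map_map, Function.comp_def, Multiset.prod_cons, Multiset.sum_map_mul_left]

theorem coeff_gen (S : Multiset ℂ) (k : ℕ) :
    ((S.map fun x => 1 + C x * X).prod : ℂ[X]).coeff k = S.esymm k := by
  induction S using Multiset.induction_on generalizing k with
  | empty =>
    rcases k with _ | k
    · simp [esymm_zero]
    · simp [Multiset.esymm, coeff_one, Multiset.powersetCard_zero_right]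
  | cons x S ih =>
    rw [Multiset.map_cons, Multiset.prod_cons, add_mul, one_mul, coeff_add, mul_assoc, coeff_C_mul]
    rcases k with _ | k
    · rw [ih, esymm_zero, esymm_zero, coeff_X_mul_zero, mul_zero, add_zero]
    · rw [coeff_X_mul, ih, ih, esymm_cons]

theorem esymm_add (S T : Multiset ℂ) (k : ℕ) :
    (S + T).esymm k = S.esymm k + ∑ i ∈ range k, S.esymm i * T.esymm (k - i) := by
  rw [← coeff_gen, Multiset.map_add, Multiset.prod_add, coeff_mul,
    Finset.Nat.sum_antidiagonal_eq_sum_range_succ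
      (fun i j => ((S.map fun x => 1 + C x * X).prod : ℂ[X]).coeff i *
        ((T.map fun x => 1 + C x * X).prod : ℂ[X]).coeff j), Finset.sum_range_succ]
  simp only [coeff_gen, Nat.sub_self, esymm_zero, mul_one]
  rw [add_comm]

theorem rep_data {G : Type} [Group G] [Finite G] {n : ℕ} (ρ : Representation ℂ G (Fin n → ℂ))
    (g : G) : ∃ A : Multiset ℂ, (∀ r, ρ.character (g ^ r) = (A.map (· ^ r)).sum) ∧
      ∀ a k, (H84.DgAdams.extRep ρ k).character (g ^ a) = (A.map (· ^ a)).esymm k := by
  obtain ⟨b, μ, hb, -⟩ := H12.exists_eigenbasis_rep ρ g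
  refine ⟨univ.val.map μ, fun r => ?_, fun a k => ?_⟩
  · rw [Representation.character, map_pow,
      H12.trace_eq_sum_of_eigenbasis b _ _ (H12.pow_apply_of_eigenbasis b _ μ hb r),
      Multiset.map_map]
    rfl
  · have h1 : ∀ i, ρ (g ^ a) (b i) = μ i ^ a • b i := fun i => by
      rw [map_pow]; exact H12.pow_apply_of_eigenbasis b _ μ hb a i
    have h2 := H84.DgAdams.trace_ext b (ρ (g ^ a)) (fun i => μ i ^ a) h1 k
    rw [Multiset.map_map, Finset.esymm_map_val]
    exact h2

theorem main0 {G : Type} [Group G] [Finite G] (R : G → Multiset ℂ)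
    (hR : ∀ g r, R (g ^ r) = (R g).map (· ^ r))
    (hβ : IsGeneralizedCharacter G fun g => (R g).sum) (a k : ℕ) :
    IsGeneralizedCharacter G fun g => ((R g).map (· ^ a)).esymm k := by
  obtain ⟨_, _, ⟨n, ρ, rfl⟩, ⟨m, σ, rfl⟩, hβ⟩ := hβ
  induction k using Nat.strong_induction_on with
  | _ k ih =>
  have key : (fun g => ((R g).map (· ^ a)).esymm k) =
      (fun g => (H84.DgAdams.extRep ρ k).character (g ^ a)) -
        ∑ i ∈ range k, (fun g => ((R g).map (· ^ a)).esymm i) *
          fun g => (H84.DgAdams.extRep σ (k - i)).character (g ^ a) := by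
    funext g
    obtain ⟨A, hA, hA'⟩ := rep_data ρ g
    obtain ⟨B, hB, hB'⟩ := rep_data σ g
    have e : A = R g + B := by
      refine ms_eq _ _ fun r => ?_
      have h1 := congrFun hβ (g ^ r)
      simp only [Pi.sub_apply] at h1
      rw [Multiset.map_add, Multiset.sum_add, ← hR, h1, hA, hB, sub_add_cancel]
    simp only [Pi.sub_apply, Finset.sum_apply, Pi.mul_apply, hA', hB']
    rw [e, Multiset.map_add, esymm_add, add_sub_cancel_right]
  rw [key]
  exact H11.isGen_sub (H84.DgAdams.isGen_char_pow _ a) (H11.isGen_sum _ _ fun i hi =>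
    H11.isGen_mul (ih i (Finset.mem_range.1 hi)) (H84.DgAdams.isGen_char_pow _ a))

theorem main {G : Type u} [Group G] [Finite G] (R : G → Multiset ℂ)
    (hR : ∀ g r, R (g ^ r) = (R g).map (· ^ r))
    (hβ : IsGeneralizedCharacter G fun g => (R g).sum) (a k : ℕ) :
    IsGeneralizedCharacter G fun g => ((R g).map (· ^ a)).esymm k := by
  let e : Shrink.{0} G ≃* G := Shrink.mulEquiv
  haveI : Finite (Shrink.{0} G) := Finite.of_equiv G e.symm.toEquiv
  have h1 := main0 (G := Shrink.{0} G) (fun g => R (e g)) (fun g r => by rw [map_pow, hR])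
    (H11.isGen_comp hβ e.toMonoidHom) a k
  have h2 := H11.isGen_comp h1 e.symm.toMonoidHom
  convert h2 using 2 with g
  simp

theorem lam (hR : ROOTStmt.{u}) : LAMStmt.{u} := by
  intro F _ _ _ C n a k
  obtain ⟨-, -, -, h4, -⟩ := hR F C
  refine main (fun g => C.roots g) (fun g r => h4 n g r) ?_ a k
  letI := C.alg
  have h := H22.Cusp.isGen_bT C.hM0 (H22.Cusp.natRep F n)
  convert h using 2 with g
  have e : (H22.Cusp.natRep F n g).charpoly = g.1.charpoly := by
    rw [← Matrix.charpoly_toLin']
    rfl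
  rw [e]
  rfl

end Cfsg.Agent.H24.GbLam
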