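import Cfsg.Agent.H50.L81Defs

/-! Project L81: the raising and lowering operators of a module of `SL₂(81)`. -/

set_option autoImplicit false
set_option maxRecDepth 100000

namespace Cfsg.Agent.H24.L81Aop

open Cfsg.Agent.H50.L81 Cfsg.Agent.H82 Cfsg.Agent.H50.SL2S Cfsg.Agent.H50.E83 Finset Module

theorem pow81 (x : F) : x ^ 81 = x := by
  rw [← card_F]; exact FiniteField.pow_card x

theorem pow80 {x : F} (hx : x ≠ 0) : x ^ 80 = 1 := by
  have := FiniteField.pow_card_sub_one_eq_one x hx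
  rwa [card_F] at this

theorem c81 : ((81 : ℕ) : F) = 0 := (CharP.cast_eq_zero_iff F 3 81).2 (by decide)

theorem geo (s t : F) : ∑ c ∈ range 80, s ^ (c + 1) * t ^ (80 - (c + 1)) =
    (if t = 0 then 1 else 0) - if t = s then 1 else 0 := by
  have h1 : ∑ c ∈ range 81, s ^ c * t ^ (81 - 1 - c) = 1 - if t = s then 1 else 0 := by
    split_ifs with h
    · rw [h, geom_sum₂_self, c81, zero_mul, sub_self]
    · refine mul_right_cancel₀ (sub_ne_zero.2 (Ne.symm h)) ?_
      rw [geom_sum₂_mul, pow81, pow81, sub_zero, one_mul]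
  have h2 : t ^ 80 = 1 - if t = 0 then 1 else 0 := by
    split_ifs with h
    · rw [h, zero_pow (by decide), sub_self]
    · rw [pow80 h, sub_zero]
  rw [sum_range_succ', pow_zero, one_mul] at h1
  linear_combination h1 - h2

theorem luc : ∀ c < 81, 0 < c → ∃ i < 4, 3 ^ i ≤ c ∧
    ¬ 3 ∣ c.descFactorial (c - 3 ^ i) / (c - 3 ^ i).factorial := by
  decide +kernel

variable {W : Type} [AddCommGroup W] [Module K W] (ρ : SL →* Module.End K W) (p : Par)

theorem A0 : Aop ρ p 0 = 1 := if_pos rfl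

theorem As (c : ℕ) : Aop ρ p (c + 1) = -∑ t : F, p.κ t ^ (80 - (c + 1)) • ρ (uu t) :=
  if_neg (Nat.succ_ne_zero c)

theorem expand (s : F) : ρ (uu s) = ∑ c ∈ range 81, p.κ s ^ c • Aop ρ p c := by
  rw [sum_range_succ', A0, pow_zero, one_smul]
  simp only [As, smul_neg, smul_sum, smul_smul, sum_neg_distrib]
  rw [sum_comm]
  simp only [← sum_smul, ← map_pow, ← map_mul, ← map_sum, geo, map_sub, sub_smul, sum_sub_distrib,
    apply_ite p.κ, map_one, map_zero, ite_smul, one_smul, zero_smul, sum_ite_eq', mem_univ, if_true,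
    uu_zero]
  abel

theorem van {A : Type} [AddCommGroup A] [Module K A] (c d : ℕ → A)
    (h : ∀ t : F, ∑ j ∈ range 81, p.κ t ^ j • c j = ∑ j ∈ range 81, p.κ t ^ j • d j) :
    ∀ j ≤ 80, c j = d j := fun j hj => by
  refine sub_eq_zero.1 ((Submodule.mem_bot K).1 (vand (z := p.κ) p.κ.injective ⊥
    (fun j => c j - d j) (r := 80) (by rw [card_F]; decide) (fun t => ?_) j hj))
  simp only [smul_sub, sum_sub_distrib]
  rw [h, sub_self]
  exact Submodule.zero_mem _

theorem prod : ∀ a ≤ 80, ∀ b ≤ 80, Aop ρ p a * Aop ρ p b =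
    if a + b ≤ 80 then (((a + b).choose a : ℕ) : K) • Aop ρ p (a + b) else 0 := by
  intro a ha
  refine van p (fun b => Aop ρ p a * Aop ρ p b) _ fun t => ?_
  refine van p (fun a => ∑ b ∈ range 81, p.κ t ^ b • (Aop ρ p a * Aop ρ p b))
    (fun a => ∑ b ∈ range 81, p.κ t ^ b •
      if a + b ≤ 80 then (((a + b).choose a : ℕ) : K) • Aop ρ p (a + b) else 0) (fun s => ?_) a ha
  have e1 : ∑ a ∈ range 81, p.κ s ^ a • ∑ b ∈ range 81, p.κ t ^ b • (Aop ρ p a * Aop ρ p b) =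
      ρ (uu s) * ρ (uu t) := by
    rw [expand ρ p s, expand ρ p t, sum_mul]
    simp only [mul_sum, smul_sum, smul_mul_assoc, mul_smul_comm]
    exact sum_congr rfl fun _ _ => sum_congr rfl fun _ _ => smul_comm _ _ _
  have e2 : ∀ c, p.κ (s + t) ^ c • Aop ρ p c = ∑ a ∈ range (c + 1),
      (fun a b => p.κ s ^ a • p.κ t ^ b • (((a + b).choose a : ℕ) : K) • Aop ρ p (a + b))
        a (c - a) := fun c => by
    rw [map_add, add_pow, sum_smul]
    refine sum_congr rfl fun a ha => ?_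
    simp only [Nat.add_sub_cancel' (Nat.lt_succ_iff.1 (mem_range.1 ha)), mul_smul]
  rw [e1, ← map_mul, ← uu_add, expand ρ p, sum_congr rfl fun c _ => e2 c]
  refine (sum_range_diag_flip 81 fun a b =>
    p.κ s ^ a • p.κ t ^ b • (((a + b).choose a : ℕ) : K) • Aop ρ p (a + b)).trans ?_
  refine sum_congr rfl fun a ha => ?_
  rw [← smul_sum]
  congr 1
  simp only [smul_ite, smul_zero]
  rw [← sum_filter]
  refine sum_congr (Finset.ext fun b => ?_) fun _ _ => rfl
  simp only [mem_filter, mem_range] at ha ⊢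
  omega

theorem mem_Wt {e : ℕ} {v : W} : v ∈ Wt ρ p e ↔ ρ (t0 p) v = (zy p : K) ^ e • v :=
  Module.End.mem_eigenspace_iff

theorem zy_val : (zy p : K) = p.κ ((p.l : F) ^ 2) := by
  rw [map_pow]; rfl

theorem zy40 : (zy p : K) ^ 40 = 1 := by
  rw [zy_val, ← map_pow, ← pow_mul, pow80 p.l.ne_zero, map_one]

theorem tA : ∀ c ≤ 80, ρ (t0 p) * Aop ρ p c = (zy p : K) ^ c • (Aop ρ p c * ρ (t0 p)) := by
  refine van p _ _ fun s => ?_
  have e : t0 p * uu s = uu ((p.l : F) ^ 2 * s) * t0 p :=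
    mul_inv_eq_iff_eq_mul.1 (hh_uu p.l.ne_zero s)
  have e' := congrArg ρ e
  rw [map_mul, map_mul, expand ρ p, expand ρ p, mul_sum, sum_mul] at e'
  simp only [mul_smul_comm, smul_mul_assoc] at e'
  rw [e']
  refine sum_congr rfl fun c _ => ?_
  rw [smul_smul, map_mul, mul_pow, zy_val, mul_comm]

theorem wA {c : ℕ} (hc : c ≤ 80) {e : ℕ} {v : W} (hv : v ∈ Wt ρ p e) :
    Aop ρ p c v ∈ Wt ρ p (e + c) := by
  rw [mem_Wt] at hv ⊢
  rw [← Module.End.mul_apply, tA ρ p c hc, LinearMap.smul_apply, Module.End.mul_apply, hv,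
    map_smul, smul_smul, pow_add, mul_comm]

theorem twt : t0 p * ww F * t0 p = ww F := by
  have h := p.l.ne_zero
  refine SL2_ext ?_ ?_ ?_ ?_ <;> simp [t0, ent, ent2, h]

theorem wW {e e' : ℕ} (h : 40 ∣ e' + e) {v : W} (hv : v ∈ Wt ρ p e) : ρ (ww F) v ∈ Wt ρ p e' := by
  rw [mem_Wt] at hv ⊢
  obtain ⟨k, hk⟩ := h
  have h1 : (zy p : K) ^ e' * (zy p : K) ^ e = 1 := by rw [← pow_add, hk, pow_mul, zy40, one_pow]
  have h2 : ρ (ww F) v = (zy p : K) ^ e • ρ (t0 p) (ρ (ww F) v) := by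
    conv_lhs => rw [← twt p]
    rw [map_mul, map_mul, Module.End.mul_apply, Module.End.mul_apply, hv, map_smul, map_smul]
  conv_rhs => rw [h2, smul_smul, h1, one_smul]

theorem ww2 : ww F * ww F = -1 := by
  refine SL2_ext ?_ ?_ ?_ ?_ <;> simp [ent, ent2]

theorem A_mem {U : Submodule K W} (hU : Inv ρ U) (c : ℕ) {v : W} (hv : v ∈ U) :
    Aop ρ p c v ∈ U := by
  cases c with
  | zero => rwa [A0]
  | succ c =>
    rw [As, LinearMap.neg_apply, LinearMap.sum_apply]
    exact U.neg_mem (U.sum_mem fun t _ => U.smul_mem _ (hU _ v hv))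

theorem fixU (v : W) : (∀ i < 4, Aop ρ p (3 ^ i) v = 0) ↔ v ∈ Fx ρ (UU F) := by
  constructor
  · rintro h _ ⟨t, rfl⟩
    have z : ∀ c < 80, Aop ρ p (c + 1) v = 0 := fun c hc => by
      obtain ⟨i, hi, h1, h2⟩ := luc (c + 1) (by omega) (by omega)
      have e := prod ρ p (c + 1 - 3 ^ i) ((Nat.sub_le _ _).trans (by omega)) (3 ^ i) (by omega)
      rw [Nat.sub_add_cancel h1, if_pos (by omega)] at e
      have e' := LinearMap.congr_fun e v
      rw [Module.End.mul_apply, h i hi, map_zero, LinearMap.smul_apply] at e'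
      refine (smul_eq_zero.1 e'.symm).resolve_left fun h0 => h2 ?_
      rw [← Nat.choose_eq_descFactorial_div_factorial]
      exact (CharP.cast_eq_zero_iff K 3 _).1 h0
    rw [expand ρ p, sum_range_succ', A0, pow_zero, one_smul, LinearMap.add_apply,
      LinearMap.sum_apply, sum_eq_zero fun c hc => ?_, zero_add, Module.End.one_apply]
    rw [LinearMap.smul_apply, z c (mem_range.1 hc), smul_zero]
  · intro h i hi
    have h3 : 3 ^ i ≤ 80 := by interval_cases i <;> decide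
    have e := van p (fun c => Aop ρ p c v) (fun c => if c = 0 then v else 0) (fun t => ?_) _ h3
    · rwa [if_neg (pow_ne_zero _ (by decide))] at e
    · have e1 := LinearMap.congr_fun (expand ρ p t) v
      rw [h _ ⟨t, rfl⟩, LinearMap.sum_apply] at e1
      simp only [LinearMap.smul_apply] at e1
      rw [← e1, sum_range_succ']
      simp

theorem hh_pow (k : ℕ) : t0 p ^ k = hh ((p.l : F) ^ k) (pow_ne_zero _ p.l.ne_zero) := by
  induction k with
  | zero => refine SL2_ext ?_ ?_ ?_ ?_ <;> simp [ent]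
  | succ k ih => rw [pow_succ, ih, t0, hh_mul_hh]; simp only [pow_succ]

theorem fixB (v : W) : v ∈ Fx ρ (BB F) ↔ v ∈ Fx ρ (UU F) ∧ v ∈ Wt ρ p 0 := by
  rw [mem_Wt, pow_zero, one_smul]
  refine ⟨fun h => ⟨?_, h _ rfl⟩, fun ⟨h1, h2⟩ g hg => ?_⟩
  · rintro _ ⟨t, rfl⟩
    exact h _ rfl
  · have h0 : g 1 0 = 0 := hg
    have hd := SL2_det g
    rw [h0, mul_zero, sub_zero] at hd
    have hs : g 0 0 ≠ 0 := left_ne_zero_of_mul_eq_one hd
    have hl : IsPrimitiveRoot (p.l : F) 80 := IsPrimitiveRoot.coe_units_iff.2 p.hl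
    obtain ⟨k, -, hk⟩ := hl.eq_pow_of_pow_eq_one (pow80 hs)
    have e : g = uu (g 0 1 * g 0 0) * t0 p ^ k := by
      rw [hh_pow]
      refine SL2_ext ?_ ?_ ?_ ?_ <;> simp [ent, hk, h0, hs]
      exact eq_inv_of_mul_eq_one_right hd
    have h3 : ∀ k : ℕ, ρ (t0 p ^ k) v = v := fun k => by
      induction k with
      | zero => rw [pow_zero, map_one, Module.End.one_apply]
      | succ k ih => rw [pow_succ, map_mul, Module.End.mul_apply, h2, ih]
    rw [e, map_mul, Module.End.mul_apply, h3]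
    exact h1 _ ⟨_, rfl⟩

theorem aop : AopStmt := fun p W _ _ _ ρ hρ => by
  have w2 : ρ (ww F) * ρ (ww F) = 1 := by rw [← map_mul, ww2, hρ]
  have wi : ρ (ww F)⁻¹ = ρ (ww F) := by
    rw [← one_mul (ρ (ww F)⁻¹), ← w2, mul_assoc, ← map_mul, mul_inv_cancel, map_one, mul_one]
  refine ⟨expand ρ p, prod ρ p, fun c hc e v hv => wA ρ p hc hv, fun e => ?_,
    fun e he v hv => wW ρ p (by rw [Nat.sub_add_cancel he]) hv, fun c hc e v hv => ?_,
    fun U hU c v hv => ⟨A_mem ρ p hU c hv, hU _ _ (A_mem ρ p hU c (hU _ _ hv))⟩, fixU ρ p,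
    fixB ρ p, w2⟩
  · rw [Wt, Wt, pow_add, zy40, mul_one]
  · rw [Bop, wi]
    exact wW ρ p ⟨e + c, by omega⟩ (wA ρ p hc (wW ρ p (e' := 39 * (e + c)) ⟨e + c, by omega⟩ hv))

end Cfsg.Agent.H24.L81Aop
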