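import Cfsg.Agent.H54.O84Defs

/-! The final count of classes. -/

set_option autoImplicit false

namespace Cfsg.Agent.H24.O84F

open Cfsg.Agent.H54.O84 Subgroup

universe u

theorem map_map' {Γ : Type} [Group Γ] (H : Subgroup Γ) (g g' : Γ) :
    (H.map (MulAut.conj g).toMonoidHom).map (MulAut.conj g').toMonoidHom =
      H.map (MulAut.conj (g' * g)).toMonoidHom := by
  rw [map_map]
  congr 1
  ext x
  simp [mul_assoc]

theorem fin (hB : FinBStmt) (hC : FinCStmt.{u}) : FinStmt.{u} := by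
  intro Γ _ _ Ω _ Y T
  obtain ⟨c1, c2, c3, c4⟩ := hC Γ Ω Y T
  have i0 : (Y 0).relIndex (normalizer (Y 0 : Set Γ)) = 12 := T.idx 0
  have i1 : (Y 1).relIndex (normalizer (Y 1 : Set Γ)) = 4 := T.idx 1
  have dv : ∀ (H : Subgroup Γ) d, Y 1 ≤ H → H ≤ normalizer (Y 1 : Set Γ) → (Y 1).relIndex H = d →
      d ∣ 4 := fun H d h1 h2 h3 => by
    rw [← i1, ← relIndex_mul_relIndex _ _ _ h1 h2, h3]
    exact dvd_mul_right _ _
  refine ⟨⟨Y, T.iso, fun i j ⟨g, h⟩ => c1 i j g h, T.conj⟩, ?_, ?_, ?_⟩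
  · obtain ⟨H, h1, h2, h3, h4⟩ := hB Γ (Y 0) 3 1 4 (by norm_num) (by norm_num) i0
    refine ⟨fun _ => H, fun _ => c2 0 3 H h1 h2 h3, fun i j _ => Subsingleton.elim i j,
      fun H' e => ?_⟩
    obtain ⟨i, g, a1, a2, a3⟩ := c3 3 H' e
    fin_cases i
    · obtain ⟨g', a4⟩ := h4 _ a1 a2 a3
      exact ⟨0, g' * g, by rw [← map_map', a4]⟩
    · exact absurd (dv _ 3 a1 a2 a3) (by norm_num)
  · have hex : ∀ i : Fin 2, ∃ H, Y i ≤ H ∧ H ≤ normalizer (Y i : Set Γ) ∧ (Y i).relIndex H = 2 ^ 2 ∧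
        ∀ H', Y i ≤ H' → H' ≤ normalizer (Y i : Set Γ) → (Y i).relIndex H' = 2 ^ 2 →
          ∃ g, H'.map (MulAut.conj g).toMonoidHom = H := fun i => by
      fin_cases i
      · exact hB Γ (Y 0) 2 2 3 (by norm_num) (by norm_num) i0
      · exact hB Γ (Y 1) 2 2 1 (by norm_num) (by norm_num) i1
    choose f h1 h2 h3 h4 using hex
    refine ⟨f, fun i => c2 i 4 _ (h1 i) (h2 i) (h3 i),
      fun i j ⟨g, h⟩ => c4 i j _ _ g (h1 i) (h2 i) (h1 j) (h2 j) h, fun H' e => ?_⟩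
    obtain ⟨i, g, a1, a2, a3⟩ := c3 4 H' e
    obtain ⟨g', a4⟩ := h4 i _ a1 a2 a3
    exact ⟨i, g' * g, by rw [← map_map', a4]⟩
  · refine ⟨fun _ => normalizer (Y 0 : Set Γ), fun _ => c2 0 12 _ le_normalizer le_rfl i0,
      fun i j _ => Subsingleton.elim i j, fun H' e => ?_⟩
    obtain ⟨i, g, a1, a2, a3⟩ := c3 12 H' e
    fin_cases i
    · refine ⟨0, g, le_antisymm a2 (relIndex_eq_one.mp ?_)⟩
      have := relIndex_mul_relIndex _ _ _ a1 a2
      change (Y 0).relIndex _ * _ = (Y 0).relIndex (normalizer (Y 0 : Set Γ)) at this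
      change (Y 0).relIndex _ = 12 at a3
      rw [a3, i0] at this
      exact Nat.eq_of_mul_eq_mul_left (by norm_num : 0 < 12) (this.trans (mul_one 12).symm)
    · exact absurd (dv _ 12 a1 a2 a3) (by norm_num)

end Cfsg.Agent.H24.O84F
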