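import Mathlib
import Cfsg.Agent.H71.P3Defs

/-!
The unipotent radical of a point stabiliser in a symplectic group.
-/

set_option autoImplicit false

namespace Cfsg.Agent.H24.P3Q

open Cfsg Module Cfsg.Agent.H27 Cfsg.Agent.H71.P3

variable {F V : Type} [Field F] [AddCommGroup V] [Module F V] (S : Sp F V)

theorem skew (u v : V) : S.B u v = - S.B v u := (S.alt.neg_eq v u).symm

theorem exists_one {r : V} (hr : r ≠ 0) : ∃ y, S.B y r = 1 := by
  have : ∃ y, S.B y r ≠ 0 := by
    by_contra h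
    push Not at h
    exact hr (S.nd.2 r h)
  obtain ⟨y, hy⟩ := this
  exact ⟨(S.B y r)⁻¹ • y, by simp [hy]⟩

theorem q1 {r : V} (hr : r ≠ 0) (g : V ≃ₗ[F] V) (hg : g ∈ S.Q r) : ∃ u c, S.Ei r u c g := by
  obtain ⟨g1, g2, g3⟩ := hg
  obtain ⟨y, hy⟩ := exists_one S hr
  have hd : S.B (g y - y) r = 0 := by
    have := g1 y r
    rw [g2] at this
    simp [this]
  have hd' : S.B r (g y - y) = 0 := by rw [skew, hd, neg_zero]
  have hry : S.B r y = -1 := by rw [skew, hy]
  have key : ∀ v, S.B v r = 0 → g v = v + S.B v (g y - y) • r := by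
    intro v hv
    obtain ⟨φ, hφ⟩ := Submodule.mem_span_singleton.1 (g3 v hv)
    have e1 : g v = v + φ • r := by rw [hφ]; abel
    have e2 : g y = y + (g y - y) := by abel
    have e3 := g1 v y
    rw [e1, e2] at e3
    simp only [map_add, map_smul, LinearMap.add_apply, LinearMap.smul_apply, smul_eq_mul, hd',
      hry] at e3
    have e4 : φ = S.B v (g y - y) := by linear_combination -e3
    rw [e1, e4]
  refine ⟨g y - y, - S.B y (g y - y), hd', fun v => ?_⟩
  have e0 : S.B (v - S.B v r • y) r = 0 := by simp [hy]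
  have e1 := key _ e0
  have e2 : g v = g (v - S.B v r • y) + S.B v r • g y := by simp
  rw [e2, e1]
  set d := g y - y with hdd
  have e3 : g y = y + d := by rw [hdd]; abel
  rw [e3]
  simp only [map_sub, map_smul, LinearMap.sub_apply, LinearMap.smul_apply, smul_eq_mul]
  module

theorem q2 {r u u' : V} {c c' : F} {g h : V ≃ₗ[F] V} (hg : S.Ei r u c g) (hh : S.Ei r u' c' h) :
    g * h = S.t r (-2 * S.B u u') * (h * g) := by
  obtain ⟨g1, g2⟩ := hg
  obtain ⟨h1, h2⟩ := hh
  have g1' : S.B u r = 0 := by rw [skew, g1, neg_zero]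
  have h1' : S.B u' r = 0 := by rw [skew, h1, neg_zero]
  have rr : S.B r r = 0 := S.alt.self_eq_zero r
  have uu : S.B u' u = - S.B u u' := skew S u' u
  refine LinearEquiv.ext fun v => ?_
  rw [LinearEquiv.mul_apply, LinearEquiv.mul_apply, LinearEquiv.mul_apply, altTv_apply,
    g2 (h v), h2 (g v), h2 v, g2 v]
  simp only [map_add, map_smul, LinearMap.add_apply, LinearMap.smul_apply, smul_eq_mul, g1, h1,
    g1', h1', rr, uu]
  module

theorem q3 (r : V) (c : F) : S.t r c ∈ S.Q r :=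
  ⟨altTv_mem_isomGroup _ _ _, altTv_apply_of_orth _ c (S.alt.self_eq_zero r), fun v hv => by
    rw [altTv_apply_of_orth _ c hv, sub_self]; exact zero_mem _⟩

/-- The linear map underlying an Eichler transformation. -/
def eM (r u : V) (c : F) : V →ₗ[F] V :=
  LinearMap.id + (S.B.flip u).smulRight r + (S.B.flip r).smulRight u +
    c • (S.B.flip r).smulRight r

theorem eM_apply (r u : V) (c : F) (v : V) :
    eM S r u c v = v + S.B v u • r + S.B v r • u + (c * S.B v r) • r := by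
  simp [eM, mul_smul]

theorem eM_inv {r u : V} (h : S.B r u = 0) (c : F) (v : V) :
    eM S r (-u) (-c) (eM S r u c v) = v := by
  have h' : S.B u r = 0 := by rw [skew, h, neg_zero]
  simp only [eM_apply, map_add, map_smul, map_neg, LinearMap.add_apply, LinearMap.smul_apply,
    smul_eq_mul, h, h', S.alt.self_eq_zero r, S.alt.self_eq_zero u]
  module

theorem exists_ei {r u : V} (h : S.B r u = 0) (c : F) : ∃ g ∈ S.Q r, S.Ei r u c g := by
  have h' : S.B u r = 0 := by rw [skew, h, neg_zero]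
  have hn : S.B r (-u) = 0 := by simp [h]
  have i2 : ∀ v, eM S r u c (eM S r (-u) (-c) v) = v := fun v => by
    have := eM_inv S hn (-c) v
    rwa [neg_neg, neg_neg] at this
  let g : V ≃ₗ[F] V := LinearEquiv.ofLinearMap (eM S r u c) (eM S r (-u) (-c))
    (LinearMap.ext i2) (LinearMap.ext (eM_inv S h c))
  have hg : ∀ v, g v = v + S.B v u • r + S.B v r • u + (c * S.B v r) • r := eM_apply S r u c
  refine ⟨g, ⟨fun a b => ?_, ?_, fun v hv => ?_⟩, h, hg⟩
  · rw [hg, hg]
    simp only [map_add, map_smul, LinearMap.add_apply, LinearMap.smul_apply,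
      smul_eq_mul, h, h', S.alt.self_eq_zero r, S.alt.self_eq_zero u, skew S r b, skew S u b]
    ring
  · rw [hg, h, S.alt.self_eq_zero r]; simp
  · rw [hg, hv]
    refine Submodule.mem_span_singleton.2 ⟨S.B v u, ?_⟩
    module

theorem fix_one {r y : V} (hy : S.B y r ≠ 0) {h : V ≃ₗ[F] V} (hh : h ∈ S.Q r) (e : h y = y) :
    h = 1 := by
  obtain ⟨h1, _, h3⟩ := hh
  have key : ∀ v, S.B v r = 0 → h v = v := by
    intro v hv
    obtain ⟨φ, hφ⟩ := Submodule.mem_span_singleton.1 (h3 v hv)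
    have e1 : h v = v + φ • r := by rw [hφ]; abel
    have e3 := h1 v y
    rw [e1, e] at e3
    simp only [map_add, map_smul, LinearMap.add_apply, LinearMap.smul_apply, smul_eq_mul,
      skew S r y] at e3
    have e4 : φ * S.B y r = 0 := by linear_combination -e3
    rw [e1, (mul_eq_zero.1 e4).resolve_right hy, zero_smul, add_zero]
  refine LinearEquiv.ext fun v => ?_
  have e0 : S.B (v - (S.B v r / S.B y r) • y) r = 0 := by simp [hy]
  have e2 : h v = h (v - (S.B v r / S.B y r) • y) + (S.B v r / S.B y r) • h y := by simp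
  rw [e2, key _ e0, e]
  simp

theorem q4 {r y y' : V} (hy : S.B y r ≠ 0) (e : S.B y' r = S.B y r) :
    ∃! g, g ∈ S.Q r ∧ g y = y' := by
  have h0 : S.B r ((S.B y r)⁻¹ • (y' - y)) = 0 := by
    rw [map_smul, map_sub, skew S r y', skew S r y, e]; simp
  obtain ⟨g, hg, -, hv⟩ := exists_ei S h0 (-(S.B y ((S.B y r)⁻¹ • (y' - y))) / S.B y r)
  have gy : g y = y' := by
    rw [hv y, div_mul_cancel₀ _ hy, smul_smul, mul_inv_cancel₀ hy]
    module
  refine ⟨g, ⟨hg, gy⟩, fun g' ⟨hg', gy'⟩ => ?_⟩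
  have : g⁻¹ * g' = 1 := fix_one S hy (mul_mem (inv_mem hg) hg') (by
    rw [LinearEquiv.mul_apply, gy', ← gy]; exact g.symm_apply_apply y)
  exact (inv_mul_eq_one.1 this).symm

theorem q5 [Finite F] [Finite V] {r : V} (hr : r ≠ 0) :
    Nat.card (S.Q r) = Nat.card F ^ (2 * S.k - 1) := by
  obtain ⟨y, hy⟩ := exists_one S hr
  have hy0 : S.B y r ≠ 0 := by rw [hy]; exact one_ne_zero
  let φ : Module.Dual F V := S.B.flip r
  have hφ : φ ≠ 0 := fun h => hy0 (by simpa [φ] using LinearMap.congr_fun h y)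
  have hk : finrank F (LinearMap.ker φ) + 1 = finrank F V :=
    Module.Dual.finrank_ker_add_one_of_ne_zero hφ
  let f : S.Q r → LinearMap.ker φ := fun g => ⟨g.1 y - y, by
    have := g.2.1 y r
    rw [g.2.2.1] at this
    simp [φ, this]⟩
  have hb : Function.Bijective f := by
    constructor
    · intro g g' h
      have h1 : g.1 y - y = g'.1 y - y := congrArg Subtype.val h
      have h2 : g.1 y = g'.1 y := sub_left_injective h1
      have e : S.B (g'.1 y) r = S.B y r := by
        have := g'.2.1 y r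
        rwa [g'.2.2.1] at this
      exact Subtype.ext ((q4 S hy0 e).unique ⟨g.2, h2⟩ ⟨g'.2, rfl⟩)
    · rintro ⟨w, hw⟩
      have hw' : S.B w r = 0 := by simpa [φ] using hw
      obtain ⟨g, ⟨hg, gy⟩, -⟩ := q4 S (y' := y + w) hy0 (by simp [hw'])
      exact ⟨⟨g, hg⟩, Subtype.ext (by simp [f, gy])⟩
  rw [Nat.card_eq_of_bijective f hb, Module.natCard_eq_pow_finrank (K := F), ← S.dim, ← hk]
  rfl

theorem q6' {r : V} {g h : V ≃ₗ[F] V} (hg : g ∈ S.G) (hh : h ∈ S.Q r) :
    g * h * g⁻¹ ∈ S.Q (g r) := by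
  obtain ⟨h1, h2, h3⟩ := hh
  refine ⟨mul_mem (mul_mem hg h1) (inv_mem hg), ?_, fun v hv => ?_⟩
  · rw [LinearEquiv.mul_apply, LinearEquiv.mul_apply,
      show g⁻¹ (g r) = r from g.symm_apply_apply r, h2]
  · have e : g (g⁻¹ v) = v := g.apply_symm_apply v
    have hv' : S.B (g⁻¹ v) r = 0 := by rw [← hg, e, hv]
    obtain ⟨c, hc⟩ := Submodule.mem_span_singleton.1 (h3 _ hv')
    refine Submodule.mem_span_singleton.2 ⟨c, ?_⟩
    rw [LinearEquiv.mul_apply, LinearEquiv.mul_apply, ← map_smul, hc, map_sub, e]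

theorem q6 {r : V} {g : V ≃ₗ[F] V} (hg : g ∈ S.G) (h : V ≃ₗ[F] V) :
    h ∈ S.Q r ↔ g * h * g⁻¹ ∈ S.Q (g r) := by
  refine ⟨q6' S hg, fun hh => ?_⟩
  have := q6' S (inv_mem hg) hh
  rwa [show g⁻¹ (g r) = r from g.symm_apply_apply r,
    show g⁻¹ * (g * h * g⁻¹) * g⁻¹⁻¹ = h by group] at this

theorem qf : QfStmt := by
  intro F V _ _ _ _ _ S r hr
  exact ⟨q1 S hr, fun _ _ _ _ _ _ => q2 S, q3 S r, fun _ _ => q4 S, q5 S hr,
    fun _ hg h => q6 S hg h⟩

theorem eqns_P3Qf : True := by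
  have := @eM.eq_1
  trivial

end Cfsg.Agent.H24.P3Q
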