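import Cfsg.Agent.H79.R3Defs

/-!
# Restriction to a plane
-/

set_option autoImplicit false

namespace Cfsg.Agent.H24.R3r

open Module Cfsg.Agent.H79.R3
open scoped Pointwise

universe u

variable {F V : Type u} [Field F] [AddCommGroup V] [Module F V]

/-- the group induced on `E`, together with the scalars -/
def ind (K : Subgroup (V ≃ₗ[F] V)) (E : Submodule F V) : Subgroup (E ≃ₗ[F] E) where
  carrier := {h | ∃ g ∈ K, ∃ c : F, c ≠ 0 ∧ ∀ v : E, (h v : V) = c • g v}
  one_mem' := ⟨1, one_mem _, 1, one_ne_zero, fun v => (one_smul F _).symm⟩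
  mul_mem' := by
    rintro a b ⟨g, hg, c, hc, h⟩ ⟨g', hg', c', hc', h'⟩
    refine ⟨g * g', mul_mem hg hg', c * c', mul_ne_zero hc hc', fun v => ?_⟩
    rw [LinearEquiv.mul_apply, h, h', map_smul, smul_smul, LinearEquiv.mul_apply]
  inv_mem' := by
    rintro a ⟨g, hg, c, hc, h⟩
    refine ⟨g⁻¹, inv_mem hg, c⁻¹, inv_ne_zero hc, fun v => ?_⟩
    have e : (v : V) = c • g (a⁻¹ v) := by
      rw [← h, ← LinearEquiv.mul_apply, mul_inv_cancel]
      rfl
    rw [e, map_smul, inv_smul_smul₀ hc, ← LinearEquiv.mul_apply, inv_mul_cancel]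
    rfl

theorem exists_res {g : V ≃ₗ[F] V} {E : Submodule F V} (hE : g • E = E) {c : F} (hc : c ≠ 0) :
    ∃ h : E ≃ₗ[F] E, ∀ v : E, (h v : V) = c • g v :=
  ⟨(g.ofSubmodules E E hE).trans (LinearEquiv.smulOfNeZero F E c hc), fun _ => rfl⟩

theorem map_smul_eq {g : V ≃ₗ[F] V} {E : Submodule F V} {h : E ≃ₗ[F] E} {c : F} (hc : c ≠ 0)
    (e : ∀ v : E, (h v : V) = c • g v) (A : Submodule F E) :
    (h • A).map E.subtype = g • A.map E.subtype := by
  apply le_antisymm
  · rintro _ ⟨_, ⟨a, ha, rfl⟩, rfl⟩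
    change (h a : V) ∈ _
    rw [e]
    exact Submodule.smul_mem _ _ (smul_mem_smul.2 ⟨a, ha, rfl⟩)
  · rintro _ ⟨_, ⟨a, ha, rfl⟩, rfl⟩
    change g a ∈ _
    rw [← inv_smul_smul₀ hc (g a), ← e]
    exact Submodule.smul_mem _ _ ⟨h a, smul_mem_smul.2 ha, rfl⟩

theorem tr_ind {K : Subgroup (V ≃ₗ[F] V)} {E : Submodule F V} (hE : dm E = 3) {a : ℕ}
    (h : PlTr K a) : Tr1 (ind K E) a := by
  intro A A' hA hA'
  obtain ⟨g, hg, e1, e2⟩ := h E (A.map E.subtype) (A'.map E.subtype) hE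
    (Submodule.map_subtype_le _ _) (Submodule.map_subtype_le _ _)
    ((Submodule.finrank_map_subtype_eq _ _).trans hA)
    ((Submodule.finrank_map_subtype_eq _ _).trans hA')
  obtain ⟨k, hk⟩ := exists_res e1 one_ne_zero
  refine ⟨k, ⟨g, hg, 1, one_ne_zero, hk⟩, Submodule.map_injective_of_injective
    E.injective_subtype ?_⟩
  rw [map_smul_eq one_ne_zero hk, e2]

theorem two_of {K : Subgroup (V ≃ₗ[F] V)} {E : Submodule F V} {L : Submodule F E}
    (h : Two (ind K E) L) : Two K (L.map E.subtype) := by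
  have lift : ∀ y : Submodule F V, dm y = 1 → y ≤ L.map E.subtype →
      ∃ y' : Submodule F E, dm y' = 1 ∧ y' ≤ L ∧ y'.map E.subtype = y := fun y hy hl => by
    have e : (y.comap E.subtype).map E.subtype = y := by
      rw [Submodule.map_comap_subtype]
      exact inf_eq_right.2 (hl.trans (Submodule.map_subtype_le _ _))
    refine ⟨y.comap E.subtype, ?_, ?_, e⟩
    · rw [← hy, ← e, dm, dm, Submodule.finrank_map_subtype_eq, e]
    · rwa [← Submodule.map_le_map_iff_of_injective E.injective_subtype, e]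
  intro y z z' hy hz hz' ly lz lz' n n'
  obtain ⟨y, a1, a2, rfl⟩ := lift y hy ly
  obtain ⟨z, b1, b2, rfl⟩ := lift z hz lz
  obtain ⟨z', c1, c2, rfl⟩ := lift z' hz' lz'
  obtain ⟨k, ⟨g, hg, c, hc, e⟩, e1, e2⟩ := h y z z' a1 b1 c1 a2 b2 c2 (fun h => n (h ▸ rfl))
    (fun h => n' (h ▸ rfl))
  exact ⟨g, hg, by rw [← map_smul_eq hc e, e1], by rw [← map_smul_eq hc e, e2]⟩

theorem res (w2 : W2Stmt.{u}) (w1a : W1aStmt.{u}) (w1b : W1bStmt.{u}) : ResStmt.{u} := by
  intro F V _ _ _ _ _ K g E d h1 h2 hg hE hgE hgg hns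
  have hd : d ≠ 0 := by
    rintro rfl
    refine hns ⟨0, fun v _ => ?_⟩
    have := hgg v
    rw [mul_zero, zero_smul, LinearEquiv.map_eq_zero_iff] at this
    rw [this, zero_smul]
  have t1 := tr_ind hE h1
  have t2 := tr_ind hE h2
  have hsc : ∀ k : E ≃ₗ[F] E, IsSc k → k ∈ ind K E := by
    rintro k ⟨c, hc⟩
    refine ⟨1, one_mem _, c, ?_, fun v => by rw [hc]; rfl⟩
    rintro rfl
    refine hns ⟨0, fun v hv => ?_⟩
    have := hc ⟨v, hv⟩
    rw [zero_smul, LinearEquiv.map_eq_zero_iff] at this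
    have h0 : v = 0 := congrArg Subtype.val this
    rw [h0, map_zero, zero_smul]
  obtain ⟨k, hk⟩ := exists_res hgE (inv_ne_zero hd)
  have htv : HasTv (ind K E) := by
    refine w2 F E _ hE hsc t1 t2 ⟨k, ⟨g, hg, _, inv_ne_zero hd, hk⟩, ?_, ?_⟩
    · rintro ⟨c, hc⟩
      refine hns ⟨d * c, fun v hv => ?_⟩
      have := hk ⟨v, hv⟩
      rw [hc] at this
      rw [mul_smul]
      exact (inv_smul_eq_iff₀ hd).1 this.symm
    · ext v
      rw [LinearEquiv.mul_apply, hk, hk, map_smul, hgg, smul_smul, smul_smul]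
      have : d⁻¹ * d⁻¹ * (d * d) = 1 := by field_simp
      rw [this, one_smul]
      rfl
  obtain ⟨f, hf⟩ := exists_linearIndependent_of_le_finrank (R := F) (M := E) (n := 2)
    (by rw [show finrank F E = 3 from hE]; norm_num)
  have hL : dm (Submodule.span F (Set.range f)) = 2 := by
    rw [dm, finrank_span_eq_card hf, Fintype.card_fin]
  exact ⟨_, (Submodule.finrank_map_subtype_eq _ _).trans hL,
    two_of (w1b F E _ hE (w1a F E _ hE t1 t2 htv) htv _ hL)⟩

theorem eqns_R3r : True := by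
  have := @ind.eq_1.{0}
  trivial

end Cfsg.Agent.H24.R3r
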