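import Cfsg.Agent.H54.RfKitP
import Cfsg.Agent.H80.SchurHopf
import Cfsg.Agent.H80.SchurPerfect

/-!
# Standard subgroups of type `²F₄(q)`: the wreath case
-/

set_option autoImplicit false

namespace Cfsg.Agent.H24.RfW

open Cfsg Cfsg.Agent.H15.O8 Cfsg.Agent.H39 Cfsg.Agent.H36.O8T Cfsg.Agent.H54.RF Subgroup
open scoped commutatorElement

universe u v

section Abs
variable {G : Type u} [Group G] [Finite G] {L A : Subgroup G} {t : G}

/-- the data of the wreath case -/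
structure WD (L A : Subgroup G) (t : G) : Prop where
  tt : t * t = 1
  gen : ∀ H : Subgroup G, (∀ a ∈ A, a * a = 1 → a ∈ H) → A ≤ H
  com : ∀ a ∈ A, ∀ b ∈ A, Commute a (t * b * t⁻¹)
  mem : ∀ a ∈ A, a * (t * a * t⁻¹) ∈ L
  sur : ∀ l ∈ L, ∃ a ∈ A, l = a * (t * a * t⁻¹)
  r2 : ∀ k ∈ centralizer (L : Set G), Commute k t → k * k = 1 → k = 1 ∨ k = t
  mv : ∃ a ∈ A, ¬ Commute a t
  perf : ⁅L, L⁆ = L
  zl : ∀ g ∈ L, g ∈ centralizer (L : Set G) → g = 1

namespace WD
variable (h : WD L A t)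
include h

/-- the product map -/
def ψ : A × A →* G :=
  MonoidHom.noncommCoprod A.subtype ((MulAut.conj t).toMonoidHom.comp A.subtype)
    fun a b => h.com a a.2 b b.2

omit [Finite G] in
theorem ψ_apply (a b : A) : h.ψ (a, b) = a * (t * b * t⁻¹) := rfl

/-- the diagonal map -/
def f : A →* L :=
  (h.ψ.comp ((MonoidHom.id A).prod (MonoidHom.id A))).codRestrict L fun a => h.mem a a.2

omit [Finite G] in
theorem f_apply (a : A) : (h.f a : G) = a * (t * a * t⁻¹) := rfl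

omit [Finite G] in
theorem f_sur : Function.Surjective h.f := fun l =>
  let ⟨a, ha, e⟩ := h.sur l l.2; ⟨⟨a, ha⟩, Subtype.ext e.symm⟩

omit [Finite G] in
theorem tinv : t⁻¹ = t := inv_eq_of_mul_eq_one_right h.tt

omit [Finite G] in
theorem cc (a : G) : t * (t * a * t⁻¹) * t⁻¹ = a := by
  rw [h.tinv]; exact conj_conj' h.tt a

omit [Finite G] in
/-- elements of both factors -/
theorem both {z : G} (h1 : z ∈ A) (h2 : t * z * t⁻¹ ∈ A) :
    (∀ a ∈ A, Commute z a) ∧ z ∈ centralizer (L : Set G) := by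
  have k : ∀ a ∈ A, Commute z a := fun a ha => (h.cc z ▸ h.com a ha _ h2).symm
  refine ⟨k, fun l hl => ?_⟩
  obtain ⟨a, ha, rfl⟩ := h.sur l hl
  exact ((k a ha).mul_right (h.com z h1 a ha)).symm

theorem odd {z : G} (h1 : z ∈ A) (h2 : t * z * t⁻¹ ∈ A) : Odd (orderOf z) := by
  have key : ∀ y ∈ A, t * y * t⁻¹ ∈ A → Commute y t → y * y = 1 → y = 1 := fun y k1 k2 k3 k4 => by
    refine (h.r2 y (h.both k1 k2).2 k3 k4).resolve_right fun e => ?_
    obtain ⟨a, ha, na⟩ := h.mv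
    exact na (e ▸ (h.both k1 k2).1 a ha).symm
  rw [← Nat.not_even_iff_odd]
  rintro ⟨m, hm⟩
  have h0 : 0 < orderOf z := orderOf_pos z
  have y1 : z ^ m ≠ 1 := pow_ne_one_of_lt_orderOf (by omega) (by omega)
  have y2 : z ^ m * z ^ m = 1 := by rw [← pow_add, ← hm, pow_orderOf_eq_one]
  have k1 : z ^ m ∈ A := pow_mem h1 m
  have k2 : t * z ^ m * t⁻¹ ∈ A := conj_pow (a := t) (b := z) ▸ pow_mem h2 m
  generalize z ^ m = y at y1 y2 k1 k2
  have c := h.com y k1 y k1
  have y3 : t * y * t⁻¹ * (t * y * t⁻¹) = 1 := by rw [conj_mul, y2]; group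
  have e : t * (y * (t * y * t⁻¹)) * t⁻¹ = y * (t * y * t⁻¹) := by
    rw [← conj_mul, h.cc, c.eq]
  have := key (y * (t * y * t⁻¹)) (mul_mem k1 k2) (e.symm ▸ mul_mem k1 k2)
    (mul_inv_eq_iff_eq_mul.1 e).symm (by
      rw [mul_assoc, ← mul_assoc (t * y * t⁻¹), ← c.eq, mul_assoc, y3, mul_one, y2])
  have e' : t * y * t⁻¹ = y := by
    rw [← inv_eq_of_mul_eq_one_right this, inv_eq_of_mul_eq_one_right y2]
  exact y1 (key y k1 k2 (mul_inv_eq_iff_eq_mul.1 e').symm y2)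

omit [Finite G] in
theorem ker_mem {a : A} (e : h.f a = 1) : t * a * t⁻¹ ∈ A := by
  have : (a : G) * (t * a * t⁻¹) = 1 := congrArg Subtype.val e
  rw [← inv_eq_of_mul_eq_one_right this]
  exact inv_mem a.2

theorem perfA : commutator A = ⊤ := by
  have e1 : (commutator A).map h.f = ⊤ := by
    rw [commutator_def, map_commutator, map_top_of_surjective _ h.f_sur]
    apply map_injective L.subtype_injective
    rw [map_commutator, ← MonoidHom.range_eq_map, range_subtype, h.perf]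
  have e2 : A ≤ (commutator A).map A.subtype := h.gen _ fun a ha aa => by
    obtain ⟨g, hg, e⟩ : h.f ⟨a, ha⟩ ∈ (commutator A).map h.f := e1 ▸ mem_top _
    have k1 : h.f (g⁻¹ * ⟨a, ha⟩) = 1 := by rw [map_mul, map_inv, e, inv_mul_cancel]
    have k2 := h.odd (g⁻¹ * ⟨a, ha⟩ : A).2 (h.ker_mem k1)
    rw [orderOf_coe] at k2
    have k3 : Abelianization.of g = 1 := by
      rwa [← MonoidHom.mem_ker, Abelianization.ker_of]
    have k4 : Abelianization.of (⟨a, ha⟩ : A) = 1 := by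
      refine eq_one_of_odd_sq (k2.of_dvd_nat ?_) ?_
      · have := orderOf_map_dvd Abelianization.of (g⁻¹ * ⟨a, ha⟩ : A)
        rwa [map_mul, map_inv, k3, inv_one, one_mul] at this
      · rw [← map_mul, show (⟨a, ha⟩ * ⟨a, ha⟩ : A) = 1 from Subtype.ext aa, map_one]
    rw [← MonoidHom.mem_ker, Abelianization.ker_of] at k4
    exact ⟨_, k4, rfl⟩
  rw [eq_top_iff]
  intro a _
  obtain ⟨b, hb, e⟩ := e2 a.2
  rwa [← show b = a from Subtype.ext e]

theorem f_inj {S : Type v} [Group S] (e : L ≃* S) (hS : HasCyclicSchurMultiplier S 1) :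
    Function.Injective h.f := by
  have : Group.IsPerfect A := ⟨h.perfA⟩
  have hk : (e.toMonoidHom.comp h.f).ker = h.f.ker := by
    rw [← MonoidHom.comap_ker, (MonoidHom.ker_eq_bot_iff _).mpr e.injective, MonoidHom.comap_bot]
  obtain ⟨g, hg⟩ := H80.exists_surjective_ker_of_stem hS (H80.isStemExtension_of_perfect
    (σ := e.toMonoidHom.comp h.f) ⟨e.surjective.comp h.f_sur, hk.le.trans fun a ha =>
      mem_center_iff.2 fun b => Subtype.ext ((h.both a.2 (h.ker_mem ha)).1 b b.2).symm⟩)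
  have h3 := card_dvd_of_surjective g hg
  rw [hk, Nat.card_congr Multiplicative.toAdd, Nat.card_zmod] at h3
  exact (MonoidHom.ker_eq_bot_iff _).1 (card_eq_one.1 (Nat.dvd_one.1 h3))

omit [Finite G] in
theorem dis (hf : Function.Injective h.f) {z : G} (h1 : z ∈ A) (h2 : t * z * t⁻¹ ∈ A) : z = 1 := by
  have k := h.both h1 h2
  have k' := h.both h2 ((h.cc z).symm ▸ h1)
  exact congrArg Subtype.val ((injective_iff_map_eq_one _).1 hf ⟨z, h1⟩
    (Subtype.ext (h.zl _ (h.mem z h1) (mul_mem k.2 k'.2))))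

omit [Finite G] in
theorem ψ_inj (hf : Function.Injective h.f) : Function.Injective h.ψ :=
  (injective_iff_map_eq_one _).2 fun ⟨a, b⟩ e => by
    rw [ψ_apply] at e
    have k : (b : G) = 1 := h.dis hf b.2 (inv_eq_of_mul_eq_one_right e ▸ inv_mem a.2)
    rw [k, mul_one, mul_inv_cancel, mul_one] at e
    exact Prod.ext (Subtype.ext e) (Subtype.ext k)

theorem main {S : Type v} [Group S] (e : L ≃* S) (hS : HasCyclicSchurMultiplier S 1) {m : ℕ}
    (big : ∀ j ∈ L, j * j = 1 → ∃ P ≤ L, IsPGroup 2 P ∧ m ≤ Nat.card P ∧ ∀ x ∈ P, Commute x j)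
    (bound : ∀ P : Subgroup G, (∀ g ∈ P, Commute g t) → IsPGroup 2 P → Nat.card P < m * m) :
    Nonempty (h.ψ.range ≃* S × S) ∧ End h.ψ.range t := by
  have hf := h.f_inj e hS
  have hψ := h.ψ_inj hf
  let e1 : A ≃* L := MulEquiv.ofBijective h.f ⟨hf, h.f_sur⟩
  refine ⟨⟨(MonoidHom.ofInjective hψ).symm.trans ((e1.trans e).prodCongr (e1.trans e))⟩,
    ?_, ?_, ?_⟩
  · rw [MonoidHom.range_eq_map, ← map_commutator, ← top_prod_top, commutator_prod_prod,
      ← commutator_def, h.perfA]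
  · rintro g ⟨⟨a, b⟩, k⟩
    have k2 : ((a, b) : A × A) * (a, b) = 1 := hψ (by
      rw [map_mul, k, conj_mul, h.tt, map_one]; group)
    have big' : ∀ a : A, a * a = 1 → ∃ P : Subgroup A, IsPGroup 2 P ∧ m ≤ Nat.card P ∧
        ∀ x ∈ P, Commute x a := fun a aa => by
      obtain ⟨P, h1, h2, h3, h4⟩ := big _ (e1 a).2 (by
        rw [← coe_mul, ← map_mul, aa, map_one, coe_one])
      have e2 := (subgroupOfEquivOfLe h1).symm.trans ((P.subgroupOf L).equivMapOfInjective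
        e1.symm.toMonoidHom e1.symm.injective)
      refine ⟨_, h2.of_equiv e2, Nat.card_congr e2.toEquiv ▸ h3, ?_⟩
      rintro _ ⟨x, hx, rfl⟩
      have : Commute x (e1 a) := Subtype.ext (h4 x hx)
      simpa using this.map e1.symm
    obtain ⟨P, p1, p2, p3⟩ := big' a (congrArg Prod.fst k2)
    obtain ⟨R, r1, r2, r3⟩ := big' b (congrArg Prod.snd k2)
    have hi : Function.Injective ((MulAut.conj g⁻¹).toMonoidHom.comp h.ψ) :=
      (MulAut.conj g⁻¹).injective.comp hψ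
    have e3 := (P.prodEquiv R).symm.trans ((P.prod R).equivMapOfInjective _ hi)
    have := Fact.mk Nat.prime_two
    obtain ⟨i, hi'⟩ := p1.exists_card_eq
    obtain ⟨j, hj⟩ := r1.exists_card_eq
    have e4 := (Nat.card_congr e3.toEquiv).symm.trans (Nat.card_prod P R)
    refine absurd (bound _ ?_ (IsPGroup.of_card (n := i + j) (by rw [e4, hi', hj, pow_add])))
      (by rw [e4, not_lt]; exact Nat.mul_le_mul p2 r2)
    rintro _ ⟨x, hx, rfl⟩
    have c : Commute x (a, b) := Prod.ext (p3 _ hx.1) (r3 _ hx.2)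
    have := (c.map h.ψ).map (MulAut.conj g⁻¹)
    rw [k] at this
    simpa [mul_assoc] using this
  · rintro g ⟨⟨a, b⟩, k⟩
    have k1 : g * t * g⁻¹ = h.ψ (a, b) * t := by
      rw [k, mul_assoc (g * t * g⁻¹), h.tt, mul_one]
    have k2 : ((a, b) : A × A) * (b, a) = 1 := hψ (by
      have s : g * t * g⁻¹ * (g * t * g⁻¹) = 1 := by rw [conj_mul, h.tt]; group
      have e' : h.ψ (b, a) = t * h.ψ (a, b) * t⁻¹ := by
        rw [ψ_apply, ψ_apply, ← conj_mul, h.cc, (h.com b b.2 a a.2).eq]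
      rw [map_mul, map_one, e', h.tinv, ← s, k1]
      simp only [mul_assoc])
    have k3 : b = a⁻¹ := (inv_eq_of_mul_eq_one_right (congrArg Prod.fst k2)).symm
    refine ⟨a, ⟨(a, 1), by simp [ψ_apply]⟩, ?_⟩
    rw [k1, ψ_apply, k3, coe_inv]
    group

end WD
end Abs

section Frame
variable {K : Type v} [Field K] {T : Tits K} {G : Type u} [Group G] {M : FF T G} {t : G}
  {p r : K → G}

theorem rot_comm {a b : G} (k : ℤ) (h : Commute a b) :
    Commute (rot M.toPF k a) (rot M.toPF k b) := comm_conj h _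

theorem rhoX (k : ℤ) : rho M.toPF ^ k ∈ M.X := zpow_mem (mul_mem (n1X M) (n8X M)) k

theorem t_conj (c : Ctx M t) {l : G} (hl : l ∈ M.X) (g : G) :
    t * (l * g * l⁻¹) * t = l * (t * g * t) * l⁻¹ := by
  calc t * (l * g * l⁻¹) * t = t * l * g * (l⁻¹ * t) := by group
    _ = _ := by rw [← (c.tX hl).eq, (c.tX (inv_mem hl)).eq]; group

theorem t_rot (c : Ctx M t) (k : ℤ) (g : G) :
    t * rot M.toPF k g * t = rot M.toPF k (t * g * t) := t_conj c (rhoX k) g

theorem n8_rot (k : ℤ) (g : G) :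
    M.n8 * rot M.toPF k g * M.n8 = rot M.toPF (-k) (M.n8 * g * M.n8) := by
  have e : M.n8 * rho M.toPF ^ k = rho M.toPF ^ (-k) * M.n8 := by
    have : M.n8 * rho M.toPF * M.n8⁻¹ = (rho M.toPF)⁻¹ := by
      rw [rho_inv, rho]; group
    rw [zpow_neg, ← inv_zpow, ← this, conj_zpow]; group
  calc M.n8 * rot M.toPF k g * M.n8
      = M.n8 * rho M.toPF ^ k * g * (M.n8 * rho M.toPF ^ k)⁻¹ := by
        rw [mul_inv_rev, n8_inv, rot]; group
    _ = _ := by rw [e, mul_inv_rev, n8_inv, rot]; group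

/-- two corrections cancel -/
theorem cancel {a b x γ : G} (aa : a * a = 1) (h1 : ⁅a, b⁆ = γ) (h2 : x * a * x⁻¹ = a * γ)
    (h3 : Commute γ b) (h4 : γ * γ = 1) : Commute a (b * x) := by
  have i : a⁻¹ = a := inv_eq_of_mul_eq_one_right aa
  have e : b * a * b⁻¹ = a * γ := by
    rw [← h1, commutatorElement_def, i, ← mul_assoc, ← mul_assoc, ← mul_assoc, aa, one_mul]
  refine (conj_eq_iff.1 ?_).symm
  calc b * x * a * (b * x)⁻¹ = b * (x * a * x⁻¹) * b⁻¹ := by group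
    _ = b * a * b⁻¹ * (b * γ * b⁻¹) := by rw [h2]; group
    _ = _ := by rw [e, conj_eq_iff.2 h3.symm, mul_assoc, h4, mul_one]

variable (c : Ctx M t) (h : HR M t p r) (a1 : A1 M p r 0) (g : Gm M p r 0 0 0)
include c h a1 g

theorem c28 (a b : K) : Commute (P2 M p a) (t * P8 M p b * t) := by
  rw [(h.toH4.f8 c).tconj c]
  refine cancel ((h.toH4.f2 c).sq a) (γ := p (T.θ a * b) * r (a * b) * P6 M p (a * T.θ b))
    ?_ ?_ (((h.c48 _ _).mul_left (h.c58 _ _)).mul_left (h.toH4.c68 _ _)) ?_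
  · simpa [x4_zero, x5_zero, x6_zero] using g.g28 a b
  · simpa [x4_zero, mul_assoc] using a1.x8P2 b a
  · rw [((h.c46 _ _).mul_left (h.c56 _ _)).symm.mul_mul_mul_comm, (h.c45 _ _).symm.mul_mul_mul_comm,
      h.toH4.f4.sq, h.f5.sq, (h.toH4.f6 c).sq, mul_one, mul_one]

omit a1 in
theorem c27 (a b : K) : Commute (P2 M p a) (t * P7 M r b * t) := by
  rw [(h.f7 c).tconj c]
  refine cancel ((h.toH4.f2 c).sq a) (γ := p (a * b)) ?_ ?_ (h.c47 _ _) (h.toH4.f4.sq _)
  · simpa [x4_zero] using g.g27 a b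
  · rw [h.toH4.x7P2, mul_comm b]

omit a1 in
theorem c4_15 (a b : K) : Commute (p a) (rot M.toPF (-3) (t * r b * t)) := by
  have e := comm_conj' M.n1n1 (c27 c h g a b)
  have k := t_conj c (n1X M) (P7 M r b)
  rw [n1_inv] at k
  rw [← k, n1_P2, n1_P7, ← h.toH4.rot8, ← h.rot3', t_rot c] at e
  have := rot_comm (M := M) (-2) e
  rwa [← rot_add, ← rot_add, show (-2 + 2 : ℤ) = 0 from rfl, rot_zero] at this

theorem c4_all (k : ℤ) (a b : K) : Commute (p a) (rot M.toPF k (t * p b * t)) := by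
  have neg : ∀ k : ℤ, (∀ a b, Commute (p a) (rot M.toPF k (t * p b * t))) →
      ∀ a b, Commute (p a) (rot M.toPF (-k) (t * p b * t)) := fun k e a b => by
    have e := comm_conj' M.n8n8 (e a b)
    have k := t_conj c (n8X M) (p b)
    rw [n8_inv] at k
    rwa [n8_rot, ← k, h.toH4.n8_p, h.toH4.n8_p] at e
  have k0 : ∀ a b, Commute (p a) (rot M.toPF 0 (t * p b * t)) := fun a b => by
    rw [rot_zero, h.toH4.f4.tconj c]
    exact (h.toH4.f4.comm a b).mul_right (h.toH4.pφ _ _)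
  have k1 : ∀ a b, Commute (p a) (rot M.toPF 1 (t * p b * t)) := fun a b => by
    rw [← t_rot c, h.toH4.rot6, (h.toH4.f6 c).tconj c]
    exact (h.c46 a b).mul_right (h.toH4.pφ _ _)
  have k2 : ∀ a b, Commute (p a) (rot M.toPF 2 (t * p b * t)) := fun a b => by
    rw [← t_rot c, h.toH4.rot8, (h.toH4.f8 c).tconj c]
    exact (h.c48 a b).mul_right (h.toH4.pφ _ _)
  have k3 : ∀ a b, Commute (p a) (rot M.toPF 3 (t * p b * t)) := fun a b => by
    have e := c28 c h a1 g a b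
    rw [← H4.rot2, ← h.toH4.rot8, t_rot c] at e
    have := rot_comm (M := M) 1 e
    rwa [← rot_add, ← rot_add, show (1 + -1 : ℤ) = 0 from rfl, rot_zero] at this
  have k4 : ∀ a b, Commute (p a) (rot M.toPF 4 (t * p b * t)) := fun a b => by
    have e : p b = ⁅rot M.toPF (-1) (p b), rot M.toPF 1 (r 1)⁆ := by
      rw [H4.rot2, HR.rot7]; simpa [x4_zero] using (g.g27 b 1).symm
    rw [e, conj_comm' c.tt, t_rot c, t_rot c, rot, conjugate_commutatorElement]
    change Commute _ ⁅rot M.toPF 4 _, rot M.toPF 4 _⁆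
    rw [← rot_add, ← rot_add, rot_per M (show (8 : ℤ) ∣ 4 + 1 - -3 by decide)]
    have e1 := k3 a b
    have e2 := c4_15 c h g a 1
    exact ((e1.mul_right e2).mul_right e1.inv_right).mul_right e2.inv_right
  have : 8 ∣ k - 0 ∨ 8 ∣ k - 1 ∨ 8 ∣ k - 2 ∨ 8 ∣ k - 3 ∨ 8 ∣ k - 4 ∨ 8 ∣ k - -1 ∨ 8 ∣ k - -2 ∨
      8 ∣ k - -3 := by omega
  rcases this with e | e | e | e | e | e | e | e <;> rw [rot_per M e]
  exacts [k0 a b, k1 a b, k2 a b, k3 a b, k4 a b, neg 1 k1 a b, neg 2 k2 a b, neg 3 k3 a b]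

theorem c4_L {l : G} (hl : l ∈ M.X) (a b : K) : Commute (p a) (l * (t * p b * t) * l⁻¹) := by
  obtain ⟨u, w, hw, _, hb, rfl⟩ := bruhat M hl
  obtain ⟨v, d, rfl⟩ := (mem_Bo _).1 hb
  have e1 : M.φ v * M.h d * (t * p b * t) * (M.φ v * M.h d)⁻¹ =
      t * p (d.1 * T.θ d.1 * b) * t := by
    rw [← t_conj c (mul_mem (φX M v) (hX M d)), mul_inv_rev, ← h.tor,
      ← conj_eq_iff.2 (h.tor d b ▸ h.toH4.pφ _ v : Commute (M.h d * p b * (M.h d)⁻¹) _).symm]
    congr 2
    rw [conj_eq_iff.2 (h.tor d b ▸ h.toH4.pφ _ v : Commute (M.h d * p b * (M.h d)⁻¹) _).symm]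
    rw [← conj_eq_iff.2 (h.tor d b ▸ h.toH4.pφ _ v : Commute (M.h d * p b * (M.h d)⁻¹) _).symm]
    group
  have e2 : ∀ b, Commute (p a) (w * (t * p b * t) * w⁻¹) := fun b => by
    obtain ⟨k, rfl | rfl⟩ := hw
    · exact c4_all c h a1 g k a b
    · have e := comm_conj' M.n8n8 (c4_all c h a1 g (k - 1) a b)
      rw [h.toH4.n8_p] at e
      rw [n1_mul_rho, mul_inv_rev, n8_inv]
      simpa only [rot, mul_assoc] using e
  have e3 := comm_conj (e2 (d.1 * T.θ d.1 * b)) (M.φ u)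
  rw [conj_eq_iff.2 (h.toH4.pφ a u).symm, ← e1] at e3
  convert e3 using 1
  group

end Frame

theorem wre : WreStmt.{u, v} := by
  intro K _ _ T G _ _ M t c p r e h a1 he g hn S _ ⟨eS⟩ hS
  subst he
  have c' := c.toCtx
  have f4 := h.toH4.f4
  let I : Set G := {g | ∃ l ∈ M.X, ∃ a, g = l * p a * l⁻¹}
  have hI : ∀ l ∈ M.X, ∀ a, l * p a * l⁻¹ * (t * (l * p a * l⁻¹) * t⁻¹) =
      l * M.φ (x4 T a) * l⁻¹ := fun l hl a => by
    rw [c'.t_inv, t_conj c' hl, conj_mul, f4.tconj c', ← mul_assoc (p a), f4.sq, one_mul]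
  have com : ∀ a ∈ closure I, ∀ b ∈ closure I, Commute a (t * b * t⁻¹) := fun a ha b hb => by
    induction ha, hb using closure_induction₂ with
    | mem x y hx hy =>
      obtain ⟨l, hl, a, rfl⟩ := hx
      obtain ⟨m, hm, b, rfl⟩ := hy
      have := comm_conj (c4_L c' h a1 g (mul_mem (inv_mem hl) hm) a b) l
      rw [c'.t_inv, t_conj c' hm]
      convert this using 1
      group
    | one_left => exact Commute.one_left _
    | one_right => simp
    | mul_left _ _ _ _ _ _ h1 h2 => exact h1.mul_left h2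
    | mul_right _ _ _ _ _ _ h1 h2 => rw [← conj_mul]; exact h1.mul_right h2
    | inv_left _ _ _ _ h1 => exact h1.inv_left
    | inv_right _ _ _ _ h1 => rw [← conj_inv]; exact h1.inv_right
  let ψ : closure I × closure I →* G := MonoidHom.noncommCoprod (closure I).subtype
    ((MulAut.conj t).toMonoidHom.comp (closure I).subtype) fun a b => com a a.2 b b.2
  let f : closure I →* G := ψ.comp ((MonoidHom.id _).prod (MonoidHom.id _))
  have hf : ∀ a, f a = a * (t * a * t⁻¹) := fun _ => rfl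
  have nI : ∀ l ∈ M.X, ∀ a ∈ closure I, l * a * l⁻¹ ∈ closure I := fun l hl a ha =>
    (closure_le ((closure I).comap (MulAut.conj l).toMonoidHom)).2 (by
      rintro _ ⟨m, hm, b, rfl⟩
      exact subset_closure ⟨l * m, mul_mem hl hm, b, by simp [mul_assoc]⟩) ha
  have mem : ∀ a ∈ closure I, a * (t * a * t⁻¹) ∈ M.X := fun a ha => by
    induction ha using closure_induction with
    | mem x hx =>
      obtain ⟨l, hl, a, rfl⟩ := hx
      rw [hI l hl]
      exact mul_mem (mul_mem hl (φX M _)) (inv_mem hl)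
    | one => simp
    | mul x y hx hy h1 h2 => exact hf ⟨x * y, mul_mem hx hy⟩ ▸ map_mul f ⟨x, hx⟩ ⟨y, hy⟩ ▸ mul_mem h1 h2
    | inv x hx h1 => exact hf ⟨x⁻¹, inv_mem hx⟩ ▸ map_inv f ⟨x, hx⟩ ▸ inv_mem h1
  have pI : ∀ a, p a ∈ closure I := fun a => subset_closure ⟨1, one_mem _, a, by simp⟩
  have x1 : M.φ (x4 T 1) ≠ 1 := fun e => x4_ne one_ne_zero (φ_eq_one M e)
  have simple := c'.simple
  have sur : ∀ l ∈ M.X, ∃ a ∈ closure I, l = a * (t * a * t⁻¹) := by
    have : (f.range.subgroupOf M.X).Normal := ⟨fun x ⟨a, e⟩ l => ⟨⟨_, nI l l.2 a a.2⟩, by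
      change _ = (l : G) * (x : G) * (l : G)⁻¹
      rw [hf, ← show f a = (x : G) from e, hf, c'.t_inv, t_conj c' l.2, conj_mul]⟩⟩
    rcases this.eq_bot_or_eq_top with e | e
    · have k : (⟨_, φX M (x4 T 1)⟩ : M.X) ∈ f.range.subgroupOf M.X :=
        ⟨⟨_, pI 1⟩, by simpa [hf] using hI 1 (one_mem _) 1⟩
      rw [e, mem_bot] at k
      exact absurd (congrArg (Subtype.val : M.X → G) k) x1
    · intro l hl
      obtain ⟨a, k⟩ : (⟨l, hl⟩ : M.X) ∈ f.range.subgroupOf M.X := e ▸ mem_top _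
      exact ⟨a, a.2, k.symm⟩
  have perf : ⁅M.X, M.X⁆ = M.X := by
    rcases (inferInstance : (commutator M.X).Normal).eq_bot_or_eq_top with e | e
    · rw [commutator_eq_bot_iff_center_eq_top] at e
      exact absurd (c'.zl _ (φX M _) fun l hl => congrArg Subtype.val
        (mem_center_iff.1 (e ▸ mem_top (⟨_, φX M (x4 T 1)⟩ : M.X)) ⟨l, hl⟩)) x1
    · have := congrArg (map M.X.subtype) e
      rwa [commutator_def, map_commutator, ← MonoidHom.range_eq_map, range_subtype] at this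
  have w : WD M.X (closure I) t :=
    ⟨c'.tt, fun H k => (closure_le H).2 fun x hx => k x (subset_closure hx) (by
        obtain ⟨l, -, a, rfl⟩ := hx
        rw [conj_mul, f4.sq]; group), com, mem, sur,
      fun k h1 h2 h3 => c.r2 k h1 h2 ⟨1, by rwa [pow_one, pow_two]⟩,
      ⟨_, pI 1, fun e => x1 (by
        have := f4.mov 1
        rwa [conj_eq_iff.2 e, left_eq_mul] at this)⟩, perf, c'.zl⟩
  have eG : G0 M p = w.ψ.range := by
    refine le_antisymm (sup_le (fun l hl => ?_) ((closure_le _).2 ?_)) ?_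
    · obtain ⟨a, ha, e⟩ := sur l hl
      exact ⟨(⟨a, ha⟩, ⟨a, ha⟩), e.symm⟩
    · rintro _ ⟨a, rfl⟩
      exact ⟨(⟨_, pI a⟩, 1), by simp [WD.ψ_apply]⟩
    · have k : closure I ≤ G0 M p := (closure_le _).2 (by
        rintro _ ⟨l, hl, a, rfl⟩
        exact mul_mem (mul_mem (mem_sup_left hl) (mem_sup_right (subset_closure ⟨a, rfl⟩)))
          (inv_mem (mem_sup_left hl)))
      rintro _ ⟨⟨a, b⟩, rfl⟩
      exact mul_mem (k a.2) ((mem_normalizer_iff.1 (hn.cn t (Commute.refl t)) _).1 (k b.2))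
  rw [eG]
  have q := c'.q8
  refine w.main eS hS (m := Nat.card K ^ 10) (fun j hj jj => ?_) fun P h1 h2 =>
    (hn.bound P h1 h2).trans_lt ?_
  · obtain ⟨l, hl, a, e⟩ := inv_cls M c'.syl hj jj
    obtain ⟨u, e, hu⟩ : ∃ u, l * j * l⁻¹ = M.φ u ∧ ∀ y ∈ Tc T, y * u = u * y := by
      rcases e with e | e
      · exact ⟨_, e, fun y _ => cZ _ (x4_mem a) y⟩
      · refine ⟨_, e, fun y hy => ?_⟩
        by_cases h0 : a = 0
        · simp [h0, x5_zero]
        · exact mem_centralizer_singleton_iff.1 (c5 (T := T) a h0 ▸ hy)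
    have hi : Function.Injective ((MulAut.conj l⁻¹).toMonoidHom.comp M.φ) :=
      (MulAut.conj l⁻¹).injective.comp M.inj
    refine ⟨(Tc T).map ((MulAut.conj l⁻¹).toMonoidHom.comp M.φ), ?_,
      (isPGroup_U.to_subgroup _).map _, by rw [card_map_of_injective hi, card_Tc], ?_⟩
    · rintro _ ⟨y, -, rfl⟩
      exact mul_mem (mul_mem (inv_mem hl) (φX M y)) (inv_mem (inv_mem hl))
    · rintro _ ⟨y, hy, rfl⟩
      have := comm_conj (e ▸ (φ_comm M).2 (hu y hy)) l⁻¹
      simpa [mul_assoc] using this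
  · rw [← pow_add, show 10 + 10 = 8 + 12 from rfl, pow_add]
    refine Nat.mul_lt_mul_of_pos_right ?_ (pow_pos (by omega) _)
    calc 2 < 8 ^ 8 := by norm_num
      _ ≤ _ := Nat.pow_le_pow_left q 8

set_option linter.unusedTactic false in
theorem eqns_RfWre : True := by
  have := @WD.ψ.eq_1.{0}
  have := @WD.f.eq_1.{0}
  trivial

end Cfsg.Agent.H24.RfW
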