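import Cfsg.Agent.H58.SWDefs

/-! Project SW, piece KV: unipotent elements. -/

set_option autoImplicit false
open Matrix Cfsg

namespace Cfsg.Agent.H24.SwKv

open Cfsg.Agent.H58.SW

theorem mem_of_cop {G : Type} [Group G] (Z : Subgroup G) {x : G} {m k : ℕ} (h : m.Coprime k)
    (h1 : x ^ m ∈ Z) (h2 : x ^ k ∈ Z) : x ∈ Z := by
  have e : x = (x ^ m) ^ Nat.gcdA m k * (x ^ k) ^ Nat.gcdB m k := by
    rw [← _root_.zpow_natCast, ← _root_.zpow_natCast, ← _root_.zpow_mul, ← _root_.zpow_mul,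
      ← _root_.zpow_add, ← Nat.gcd_eq_gcd_ab, h.gcd_eq_one, Nat.cast_one, _root_.zpow_one]
  rw [e]
  exact Z.mul_mem (Z.zpow_mem h1 _) (Z.zpow_mem h2 _)

variable {F : Type} [Field F] [Fintype F] [DecidableEq F] {n : ℕ} (c : Cl F n)

theorem upow (g : Gl n F) : Unip g ↔ ∃ k : ℕ, g ^ (c.p ^ k) = 1 := by
  haveI := c.chr
  haveI : Fact c.p.Prime := ⟨c.hp⟩
  haveI : Nonempty (Fin n) := ⟨⟨0, by have := c.hn; omega⟩⟩
  have key : ∀ k : ℕ, ((g : Mt n F) - 1) ^ c.p ^ k = ((g ^ c.p ^ k : Gl n F) : Mt n F) - 1 := by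
    intro k
    rw [sub_pow_char_pow_of_commute c.p k (Commute.one_right _), one_pow, Units.val_pow_eq_pow_val]
  constructor
  · rintro ⟨m, hm⟩
    refine ⟨m, Units.ext ?_⟩
    have h1 := key m
    rw [pow_eq_zero_of_le (Nat.lt_pow_self c.hp.one_lt).le hm] at h1
    exact sub_eq_zero.1 h1.symm
  · rintro ⟨k, hk⟩
    exact ⟨c.p ^ k, by rw [key, hk, Units.val_one, sub_self]⟩

include c in
theorem udet (g : Gl n F) (h : Unip g) : (g : Mt n F).det = 1 := by
  haveI := c.chr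
  haveI : Fact c.p.Prime := ⟨c.hp⟩
  obtain ⟨k, hk⟩ := (upow c g).1 h
  have h1 : (g : Mt n F).det ^ c.p ^ k = 1 := by
    rw [← det_pow, ← Units.val_pow_eq_pow_val, hk, Units.val_one, det_one]
  have h2 : ((g : Mt n F).det - 1) ^ c.p ^ k = 0 := by
    rw [sub_pow_char_pow, h1, one_pow, sub_self]
  exact sub_eq_zero.1 (pow_eq_zero_iff (pow_ne_zero k c.hp.ne_zero) |>.1 h2)

include c in
theorem nil (ν : Mt n F) (h : IsNilpotent ν) :
    ∃ g : Gl n F, (g : Mt n F) = 1 + ν ∧ (g : Mt n F).det = 1 ∧ Unip g := by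
  obtain ⟨g, hg⟩ := h.isUnit_one_add
  have hu : Unip g := by
    unfold Unip
    rw [hg, add_sub_cancel_left]
    exact h
  exact ⟨g, hg, udet c g hu, hu⟩

theorem uz (ka : KA c) (z : Gl n F) (hz : z ∈ c.Z) (h : Unip z) : z = 1 := by
  obtain ⟨k, hk⟩ := (upow c z).1 h
  have h1 : z ^ c.zc = 1 := by
    have := pow_card_eq_one' (G := c.Z) (x := ⟨z, hz⟩)
    rw [ka.card_Z] at this
    exact congrArg Subtype.val this
  have h2 : (c.p ^ k).Coprime c.zc := ((Nat.Prime.coprime_iff_not_dvd c.hp).2 ka.pz).pow_left k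
  exact Subgroup.mem_bot.1 (mem_of_cop ⊥ h2 (Subgroup.mem_bot.2 hk) (Subgroup.mem_bot.2 h1))

theorem vv (v w v' w' : Vc n F) : vecMulVec v (c.bar w) * vecMulVec v' (c.bar w') =
    c.hf v' w • vecMulVec v (c.bar w') := by
  rw [vecMulVec_mul_vecMulVec, vecMulVec_smul, dotProduct_comm]
  rfl

theorem eich (ka : KA c) (hu : c.u = true) (y w : Vc n F) (θ : F) (h1 : c.hf y y = 0)
    (h2 : c.hf y w = 0) (h3 : θ + θ ^ c.q = c.hf w w) :
    ∃ g ∈ c.S, Unip g ∧ (g : Mt n F) =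
      1 + vecMulVec y (c.bar w) - vecMulVec w (c.bar y) - θ • vecMulVec y (c.bar y) := by
  have hq : c.q ≠ 0 := by have := ka.two_le; omega
  have h4 : c.hf w y = 0 := by rw [ka.hf_symm hu y w, h2, zero_pow hq]
  have sB := ka.st_vec hu y w
  have sC := ka.st_vec hu w y
  have sN := ka.st_vec hu y y
  have BB := vv c y w y w
  have BC := vv c y w w y
  have BN := vv c y w y y
  have CB := vv c w y y w
  have CC := vv c w y w y
  have CN := vv c w y y y
  have NB := vv c y y y w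
  have NC := vv c y y w y
  have NN := vv c y y y y
  generalize vecMulVec y (c.bar w) = B at *
  generalize vecMulVec w (c.bar y) = C at *
  generalize vecMulVec y (c.bar y) = N at *
  simp only [h1, h2, h4, zero_smul] at BB BN CB CC CN NB NC NN
  have e2 : (B - C - θ • N) * (B - C - θ • N) = -(c.hf w w • N) := by
    simp only [sub_mul, mul_sub, smul_mul_assoc, mul_smul_comm, BB, BC, BN, CB, CC, CN, NB, NC, NN,
      smul_zero, sub_zero, zero_sub]
  have e3 : (B - C - θ • N) ^ 3 = 0 := by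
    rw [pow_succ, pow_two, e2]
    simp only [neg_mul, mul_sub, smul_mul_assoc, mul_smul_comm, NB, NC, NN, smul_zero, sub_self,
      neg_zero]
  obtain ⟨g, hg, hd, hn⟩ := nil c _ ⟨3, e3⟩
  refine ⟨g, (ka.mem_S g).2 ⟨(ka.mem_St g).2 fun _ => ?_, hd⟩, hn, by rw [hg]; abel⟩
  rw [hg, ka.st_add hu, ka.st_sub hu, ka.st_sub hu, ka.st_smul, ka.st_one, sB, sC, sN]
  simp only [add_mul, mul_add, one_mul, mul_one, sub_mul, mul_sub, smul_mul_assoc, mul_smul_comm,
    BB, BC, BN, CB, CC, CN, NB, NC, NN, smul_zero, ← h3, add_smul]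
  abel

theorem tvU (ka : KA c) (hu : c.u = true) (v : Vc n F) (a : F) (h1 : c.hf v v = 0)
    (h2 : a ^ c.q = -a) : ∃ g ∈ c.S, Unip g ∧ (g : Mt n F) = 1 + a • vecMulVec v (c.bar v) := by
  have sN := ka.st_vec hu v v
  have NN := vv c v v v v
  generalize vecMulVec v (c.bar v) = N at *
  rw [h1, zero_smul] at NN
  have e2 : (a • N) ^ 2 = 0 := by
    rw [pow_two, smul_mul_assoc, mul_smul_comm, NN, smul_zero, smul_zero]
  obtain ⟨g, hg, hd, hn⟩ := nil c _ ⟨2, e2⟩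
  refine ⟨g, (ka.mem_S g).2 ⟨(ka.mem_St g).2 fun _ => ?_, hd⟩, hn, hg⟩
  rw [hg, ka.st_add hu, ka.st_smul, ka.st_one, sN, h2]
  simp only [add_mul, mul_add, one_mul, mul_one, smul_mul_assoc, mul_smul_comm, NN, smul_zero,
    neg_smul, neg_mul]
  abel

theorem kv (hKA : KAStmt) : KVStmt := by
  intro F _ _ _ n c
  have ka := hKA F n c
  refine ⟨nil c, udet c, upow c, uz c ka, tvU c ka, eich c ka, ?_, ?_⟩
  · intro r H Q L hr x hx hu
    obtain ⟨k, hk⟩ := L.rgrp x hx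
    obtain ⟨j, hj⟩ := (upow c x).1 hu
    have h1 : x ^ r ^ k = 1 := uz c ka _ hk ((upow c _).2 ⟨j, by
      rw [← pow_mul, mul_comm, pow_mul, hj, one_pow]⟩)
    have h2 : (r ^ k).Coprime (c.p ^ j) :=
      Nat.Coprime.pow k j ((Nat.coprime_primes L.prime c.hp).2 hr)
    exact Subgroup.mem_bot.1 (mem_of_cop ⊥ h2 (Subgroup.mem_bot.2 h1) (Subgroup.mem_bot.2 hj))
  · intro r H Q L x hx m hm h
    obtain ⟨k, hk⟩ := L.rgrp x hx
    exact mem_of_cop _ (hm.pow_right k) h hk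

end Cfsg.Agent.H24.SwKv
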