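import Cfsg.Agent.H24.SwKv

/-! Project SW, piece PAR4L: the parabolic case for linear groups. -/

set_option autoImplicit false
set_option linter.unusedSectionVars false
open Matrix Cfsg

namespace Cfsg.Agent.H24.SwPar4

open Cfsg.Agent.H58.SW

variable {F : Type} [Field F] [Fintype F] [DecidableEq F] {n : ℕ}

theorem mul_mv (g h : Gl n F) (v : Vc n F) :
    ((g * h : Gl n F) : Mt n F) *ᵥ v = (g : Mt n F) *ᵥ ((h : Mt n F) *ᵥ v) := by
  rw [Units.val_mul, mulVec_mulVec]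

theorem inv_mv (g : Gl n F) (v : Vc n F) :
    ((g⁻¹ : Gl n F) : Mt n F) *ᵥ ((g : Mt n F) *ᵥ v) = v := by
  rw [← mul_mv, inv_mul_cancel, Units.val_one, one_mulVec]

theorem mv_inv (g : Gl n F) (v : Vc n F) :
    (g : Mt n F) *ᵥ (((g⁻¹ : Gl n F) : Mt n F) *ᵥ v) = v := by
  rw [← mul_mv, mul_inv_cancel, Units.val_one, one_mulVec]

theorem stab_mul {g h : Gl n F} {W : Submodule F (Vc n F)} (hg : Stab g W) (hh : Stab h W) :
    Stab (g * h) W := fun v hv => by rw [mul_mv]; exact hg _ (hh v hv)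

theorem stab_inv {g : Gl n F} {W : Submodule F (Vc n F)} (hg : Stab g W) : Stab g⁻¹ W := by
  have h1 : ∀ k : ℕ, Stab (g ^ k) W := by
    intro k
    induction k with
    | zero => intro v hv; rwa [pow_zero, Units.val_one, one_mulVec]
    | succ k ih => rw [pow_succ]; exact stab_mul ih hg
  have h2 : g⁻¹ = g ^ (orderOf g - 1) := by
    refine inv_eq_of_mul_eq_one_right ?_
    rw [← pow_succ', Nat.sub_add_cancel (orderOf_pos g), pow_orderOf_eq_one]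
  rw [h2]
  exact h1 _

theorem exists_fun {W : Submodule F (Vc n F)} {v : Vc n F} (hv : v ∉ W) :
    ∃ f : Vc n F, f ⬝ᵥ v = 1 ∧ ∀ w ∈ W, f ⬝ᵥ w = 0 := by
  obtain ⟨l, h1, h2⟩ := W.exists_dual_map_eq_bot_of_notMem hv inferInstance
  have e : ∀ x : Vc n F, (fun i => l (Pi.single i 1)) ⬝ᵥ x = l x := by
    intro x
    conv_rhs => rw [pi_eq_sum_univ' x]
    simp [dotProduct, map_sum, mul_comm]
  refine ⟨(l v)⁻¹ • fun i => l (Pi.single i 1), ?_, fun w hw => ?_⟩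
  · rw [smul_dotProduct, e, smul_eq_mul, inv_mul_cancel₀ h1]
  · have : l w = 0 := (Submodule.mem_bot F).1 (h2 ▸ Submodule.mem_map_of_mem hw)
    rw [smul_dotProduct, e, this, smul_zero]

theorem tvx (c : Cl F n) (u f : Vc n F) (h : f ⬝ᵥ u = 0) : ∃ g : Gl n F, (g : Mt n F).det = 1 ∧
    (∀ v, (g : Mt n F) *ᵥ v = v + (f ⬝ᵥ v) • u) ∧
    ∀ v, ((g⁻¹ : Gl n F) : Mt n F) *ᵥ v = v - (f ⬝ᵥ v) • u := by
  obtain ⟨g, hg, hd, -⟩ := SwKv.nil c (vecMulVec u f) ⟨2, by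
    rw [pow_two, vecMulVec_mul_vecMulVec, h, zero_smul, vecMulVec_zero]⟩
  have h1 : ∀ v, (g : Mt n F) *ᵥ v = v + (f ⬝ᵥ v) • u := fun v => by
    rw [hg, add_mulVec, one_mulVec, vecMulVec_mulVec, op_smul_eq_smul]
  refine ⟨g, hd, h1, fun v => ?_⟩
  have h2 : (g : Mt n F) *ᵥ (v - (f ⬝ᵥ v) • u) = v := by
    rw [h1, dotProduct_sub, dotProduct_smul, h, smul_zero, sub_zero, sub_add_cancel]
  conv_lhs => rw [← h2]
  rw [inv_mv]

theorem key0 (c : Cl F n) {Y Y' : Submodule F (Vc n F)} (hY : Y ≤ Y') {z : Gl n F} (hz1 : z ≠ 1)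
    (hz : Cen z Y Y') {W₁ W₂ : Submodule F (Vc n F)}
    (h : ∀ a : Gl n F, (a : Mt n F).det = 1 → Stab a Y → Stab a Y' → ∀ v ∈ W₁,
      ((a * z * a⁻¹ : Gl n F) : Mt n F) *ᵥ v - v ∈ W₂) : W₁ ≤ Y' ∨ Y ≤ W₂ := by
  by_cases h0 : W₁ ≤ Y'
  · exact Or.inl h0
  refine Or.inr fun y hy => ?_
  obtain ⟨w, hw, hw'⟩ := SetLike.not_le_iff_exists.1 h0
  obtain ⟨u, f, f1, f2, f3⟩ : ∃ u f : Vc n F, f ⬝ᵥ u = 0 ∧ (∀ v ∈ Y', f ⬝ᵥ v = 0) ∧
      (z : Mt n F) *ᵥ (w - (f ⬝ᵥ w) • u) - (w - (f ⬝ᵥ w) • u) ≠ 0 := by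
    by_cases h1 : (z : Mt n F) *ᵥ w - w = 0
    · obtain ⟨u, hu⟩ : ∃ u, (z : Mt n F) *ᵥ u - u ≠ 0 := by
        by_contra hc
        push Not at hc
        refine hz1 (Units.ext (Matrix.ext_of_mulVec_single fun j => ?_))
        rw [sub_eq_zero.1 (hc _), Units.val_one, one_mulVec]
      have h2 : w ∉ Y' ⊔ F ∙ u := by
        intro hm
        obtain ⟨y', hy', _, hu', e⟩ := Submodule.mem_sup.1 hm
        obtain ⟨k, rfl⟩ := Submodule.mem_span_singleton.1 hu'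
        have h3 : k • ((z : Mt n F) *ᵥ u - u) = 0 := by
          rw [← h1, ← e, mulVec_add, mulVec_smul, hz.1 y' hy', smul_sub]; abel
        rcases smul_eq_zero.1 h3 with rfl | h4
        · rw [zero_smul, add_zero] at e
          exact hw' (e ▸ hy')
        · exact hu h4
      obtain ⟨f, g1, g2⟩ := exists_fun h2
      refine ⟨u, f, g2 u (Submodule.mem_sup_right (Submodule.mem_span_singleton_self u)),
        fun v hv => g2 v (Submodule.mem_sup_left hv), fun e => hu ?_⟩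
      rw [g1, one_smul, mulVec_sub] at e
      rw [← neg_eq_zero, ← e, sub_eq_zero.1 h1]; abel
    · exact ⟨0, 0, by simp, by simp, by simpa using h1⟩
  obtain ⟨a, a1, a2, a3⟩ := tvx c u f f1
  have aY : ∀ v ∈ Y', (a : Mt n F) *ᵥ v = v := fun v hv => by rw [a2, f2 v hv, zero_smul, add_zero]
  have sa : Stab a Y := fun v hv => by rwa [aY v (hY hv)]
  have sa' : Stab a Y' := fun v hv => by rwa [aY v hv]
  have hy0 := hz.2 (w - (f ⬝ᵥ w) • u)
  have e0 : ∀ v ∈ Y', ((a * z * a⁻¹ : Gl n F) : Mt n F) *ᵥ (w - v) =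
      (z : Mt n F) *ᵥ (w - (f ⬝ᵥ w) • u) - (w - (f ⬝ᵥ w) • u) + (w - v) := by
    intro v hv
    have e1 : (z : Mt n F) *ᵥ (((a⁻¹ : Gl n F) : Mt n F) *ᵥ (w - v)) =
        ((z : Mt n F) *ᵥ (w - (f ⬝ᵥ w) • u) - (w - (f ⬝ᵥ w) • u)) +
          ((a⁻¹ : Gl n F) : Mt n F) *ᵥ (w - v) := by
      rw [a3, dotProduct_sub, f2 v hv, sub_zero, sub_right_comm, mulVec_sub _ _ v, hz.1 v hv]; abel
    rw [mul_mv, mul_mv, e1, mulVec_add, mv_inv, aY _ (hY hy0)]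
  generalize (z : Mt n F) *ᵥ (w - (f ⬝ᵥ w) • u) - (w - (f ⬝ᵥ w) • u) = y0 at f3 hy0 e0
  have m0 : y0 ∈ W₂ := by
    have h1 := h a a1 sa sa' w hw
    have h2 := e0 0 Y'.zero_mem
    rw [sub_zero] at h2
    rwa [h2, add_sub_cancel_right] at h1
  by_cases h1 : y0 ∈ F ∙ y
  · obtain ⟨k, rfl⟩ := Submodule.mem_span_singleton.1 h1
    have hk : k ≠ 0 := fun e => f3 (by rw [e, zero_smul])
    exact (W₂.smul_mem_iff hk).1 m0
  obtain ⟨g, g1, g2⟩ := exists_fun h1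
  obtain ⟨b, b1, b2, b3⟩ := tvx c y g (g2 y (Submodule.mem_span_singleton_self y))
  have sb : Stab b Y := fun v hv => by rw [b2]; exact Y.add_mem hv (Y.smul_mem _ hy)
  have sb' : Stab b Y' := fun v hv => by rw [b2]; exact Y'.add_mem hv (Y'.smul_mem _ (hY hy))
  have h2 := h (b * a) (by rw [Units.val_mul, det_mul, a1, b1, mul_one]) (stab_mul sb sa)
    (stab_mul sb' sa') w hw
  have e1 : b * a * z * (b * a)⁻¹ = b * (a * z * a⁻¹) * b⁻¹ := by group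
  have e2 : (b : Mt n F) *ᵥ (w - (g ⬝ᵥ w) • y) = w := by rw [← b3, mv_inv]
  rw [e1, mul_mv, mul_mv, b3, e0 _ (Y'.smul_mem _ (hY hy)), mulVec_add, e2, b2, g1, one_smul,
    add_sub_cancel_right] at h2
  exact (W₂.add_mem_iff_right m0).1 h2

theorem par4L (hKA : KAStmt) (hKT : KTStmt) (hKD : KDStmt) (hP3 : Par3LStmt) (hT : TriLStmt) :
    Par4LStmt := by
  intro F _ _ _ n c r H Q L hr hu Y Y' s X fl ca z hzX hz1 hzu hz
  have ka := hKA F n c
  have kt := hKT F n c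
  have hS : ∀ a : Gl n F, (a : Mt n F).det = 1 → a ∈ c.S := fun a ha =>
    (ka.mem_S a).2 ⟨(ka.mem_St a).2 fun e => by rw [hu] at e; exact absurd e (by decide), ha⟩
  let U : Submodule F (Vc n F) := Y.comap ((s⁻¹ : Gl n F) : Mt n F).mulVecLin
  let U' : Submodule F (Vc n F) := Y'.comap ((s⁻¹ : Gl n F) : Mt n F).mulVecLin
  have mU : ∀ v, v ∈ U ↔ ((s⁻¹ : Gl n F) : Mt n F) *ᵥ v ∈ Y := fun v => Iff.rfl
  have mU' : ∀ v, v ∈ U' ↔ ((s⁻¹ : Gl n F) : Mt n F) *ᵥ v ∈ Y' := fun v => Iff.rfl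
  have key : ∀ W₁ W₂ : Submodule F (Vc n F), (∀ a ∈ c.hat H, ∀ v ∈ W₁,
      ((s * (a * z * a⁻¹) * s⁻¹ : Gl n F) : Mt n F) *ᵥ v - v ∈ W₂) → W₁ ≤ U' ∨ U ≤ W₂ := by
    intro W₁ W₂ h
    rcases key0 c fl.le hz1 hz (W₁ := W₁.comap (s : Mt n F).mulVecLin)
      (W₂ := W₂.comap (s : Mt n F).mulVecLin) (fun a a1 a2 a3 v hv => by
        have h1 := h a (fl.mem a (hS a a1) a2 a3) _ hv
        change (s : Mt n F) *ᵥ _ ∈ W₂
        rw [mulVec_sub]
        rwa [mulVecLin_apply, mul_mv, mul_mv, inv_mv] at h1) with h1 | h1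
    · refine Or.inl fun v hv => (mU' v).2 (h1 ?_)
      change (s : Mt n F) *ᵥ _ ∈ W₁
      rwa [mv_inv]
    · refine Or.inr fun v hv => ?_
      have h2 : (s : Mt n F) *ᵥ _ ∈ W₂ := h1 ((mU v).1 hv)
      rwa [mv_inv] at h2
  have hX : ∀ a ∈ c.hat H, a * z * a⁻¹ ∈ X := fun a ha => kt.hatG H X ca.inv a ha z hzX
  have tri : ∀ a ∈ c.hat H, Tri (s * (a * z * a⁻¹) * s⁻¹) Y Y' := by
    intro a ha
    refine hT F n c r H Q L hr hu Y Y' fl _ (ca.cq _ (hX a ha)) ?_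
    obtain ⟨k, hk⟩ := (SwKv.upow c z).1 hzu
    exact (SwKv.upow c _).2 ⟨k, by rw [conj_pow, conj_pow, hk]; group⟩
  have i1 : Y ≤ U' := by
    refine (key Y ⊥ fun a ha v hv => ?_).resolve_right fun h => fl.nb ?_
    · rw [(tri a ha).1 v hv, sub_self]; exact Submodule.zero_mem _
    · refine eq_bot_iff.2 fun v hv => ?_
      have h1 : (s : Mt n F) *ᵥ v = 0 := h ((mU _).2 (by rwa [inv_mv]))
      rw [← inv_mv s v, h1, mulVec_zero]
      exact Submodule.zero_mem _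
  have i2 : U ≤ Y' := by
    refine (key ⊤ Y' fun a ha v _ => (tri a ha).2.2 v).resolve_left fun h => fl.nt ?_
    refine eq_top_iff.2 fun v _ => ?_
    have h1 := (mU' _).1 (h (Submodule.mem_top (x := (s : Mt n F) *ᵥ v)))
    rwa [inv_mv] at h1
  have i3 : Y' ≤ U' ∨ U ≤ Y := key Y' Y fun a ha v hv => (tri a ha).2.1 v hv
  have q1 : ∀ W : Submodule F (Vc n F), W ≤ W.comap ((s⁻¹ : Gl n F) : Mt n F).mulVecLin →
      Stab s W := fun W h => by
    have h1 : Stab s⁻¹ W := h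
    simpa using stab_inv h1
  have q2 : ∀ W : Submodule F (Vc n F), W.comap ((s⁻¹ : Gl n F) : Mt n F).mulVecLin ≤ W →
      Stab s W := fun W h v hv => h (by
    change ((s⁻¹ : Gl n F) : Mt n F) *ᵥ _ ∈ W
    rwa [inv_mv])
  have q3 : ∀ W : Submodule F (Vc n F), Stab s W →
      W.comap ((s⁻¹ : Gl n F) : Mt n F).mulVecLin = W := fun W h =>
    le_antisymm (fun v hv => by
      have h1 := h _ hv
      rwa [mulVecLin_apply, mv_inv] at h1) (stab_inv h)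
  have i4 : Stab s Y ∨ Stab s Y' := i3.symm.imp (q2 Y) (q1 Y')
  have nb : ¬ (Stab s Y ∧ Stab s Y') := fun h => ca.sH (fl.mem s ca.sS h.1 h.2)
  rcases fl.lin hu with e | ⟨ψ, hψ, t, ht, hn, d1, d2⟩
  · subst e
    exact nb ⟨i4.elim id id, i4.elim id id⟩
  have kd := hKD F n t hn
  have int : ∀ A B : Submodule F (Vc n F), Y ≤ B → A ≤ Y' →
      (∀ y ∈ c.hat H, ∀ v ∈ A, (y : Mt n F) *ᵥ v ∈ B) → A ≤ Y ∨ Y' ≤ B := by
    intro A B hB hA h
    let I : Submodule F (Vc n F) := Y' ⊓ ⨅ y : c.hat H, B.comap ((y : Gl n F) : Mt n F).mulVecLin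
    have mI : ∀ v, v ∈ I ↔ v ∈ Y' ∧ ∀ y ∈ c.hat H, (y : Mt n F) *ᵥ v ∈ B := fun v => by
      simp only [I, Submodule.mem_inf, Submodule.mem_iInf, Submodule.mem_comap, mulVecLin_apply,
        Subtype.forall]
    have h1 := (hP3 F n c hu Y Y' I fl.le fun a a1 a2 a3 v hv => (mI _).2
      ⟨a3 v ((mI v).1 hv).1, fun y hy => by
        rw [← mul_mv]
        exact ((mI v).1 hv).2 _ (mul_mem hy (fl.mem a a1 a2 a3))⟩).2.1
      (fun v hv => (mI v).2 ⟨fl.le hv, fun y hy => hB ((fl.st y hy).1 v hv)⟩)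
      (fun v hv => ((mI v).1 hv).1)
    rcases h1 with h1 | h1
    · exact Or.inl fun v hv => h1 ▸ (mI v).2 ⟨hA hv, fun y hy => h y hy v hv⟩
    · refine Or.inr fun v hv => ?_
      have h2 := ((mI v).1 (h1 ▸ hv)).2 1 (one_mem _)
      rwa [Units.val_one, one_mulVec] at h2
  have sur : Function.Surjective t.du := by
    haveI : Finite (Submodule F (Vc n F)) := Finite.of_injective _ SetLike.coe_injective
    exact Finite.injective_iff_surjective.1 fun W W' e =>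
      le_antisymm ((kd.le W' W).1 e.ge) ((kd.le W W').1 e.le)
  have du : ∀ W : Submodule F (Vc n F), (∀ h ∈ c.hat H, Stab h W) → ∀ y ∈ c.hat H,
      t.du U' ≤ (W.comap ((s⁻¹ : Gl n F) : Mt n F).mulVecLin).comap (y : Mt n F).mulVecLin ∨
      (W.comap ((s⁻¹ : Gl n F) : Mt n F).mulVecLin).comap (y : Mt n F).mulVecLin ≤ t.du U := by
    intro W hW y hy
    obtain ⟨N, hN⟩ := sur ((W.comap ((s⁻¹ : Gl n F) : Mt n F).mulVecLin).comap (y : Mt n F).mulVecLin)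
    rw [← hN, kd.le, kd.le]
    refine key N N fun a ha v hv => ?_
    have h1 := ca.w (MulAut.conj y * ψ) (mul_mem ((ka.mem_hat H y).1 hy).2 hψ) _ (inv_mem (hX a ha))
    have h2 := ht.2.2 (s * (a * z * a⁻¹)⁻¹ * s⁻¹)
    have e1 : (s * (a * z * a⁻¹)⁻¹ * s⁻¹)⁻¹ = s * (a * z * a⁻¹) * s⁻¹ := by group
    rw [if_pos hn, e1] at h2
    refine N.sub_mem ((kd.map _ N N).2 (fun x hx => ?_) v hv) hv
    rw [hN] at hx ⊢
    have h3 := hW _ h1 _ hx
    rw [MulAut.mul_apply, MulAut.conj_apply, mul_mv, mulVecLin_apply, mulVecLin_apply, mv_inv,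
      mul_mv, mul_mv, mul_mv, inv_mv, h2] at h3
    exact h3
  rcases i4 with h | h
  · have e : U = Y := q3 Y h
    have n1 : ¬ Y' ≤ U' := fun k => nb ⟨h, q1 Y' k⟩
    rcases int (t.du U') U' i1 (d1 ▸ (kd.le U' Y).2 i1) (fun y hy v hv => by
      rcases du Y' (fun k hk => (fl.st k hk).2) y hy with k | k
      · exact k hv
      · refine absurd ⟨h, q2 Y' fun x hx => ?_⟩ nb
        rw [e, d1] at k
        have h1 := (fl.st y hy).2 _ (k (x := ((y⁻¹ : Gl n F) : Mt n F) *ᵥ x) (by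
          change (y : Mt n F) *ᵥ _ ∈ U'
          rwa [mv_inv]))
        rwa [mv_inv] at h1) with k | k
    · exact n1 ((kd.le U' Y').1 (d2 ▸ k))
    · exact n1 k
  · have e : U' = Y' := q3 Y' h
    have n1 : ¬ U ≤ Y := fun k => nb ⟨q2 Y k, h⟩
    rcases int U (t.du U) (d2 ▸ (kd.le Y' U).2 i2) i2 (fun y hy v hv => by
      rcases du Y (fun k hk => (fl.st k hk).1) y⁻¹ (inv_mem hy) with k | k
      · refine absurd ⟨q1 Y fun x hx => ?_, h⟩ nb
        rw [e, d2] at k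
        have h1 : ((y⁻¹ : Gl n F) : Mt n F) *ᵥ _ ∈ U := k ((fl.st y hy).1 x hx)
        rwa [inv_mv] at h1
      · refine k ?_
        change ((y⁻¹ : Gl n F) : Mt n F) *ᵥ _ ∈ U
        rwa [inv_mv]) with k | k
    · exact n1 k
    · exact n1 ((kd.le Y U).1 (d1 ▸ k))

end Cfsg.Agent.H24.SwPar4
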