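import Cfsg.Agent.H97.U4Defs

/-!
# The Chevalley–Warning theorem for quadratic maps of elementary abelian groups
-/

set_option autoImplicit false

namespace Cfsg.Agent.H24.U4C

open MvPolynomial Module

universe u

theorem cw_lin {F : Type} [Field F] [Fintype F] (p : ℕ) [Fact p.Prime] [CharP F p] {A B : Type u}
    [AddCommGroup A] [AddCommGroup B] [Module F A] [Module F B] [Module.Finite F A]
    [Module.Finite F B] (L : A →ₗ[F] B) (β : A →ₗ[F] A →ₗ[F] B)
    (h : 2 * finrank F B < finrank F A) : ∃ t, t ≠ 0 ∧ L t + β t t = 0 := by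
  classical
  let a := Module.finBasis F A
  let b := Module.finBasis F B
  let f : Fin (finrank F B) → MvPolynomial (Fin (finrank F A)) F := fun j =>
    ∑ i, C (b.repr (L (a i)) j) * X i + ∑ i, ∑ k, C (b.repr (β (a i) (a k)) j) * (X i * X k)
  have hdeg : ∀ j, (f j).totalDegree ≤ 2 := fun j => by
    refine (totalDegree_add _ _).trans (max_le ?_ ?_)
    · refine totalDegree_finsetSum_le fun i _ => (totalDegree_mul _ _).trans ?_
      rw [totalDegree_C, totalDegree_X]
      omega
    · refine totalDegree_finsetSum_le fun i _ => totalDegree_finsetSum_le fun k _ =>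
        (totalDegree_mul _ _).trans ?_
      have := totalDegree_mul (X i : MvPolynomial (Fin (finrank F A)) F) (X k)
      rw [totalDegree_X, totalDegree_X] at this
      rw [totalDegree_C]
      omega
  have hev : ∀ (x : Fin (finrank F A) → F) j, eval x (f j) =
      b.repr (L (∑ i, x i • a i) + β (∑ i, x i • a i) (∑ i, x i • a i)) j := fun x j => by
    simp only [f, map_add, map_sum, map_mul, eval_C, eval_X, map_smul, LinearMap.sum_apply,
      LinearMap.smul_apply, Finsupp.coe_add, Finsupp.coe_finsetSum, Finsupp.coe_smul, Pi.add_apply,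
      Finset.sum_apply, Pi.smul_apply, smul_eq_mul, Finset.mul_sum]
    congr 1
    · exact Finset.sum_congr rfl fun i _ => mul_comm _ _
    · rw [Finset.sum_comm]
      exact Finset.sum_congr rfl fun i _ => Finset.sum_congr rfl fun k _ => by ring
  have h1 := char_dvd_card_solutions_of_fintype_sum_lt p (f := f) (by
    refine lt_of_le_of_lt (Finset.sum_le_card_nsmul _ _ 2 fun j _ => hdeg j) ?_
    simpa [mul_comm] using h)
  by_contra hn
  push Not at hn
  have h2 : Nat.card {x : Fin (finrank F A) → F // ∀ j, eval x (f j) = 0} = 1 := by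
    refine Nat.card_eq_one_iff_exists.2 ⟨⟨0, fun j => by rw [hev]; simp⟩, fun x => Subtype.ext ?_⟩
    have h3 : ∑ i, x.1 i • a i = 0 := by
      by_contra h3
      refine hn _ h3 (b.repr.injective (Finsupp.ext fun j => ?_))
      rw [← hev, x.2]
      simp
    exact funext (Fintype.linearIndependent_iff.1 a.linearIndependent x.1 h3)
  rw [Fintype.card_eq_nat_card, h2] at h1
  exact (Fact.out : p.Prime).ne_one (Nat.dvd_one.1 h1)

theorem cw_mod (p : ℕ) [Fact p.Prime] {A B : Type u} [AddCommGroup A] [AddCommGroup B] [Finite A]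
    [Finite B] [Module (ZMod p) A] [Module (ZMod p) B] (L : A →+ B) (β : A →+ A →+ B)
    (h : Nat.card B ^ 2 < Nat.card A) : ∃ t, t ≠ 0 ∧ L t + β t t = 0 := by
  let β' : A →ₗ[ZMod p] A →ₗ[ZMod p] B :=
    LinearMap.mk₂ (ZMod p) (fun t s => β t s) (fun t t' s => by simp)
      (fun c t s => ZMod.map_smul (β.flip s) c t) (fun t s s' => by simp)
      (fun c t s => ZMod.map_smul (β t) c s)
  refine cw_lin p (L.toZModLinearMap p) β' ?_
  rw [Module.natCard_eq_pow_finrank (K := ZMod p) (V := A),
    Module.natCard_eq_pow_finrank (K := ZMod p) (V := B), ← pow_mul, Nat.card_zmod,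
    Nat.pow_lt_pow_iff_right (Fact.out : p.Prime).one_lt] at h
  omega

theorem cw (p : ℕ) [Fact p.Prime] : H97.U4.CWStmt.{u} p := by
  intro A B _ _ _ _ hA hB L β h
  let _ := AddCommGroup.zmodModule hA
  let _ := AddCommGroup.zmodModule hB
  exact cw_mod p L β h

end Cfsg.Agent.H24.U4C
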