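import Cfsg.Agent.H42.VpDefs
import Cfsg.Agent.H24.PSolv

/-! Project VP, piece I2: a coprime automorphism fixing every class is trivial. -/

set_option autoImplicit false

namespace Cfsg.Agent.H24.VpI2

open Subgroup Cfsg.Agent.H42.Vp

universe u

theorem i2 : I2Stmt.{u} := by
  intro G _ _ p pp K hK x hc ⟨m, hm⟩ hx
  haveI := Fact.mk pp
  let D : Subgroup G :=
    { carrier := {g | ∀ k ∈ K, ∃ h ∈ K, g * k * g⁻¹ = h * k * h⁻¹}
      one_mem' := fun k _ => ⟨1, one_mem _, rfl⟩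
      mul_mem' := by
        intro a b ha hb k hk
        obtain ⟨h, hh, e⟩ := hb k hk
        obtain ⟨h', hh', e'⟩ := ha _ (hK.conj_mem k hk b)
        refine ⟨h' * h, mul_mem hh' hh, ?_⟩
        calc a * b * k * (a * b)⁻¹ = a * (b * k * b⁻¹) * a⁻¹ := by group
          _ = _ := by rw [e', e]; group
      inv_mem' := by
        intro a ha k hk
        obtain ⟨h, hh, e⟩ := ha _ (hK.conj_mem k hk a⁻¹)
        refine ⟨h⁻¹, inv_mem hh, ?_⟩
        calc a⁻¹ * k * a⁻¹⁻¹ = h⁻¹ * (h * (a⁻¹ * k * a⁻¹⁻¹) * h⁻¹) * h := by group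
          _ = _ := by rw [← e]; group }
  have hD : zpowers x ≤ D := zpowers_le_of_mem hx
  have pX : IsPGroup p (zpowers x) := by
    rintro ⟨_, j, rfl⟩
    exact ⟨m, Subtype.ext (by
      change (x ^ j) ^ p ^ m = 1
      rw [← zpow_natCast, ← zpow_mul, mul_comm, zpow_mul, zpow_natCast, hm, one_zpow])⟩
  have key : ∀ k ∈ K, ∃ h ∈ K, x * (h * k * h⁻¹) * x⁻¹ = h * k * h⁻¹ := by
    intro k hk
    let P := (zpowers x).map (MulAut.conj : G →* MulAut G)
    let Q := K.map (MulAut.conj : G →* MulAut G)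
    let B : SubMulAction P G := ⟨MulAction.orbit Q k, by
      rintro ⟨_, g, hg, rfl⟩ _ ⟨⟨_, h, hh, rfl⟩, rfl⟩
      obtain ⟨h', hh', e⟩ := hD hg _ (hK.conj_mem k hk h)
      refine ⟨⟨_, h' * h, mul_mem hh' hh, rfl⟩, ?_⟩
      change h' * h * k * (h' * h)⁻¹ = g * (h * k * h⁻¹) * g⁻¹
      rw [e]; group⟩
    have hd : Nat.card B ∣ Nat.card K := by
      have e : Nat.card B = (MulAction.stabilizer Q k).index :=
        (MulAction.index_stabilizer Q k).symm
      rw [e]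
      exact (index_dvd_card _).trans (card_map_dvd _ _)
    obtain ⟨⟨_, ⟨_, h, hh, rfl⟩, rfl⟩, hb⟩ :=
      (pX.map (MulAut.conj : G →* MulAut G)).nonempty_fixed_point_of_prime_not_dvd_card B
        fun h => pp.one_lt.ne' (Nat.eq_one_of_dvd_coprimes hc (h.trans hd) dvd_rfl)
    exact ⟨h, hh, congrArg Subtype.val (hb ⟨_, x, mem_zpowers x, rfl⟩)⟩
  have ht : (centralizer ({x} : Set G)).subgroupOf K = ⊤ := by
    refine eq_top_of_forall_conj_mem _ fun k => ?_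
    obtain ⟨h, hh, e⟩ := key k k.2
    refine ⟨⟨h, hh⟩⁻¹, mem_subgroupOf.2 (mem_centralizer_singleton_iff.2 ?_)⟩
    change h⁻¹⁻¹ * k * h⁻¹ * x = x * (h⁻¹⁻¹ * k * h⁻¹)
    rw [inv_inv]
    calc h * k * h⁻¹ * x = x * (h * k * h⁻¹) * x⁻¹ * x := by rw [e]
      _ = _ := by group
  intro k hk
  exact mem_centralizer_singleton_iff.1 (subgroupOf_eq_top.1 ht hk)

end Cfsg.Agent.H24.VpI2
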